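import Mathlib
import Cfsg.Prelude.Def_Local
import Cfsg.Agent.Helper3.SchurZ
import Cfsg.Agent.Helper4.HH123
import Cfsg.Agent.Lead.Hall

set_option autoImplicit false

namespace Cfsg.Agent.Helper6

universe u

/-- `H` is a `p`-complement: order prime to `p` and index a power of `p`. -/
def IsPCompl (p : ℕ) {G : Type*} [Group G] (H : Subgroup G) : Prop :=
  (Nat.card H).Coprime p ∧ ∃ n : ℕ, H.index = p ^ n

theorem IsPCompl.map_mk {G : Type*} [Group G] [Finite G] {p : ℕ} [Fact p.Prime] {H : Subgroup G}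
    (hH : IsPCompl p H) (N : Subgroup G) [N.Normal] :
    IsPCompl p (H.map (QuotientGroup.mk' N)) := by
  obtain ⟨hc, n, hn⟩ := hH
  refine ⟨Nat.Coprime.coprime_dvd_left (Subgroup.card_map_dvd _ _) hc, ?_⟩
  have h1 : (H.map (QuotientGroup.mk' N)).index ∣ p ^ n := by
    rw [← hn]; exact Subgroup.index_map_dvd H (QuotientGroup.mk'_surjective N)
  obtain ⟨j, -, hj⟩ := (Nat.dvd_prime_pow Fact.out).mp h1
  exact ⟨j, hj⟩

theorem IsPCompl.map_conj {G : Type*} [Group G] {p : ℕ} {H : Subgroup G}
    (hH : IsPCompl p H) (g : G) : IsPCompl p (H.map (MulAut.conj g).toMonoidHom) := by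
  obtain ⟨hc, n, hn⟩ := hH
  refine ⟨?_, n, ?_⟩
  · rw [Subgroup.card_map_of_injective (MulAut.conj g).injective]; exact hc
  · rw [← hn]; exact Subgroup.index_map_of_bijective (MulAut.conj g).bijective H

/-- A nontrivial `p`-solvable group has a nontrivial normal subgroup that is a `p`-group or a
`p'`-group. -/
theorem exists_normal_of_isPSolvable {G : Type*} [Group G] [Nontrivial G] {p : ℕ}
    (hG : Cfsg.IsPSolvable p G) :
    ∃ N : Subgroup G, N.Normal ∧ N ≠ ⊥ ∧
      ((∃ m : ℕ, Nat.card N = p ^ m) ∨ (Nat.card N).Coprime p) := by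
  obtain ⟨n, H, h0, hlast, hmono, hnorm, hfac⟩ := hG
  have key : ∀ i : Fin (n + 1), H i ≠ ⊥ → ∃ N : Subgroup G, N.Normal ∧ N ≠ ⊥ ∧
      ((∃ m : ℕ, Nat.card N = p ^ m) ∨ (Nat.card N).Coprime p) := by
    intro i
    induction i using Fin.induction with
    | zero => intro h; exact absurd h0 h
    | succ j ih =>
      intro hne
      by_cases hj : H j.castSucc = ⊥
      · refine ⟨H j.succ, hnorm _, hne, ?_⟩
        have := hfac j
        rw [hj, Subgroup.relIndex_bot_left] at this
        exact this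
      · exact ih hj
  apply key (Fin.last n)
  rw [hlast]
  exact top_ne_bot

theorem isPCompl_comap {G : Type u} [Group G] [Finite G] {p : ℕ} (N : Subgroup G) [N.Normal]
    (hN : (Nat.card N).Coprime p) (H' : Subgroup (G ⧸ N)) (hH' : IsPCompl p H') :
    IsPCompl p (H'.comap (QuotientGroup.mk' N)) := by
  obtain ⟨hc, n, hn⟩ := hH'
  refine ⟨?_, n, ?_⟩
  · rw [Cfsg.Agent.Lead.card_comap_mk' N H']
    exact Nat.Coprime.mul_left hc hN
  · rw [Subgroup.index_comap_of_surjective _ (QuotientGroup.mk'_surjective N)]; exact hn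

theorem exists_isPCompl_of_pgroup {G : Type u} [Group G] [Finite G] {p : ℕ} [Fact p.Prime]
    (N : Subgroup G) [N.Normal] (m : ℕ) (hN : Nat.card N = p ^ m) (H' : Subgroup (G ⧸ N))
    (hH' : IsPCompl p H') :
    ∃ H : Subgroup G, IsPCompl p H ∧ N ⊓ H = ⊥ ∧ N ⊔ H = H'.comap (QuotientGroup.mk' N) := by
  obtain ⟨hc, n, hn⟩ := hH'
  obtain ⟨L, hL⟩ : ∃ L, L = H'.comap (QuotientGroup.mk' N) := ⟨_, rfl⟩
  have hNL : N ≤ L := by
    rw [hL]
    intro x hx
    rw [Subgroup.mem_comap]
    have : (QuotientGroup.mk' N) x = 1 := (QuotientGroup.eq_one_iff x).mpr hx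
    rw [this]; exact H'.one_mem
  have hLcard : Nat.card L = Nat.card H' * Nat.card N := by
    rw [hL]; exact Cfsg.Agent.Lead.card_comap_mk' N H'
  have hidx : (N.subgroupOf L).index = Nat.card H' := by
    have h1 := Subgroup.card_mul_index (N.subgroupOf L)
    rw [Cfsg.Agent.Helper3.card_subgroupOf_of_le hNL, hLcard, mul_comm] at h1
    exact Nat.eq_of_mul_eq_mul_right Nat.card_pos h1
  have hcop : Nat.Coprime (Nat.card (N.subgroupOf L)) (N.subgroupOf L).index := by
    rw [Cfsg.Agent.Helper3.card_subgroupOf_of_le hNL, hidx, hN]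
    exact Nat.Coprime.pow_left m hc.symm
  obtain ⟨K, hK⟩ := Subgroup.exists_right_complement'_of_coprime hcop
  have hKcard : Nat.card K = Nat.card H' := by
    rw [Cfsg.Agent.Lead.card_of_isComplement' hK, hidx]
  obtain ⟨H, hHdef⟩ : ∃ H : Subgroup G, H = K.map L.subtype := ⟨_, rfl⟩
  have hHL : H ≤ L := by rw [hHdef]; exact Subgroup.map_subtype_le _
  have hHcard : Nat.card H = Nat.card H' := by
    rw [hHdef, Subgroup.card_map_of_injective (Subgroup.subtype_injective L), hKcard]
  have hNH : N ⊓ H = ⊥ := by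
    apply disjoint_iff.mp
    apply Subgroup.disjoint_of_coprime_natCard
    rw [hN, hHcard]
    exact Nat.Coprime.pow_left m hc.symm
  have hsup : N ⊔ H = L := by
    apply Subgroup.eq_of_le_of_card_ge (sup_le hNL hHL)
    rw [sup_comm, Cfsg.Agent.Lead.card_sup_of_inf_eq_bot H N (by rw [inf_comm]; exact hNH),
      hLcard, hHcard]
  refine ⟨H, ⟨?_, n + m, ?_⟩, hNH, by rw [← hL]; exact hsup⟩
  · rw [hHcard]; exact hc
  · have h1 := Subgroup.card_mul_index H
    have h2 := Subgroup.card_mul_index H'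
    have h3 := Subgroup.card_eq_card_quotient_mul_card_subgroup N
    rw [hHcard, h3, ← h2, hn, hN] at h1
    have h4 : Nat.card H' * H.index = Nat.card H' * (p ^ n * p ^ m) := by rw [h1]; ring
    rw [pow_add]
    exact Nat.eq_of_mul_eq_mul_left Nat.card_pos h4

/-- Modular law for a normal subgroup. -/
theorem modular_normal {G : Type*} [Group G] (N M H : Subgroup G) [N.Normal] (hNM : N ≤ M)
    (hM : M ≤ N ⊔ H) : N ⊔ (M ⊓ H) = M := by
  apply le_antisymm (sup_le hNM inf_le_left)
  intro g hg
  obtain ⟨n, hn, h, hh, rfl⟩ := Subgroup.mem_sup_of_normal_left.mp (hM hg)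
  have hhM : h ∈ M := by
    have := M.mul_mem (M.inv_mem (hNM hn)) hg
    simpa using this
  exact Subgroup.mul_mem _ (Subgroup.mem_sup_left hn) (Subgroup.mem_sup_right ⟨hhM, hh⟩)

/-- Hall's theorems for `p`-complements of `p`-solvable groups. -/
theorem psolv_hall_aux (p : ℕ) [Fact p.Prime] : ∀ (n : ℕ) (G : Type u) [Group G] [Finite G],
    Nat.card G = n → Cfsg.IsPSolvable p G →
    (∃ H : Subgroup G, IsPCompl p H) ∧
    (∀ H₁ H₂ : Subgroup G, IsPCompl p H₁ → IsPCompl p H₂ →
      ∃ g : G, H₂ = H₁.map (MulAut.conj g).toMonoidHom) ∧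
    (∀ U : Subgroup G, (Nat.card U).Coprime p →
      ∃ H : Subgroup G, IsPCompl p H ∧ ∃ g : G, U.map (MulAut.conj g).toMonoidHom ≤ H) := by
  intro n
  induction n using Nat.strong_induction_on with
  | _ n ih =>
    intro G _ _ hn hG
    by_cases htriv : Subsingleton G
    · have hbot : ∀ H : Subgroup G, H = ⊤ := by
        intro H
        rw [eq_top_iff]
        intro x _
        rw [Subsingleton.elim x 1]; exact H.one_mem
      have htop : IsPCompl p (⊤ : Subgroup G) := by
        refine ⟨?_, 0, ?_⟩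
        · rw [Subgroup.card_top, Nat.card_of_subsingleton (1 : G)]; exact Nat.coprime_one_left p
        · rw [Subgroup.index_top, pow_zero]
      refine ⟨⟨⊤, htop⟩, ?_, ?_⟩
      · intro H₁ H₂ _ _
        refine ⟨1, ?_⟩
        rw [hbot H₂, hbot (H₁.map _)]
      · intro U _
        exact ⟨⊤, htop, 1, le_top⟩
    · haveI : Nontrivial G := not_subsingleton_iff_nontrivial.mp htriv
      obtain ⟨N, hNn, hNne, hNcase⟩ := exists_normal_of_isPSolvable hG
      haveI := hNn
      have hlt : Nat.card (G ⧸ N) < n := by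
        rw [← hn, Subgroup.card_eq_card_quotient_mul_card_subgroup N]
        have h1 : 1 < Nat.card N := (Subgroup.one_lt_card_iff_ne_bot N).mpr hNne
        have h2 : 0 < Nat.card (G ⧸ N) := Nat.card_pos
        nlinarith
      obtain ⟨hE, hC, hD⟩ := ih _ hlt (G ⧸ N) rfl (Cfsg.Agent.Helper4.isPSolvable_quotient hG N)
      have hπ : Function.Surjective (QuotientGroup.mk' N) := QuotientGroup.mk'_surjective N
      have hker : (QuotientGroup.mk' N).ker = N := QuotientGroup.ker_mk' N
      rcases hNcase with ⟨m, hm⟩ | hNcop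
      · -- N is a p-group
        have hNsol : Group.IsSolvable N := by
          haveI : Group.IsNilpotent N := (IsPGroup.of_card hm).isNilpotent
          infer_instance
        have hNcopOf : ∀ K : Subgroup G, (Nat.card K).Coprime p →
            (Nat.card N).Coprime (Nat.card K) := by
          intro K hK; rw [hm]; exact Nat.Coprime.pow_left m hK.symm
        refine ⟨?_, ?_, ?_⟩
        · obtain ⟨H', hH'⟩ := hE
          obtain ⟨H, hH, -, -⟩ := exists_isPCompl_of_pgroup N m hm H' hH'
          exact ⟨H, hH⟩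
        · intro H₁ H₂ h1 h2
          obtain ⟨g', hg'⟩ := hC _ _ (h1.map_mk N) (h2.map_mk N)
          obtain ⟨g, rfl⟩ := hπ g'
          have hpb := Cfsg.Agent.Helper3.conj_map_pullback (QuotientGroup.mk' N) g H₁ H₂ hg'.symm
          rw [hker] at hpb
          have hK := h1.map_conj g
          obtain ⟨x, hx, hxe⟩ := Cfsg.Agent.Helper3.sz_conj_rel N
            (H₁.map (MulAut.conj g).toMonoidHom) H₂
            (by rw [Subgroup.normalizer_eq_top]; exact le_top)
            (disjoint_iff.mp (Subgroup.disjoint_of_coprime_natCard (hNcopOf _ hK.1)))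
            (disjoint_iff.mp (Subgroup.disjoint_of_coprime_natCard (hNcopOf _ h2.1)))
            (by rw [sup_comm, hpb, sup_comm]) (hNcopOf _ hK.1) (Or.inl hNsol)
          refine ⟨x * g, ?_⟩
          rw [← hxe, Subgroup.map_map]
          congr 1
          ext y
          simp [mul_assoc]
        · intro U hU
          obtain ⟨H', hH', g', hg'⟩ := hD (U.map (QuotientGroup.mk' N))
            (Nat.Coprime.coprime_dvd_left (Subgroup.card_map_dvd _ _) hU)
          obtain ⟨g, rfl⟩ := hπ g'
          obtain ⟨H, hH, hNH, hsup⟩ := exists_isPCompl_of_pgroup N m hm H' hH'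
          obtain ⟨U₁, hU₁⟩ : ∃ U₁ : Subgroup G, U₁ = U.map (MulAut.conj g).toMonoidHom :=
            ⟨_, rfl⟩
          have hU₁c : (Nat.card U₁).Coprime p := by
            rw [hU₁, Subgroup.card_map_of_injective (MulAut.conj g).injective]; exact hU
          have hU₁L : U₁ ≤ N ⊔ H := by
            rw [hsup, hU₁]
            rintro _ ⟨u, hu, rfl⟩
            rw [Subgroup.mem_comap]
            apply hg'
            refine ⟨QuotientGroup.mk' N u, Subgroup.mem_map_of_mem _ hu, ?_⟩
            simp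
          have hmod := modular_normal N (N ⊔ U₁) H le_sup_left (sup_le le_sup_left hU₁L)
          obtain ⟨x, hx, hxe⟩ := Cfsg.Agent.Helper3.sz_conj_rel N U₁ ((N ⊔ U₁) ⊓ H)
            (by rw [Subgroup.normalizer_eq_top]; exact le_top)
            (disjoint_iff.mp (Subgroup.disjoint_of_coprime_natCard (hNcopOf _ hU₁c)))
            (by rw [eq_bot_iff, ← hNH]; exact inf_le_inf_left N inf_le_right)
            hmod.symm (hNcopOf _ hU₁c) (Or.inl hNsol)
          refine ⟨H, hH, x * g, ?_⟩
          have hmap : U.map (MulAut.conj (x * g)).toMonoidHom = (N ⊔ U₁) ⊓ H := by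
            rw [← hxe, hU₁, Subgroup.map_map]
            congr 1
            ext y
            simp [mul_assoc]
          rw [hmap]; exact inf_le_right
      · -- N is a p'-group
        have hNle : ∀ H : Subgroup G, IsPCompl p H → N ≤ H := by
          rintro H ⟨-, k, hk⟩
          exact Cfsg.Agent.Lead.normal_le_of_coprime_index N H
            (by rw [hk]; exact Nat.Coprime.pow_right k hNcop)
        refine ⟨?_, ?_, ?_⟩
        · obtain ⟨H', hH'⟩ := hE
          exact ⟨_, isPCompl_comap N hNcop H' hH'⟩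
        · intro H₁ H₂ h1 h2
          have hN1 : N ≤ H₁ := hNle H₁ h1
          have hN2 : N ≤ H₂ := hNle H₂ h2
          obtain ⟨g', hg'⟩ := hC _ _ (h1.map_mk N) (h2.map_mk N)
          obtain ⟨g, rfl⟩ := hπ g'
          have hpb := Cfsg.Agent.Helper3.conj_map_pullback (QuotientGroup.mk' N) g H₁ H₂ hg'.symm
          rw [hker] at hpb
          refine ⟨g, ?_⟩
          have hN1' : N ≤ H₁.map (MulAut.conj g).toMonoidHom := hNle _ (h1.map_conj g)
          rw [sup_eq_left.mpr hN1', sup_eq_left.mpr hN2] at hpb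
          exact hpb.symm
        · intro U hU
          obtain ⟨H', hH', g', hg'⟩ := hD (U.map (QuotientGroup.mk' N))
            (Nat.Coprime.coprime_dvd_left (Subgroup.card_map_dvd _ _) hU)
          obtain ⟨g, rfl⟩ := hπ g'
          refine ⟨_, isPCompl_comap N hNcop H' hH', g, ?_⟩
          rintro _ ⟨u, hu, rfl⟩
          rw [Subgroup.mem_comap]
          apply hg'
          refine ⟨QuotientGroup.mk' N u, Subgroup.mem_map_of_mem _ hu, ?_⟩
          simp

end Cfsg.Agent.Helper6
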