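import Mathlib

set_option autoImplicit false

namespace Cfsg.Agent.Helper6.M2

def g (c : List ℕ) (i : ℕ) : ℕ := c.getD i 0

def mulC (p : ℕ) (x y : List ℕ) : List ℕ :=
  [(g x 0 * g y 0 + g x 1 * g y 2) % p, (g x 0 * g y 1 + g x 1 * g y 3) % p,
   (g x 2 * g y 0 + g x 3 * g y 2) % p, (g x 2 * g y 1 + g x 3 * g y 3) % p]

def oneC : List ℕ := [1, 0, 0, 1]

def toMat (p : ℕ) (c : List ℕ) : Matrix (Fin 2) (Fin 2) (ZMod p) :=
  !![((g c 0 : ℕ) : ZMod p), ((g c 1 : ℕ) : ZMod p); ((g c 2 : ℕ) : ZMod p), ((g c 3 : ℕ) : ZMod p)]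

theorem toMat_mul (p : ℕ) (x y : List ℕ) : toMat p (mulC p x y) = toMat p x * toMat p y := by
  simp [toMat, mulC, g, ZMod.natCast_mod]

theorem toMat_one (p : ℕ) : toMat p oneC = 1 := by
  simp [toMat, oneC, g, Matrix.one_fin_two]

def evalW (p : ℕ) (gens : List (List ℕ)) (w : List ℕ) : List ℕ :=
  w.foldr (fun i acc => mulC p (gens.getD i oneC) acc) oneC

abbrev GL2 (p : ℕ) := Matrix.GeneralLinearGroup (Fin 2) (ZMod p)

theorem code_of_closure (p : ℕ) (S : Set (GL2 p)) (L : List (List ℕ)) (hone : oneC ∈ L)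
    (hS : ∀ s ∈ S, ∃ c ci : List ℕ, toMat p c = s.val ∧ toMat p ci = (s⁻¹ : GL2 p).val ∧
      (∀ d ∈ L, mulC p c d ∈ L) ∧ (∀ d ∈ L, mulC p ci d ∈ L)) :
    ∀ k ∈ Subgroup.closure S, ∃ c ∈ L, toMat p c = k.val := by
  intro k hk
  induction hk using Subgroup.closure_induction_left with
  | one => exact ⟨oneC, hone, toMat_one p⟩
  | mul_left x hx y hy ih =>
    obtain ⟨d, hd, hdy⟩ := ih
    obtain ⟨c, ci, hc, hci, h1, h2⟩ := hS x hx
    exact ⟨mulC p c d, h1 d hd, by rw [toMat_mul, hc, hdy]; rfl⟩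
  | inv_mul_cancel x hx y hy ih =>
    obtain ⟨d, hd, hdy⟩ := ih
    obtain ⟨c, ci, hc, hci, h1, h2⟩ := hS x hx
    exact ⟨mulC p ci d, h2 d hd, by rw [toMat_mul, hci, hdy]; rfl⟩

theorem real_of_word (p : ℕ) (S : Set (GL2 p)) (gens : List (List ℕ))
    (hg : ∀ c ∈ gens, ∃ s ∈ S, s.val = toMat p c) (w : List ℕ) :
    ∃ k ∈ Subgroup.closure S, k.val = toMat p (evalW p gens w) := by
  induction w with
  | nil => exact ⟨1, one_mem _, (toMat_one p).symm⟩
  | cons i w ih =>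
    obtain ⟨k, hk, hkv⟩ := ih
    show ∃ k ∈ Subgroup.closure S, k.val = toMat p (mulC p (gens.getD i oneC) (evalW p gens w))
    rw [toMat_mul]
    by_cases hi : i < gens.length
    · have hmem : gens.getD i oneC ∈ gens := by
        rw [List.getD_eq_getElem _ _ hi]; exact List.getElem_mem hi
      obtain ⟨s, hs, hsv⟩ := hg _ hmem
      exact ⟨s * k, mul_mem (Subgroup.subset_closure hs) hk, by rw [Units.val_mul, hsv, hkv]⟩
    · have h1 : gens.getD i oneC = oneC := List.getD_eq_default _ _ (not_lt.mp hi)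
      rw [h1, toMat_one, one_mul]
      exact ⟨k, hk, hkv⟩

def fixdet (p : ℕ) (c : List ℕ) : ℕ :=
  (g c 0 + (p - 1)) * (g c 3 + (p - 1)) + (p - 1) * (g c 1 * g c 2)

theorem fixdet_cast (p : ℕ) [Fact p.Prime] (c : List ℕ) :
    ((fixdet p c : ℕ) : ZMod p) = (toMat p c - 1).det := by
  have hp : ((p - 1 : ℕ) : ZMod p) = -1 := by
    have h1 : 1 ≤ p := (Fact.out : p.Prime).one_lt.le
    rw [Nat.cast_sub h1, ZMod.natCast_self]; simp
  rw [Matrix.det_fin_two]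
  simp [fixdet, toMat, hp]
  ring

theorem regular_of_codes (p : ℕ) [Fact p.Prime] (K : Subgroup (GL2 p)) (L : List (List ℕ))
    (hcode : ∀ k ∈ K, ∃ c ∈ L, toMat p c = k.val)
    (hreal : ∀ c ∈ L, ∃ k ∈ K, k.val = toMat p c)
    (hfix : ∀ c ∈ L, c = oneC ∨ fixdet p c % p ≠ 0)
    (hcol : ∀ x < p, ∀ y < p, (x ≠ 0 ∨ y ≠ 0) → ∃ c ∈ L, g c 0 % p = x ∧ g c 2 % p = y) :
    Nat.card K = p ^ 2 - 1 ∧ ∀ v w : Fin 2 → ZMod p, v ≠ 0 → w ≠ 0 →
      ∃! h : K, Matrix.mulVec ((h : GL2 p) : Matrix (Fin 2) (Fin 2) (ZMod p)) v = w := by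
  have hp : p.Prime := Fact.out
  haveI : NeZero p := ⟨hp.ne_zero⟩
  -- semiregularity
  have semireg : ∀ k ∈ K, ∀ v : Fin 2 → ZMod p, v ≠ 0 → Matrix.mulVec k.val v = v → k = 1 := by
    intro k hk v hv hkv
    obtain ⟨c, hc, hck⟩ := hcode k hk
    rcases hfix c hc with h1 | h1
    · apply Units.ext
      rw [← hck, h1, toMat_one]; rfl
    · exfalso
      apply hv
      have hdet : (k.val - 1).det ≠ 0 := by
        rw [← hck, ← fixdet_cast, Ne, ZMod.natCast_eq_zero_iff, Nat.dvd_iff_mod_eq_zero]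
        exact h1
      apply Matrix.eq_zero_of_mulVec_eq_zero hdet
      rw [Matrix.sub_mulVec, hkv, Matrix.one_mulVec, sub_self]
  -- base vector
  have he1 : (![1, 0] : Fin 2 → ZMod p) ≠ 0 := by
    intro h
    have h0 := congrFun h 0
    simp at h0
  have trans1 : ∀ w : Fin 2 → ZMod p, w ≠ 0 → ∃ k ∈ K, Matrix.mulVec k.val ![1, 0] = w := by
    intro w hw
    have hxy : (w 0).val ≠ 0 ∨ (w 1).val ≠ 0 := by
      by_contra hcon
      rw [not_or, not_not, not_not] at hcon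
      apply hw
      funext i
      fin_cases i
      · exact (ZMod.val_eq_zero _).mp hcon.1
      · exact (ZMod.val_eq_zero _).mp hcon.2
    obtain ⟨c, hc, h0, h2⟩ := hcol (w 0).val (ZMod.val_lt _) (w 1).val (ZMod.val_lt _) hxy
    obtain ⟨k, hk, hkv⟩ := hreal c hc
    refine ⟨k, hk, ?_⟩
    have e0 : ((g c 0 : ℕ) : ZMod p) = w 0 := by
      rw [← ZMod.natCast_mod, h0, ZMod.natCast_zmod_val]
    have e2 : ((g c 2 : ℕ) : ZMod p) = w 1 := by
      rw [← ZMod.natCast_mod, h2, ZMod.natCast_zmod_val]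
    rw [hkv]
    funext i
    fin_cases i
    · simp [toMat, Matrix.mulVec, dotProduct, Fin.sum_univ_two, e0]
    · simp [toMat, Matrix.mulVec, dotProduct, Fin.sum_univ_two, e2]
  have key : ∀ k1 ∈ K, ∀ k2 ∈ K, ∀ v : Fin 2 → ZMod p, v ≠ 0 →
      Matrix.mulVec k1.val v = Matrix.mulVec k2.val v → k1 = k2 := by
    intro k1 hk1 k2 hk2 v hv h
    have h1 : Matrix.mulVec (k2⁻¹ * k1 : GL2 p).val v = v := by
      rw [Units.val_mul, ← Matrix.mulVec_mulVec, h, Matrix.mulVec_mulVec, ← Units.val_mul,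
        inv_mul_cancel, Units.val_one, Matrix.one_mulVec]
    have h2 := semireg _ (mul_mem (inv_mem hk2) hk1) v hv h1
    calc k1 = k2 * (k2⁻¹ * k1) := by group
      _ = k2 := by rw [h2, mul_one]
  refine ⟨?_, ?_⟩
  · -- cardinality via the orbit map of e1
    have hbij : Function.Bijective
        (fun k : K => (⟨Matrix.mulVec (k : GL2 p).val ![1, 0], by
          intro h0
          have h1 : Matrix.mulVec ((k : GL2 p)⁻¹ * (k : GL2 p) : GL2 p).val ![1, 0] = 0 := by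
            rw [Units.val_mul, ← Matrix.mulVec_mulVec, h0, Matrix.mulVec_zero]
          rw [inv_mul_cancel, Units.val_one, Matrix.one_mulVec] at h1
          exact he1 h1⟩ : {v : Fin 2 → ZMod p // v ≠ 0})) := by
      constructor
      · intro k1 k2 h
        have h' := congrArg Subtype.val h
        exact Subtype.ext (key _ k1.2 _ k2.2 _ he1 h')
      · rintro ⟨w, hw⟩
        obtain ⟨k, hk, hkw⟩ := trans1 w hw
        exact ⟨⟨k, hk⟩, Subtype.ext hkw⟩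
    rw [Nat.card_eq_of_bijective _ hbij, Nat.card_eq_fintype_card, Fintype.card_subtype_compl,
      Fintype.card_subtype_eq]
    simp [ZMod.card]
  · intro v w hv hw
    obtain ⟨kv, hkv, ekv⟩ := trans1 v hv
    obtain ⟨kw, hkw, ekw⟩ := trans1 w hw
    have hmem : kw * kv⁻¹ ∈ K := mul_mem hkw (inv_mem hkv)
    have hvw : Matrix.mulVec (kw * kv⁻¹ : GL2 p).val v = w := by
      rw [← ekv, Matrix.mulVec_mulVec, ← Units.val_mul, inv_mul_cancel_right, ekw]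
    refine ⟨⟨kw * kv⁻¹, hmem⟩, hvw, ?_⟩
    intro h' hh'
    exact Subtype.ext (key _ h'.2 _ hmem v hv (hh'.trans hvw.symm))

theorem gen_ok (p : ℕ) (L : List (List ℕ)) (s : GL2 p) (c ci : List ℕ) (hc : s.val = toMat p c)
    (hinv : mulC p ci c = oneC) (h1 : ∀ d ∈ L, mulC p c d ∈ L) (h2 : ∀ d ∈ L, mulC p ci d ∈ L) :
    ∃ c ci : List ℕ, toMat p c = s.val ∧ toMat p ci = (s⁻¹ : GL2 p).val ∧
      (∀ d ∈ L, mulC p c d ∈ L) ∧ (∀ d ∈ L, mulC p ci d ∈ L) := by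
  refine ⟨c, ci, hc.symm, ?_, h1, h2⟩
  apply Units.eq_inv_of_mul_eq_one_right
  rw [hc, ← toMat_mul, hinv, toMat_one]

theorem main (p : ℕ) [Fact p.Prime] (S : Set (GL2 p)) (gens L W : List (List ℕ))
    (hone : oneC ∈ L)
    (hS : ∀ s ∈ S, ∃ c ci : List ℕ, toMat p c = s.val ∧ toMat p ci = (s⁻¹ : GL2 p).val ∧
      (∀ d ∈ L, mulC p c d ∈ L) ∧ (∀ d ∈ L, mulC p ci d ∈ L))
    (hg : ∀ c ∈ gens, ∃ s ∈ S, s.val = toMat p c)
    (hW : L = W.map (evalW p gens))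
    (hfix : ∀ c ∈ L, c = oneC ∨ fixdet p c % p ≠ 0)
    (hcol : ∀ x < p, ∀ y < p, (x ≠ 0 ∨ y ≠ 0) → ∃ c ∈ L, g c 0 % p = x ∧ g c 2 % p = y) :
    Nat.card (Subgroup.closure S) = p ^ 2 - 1 ∧ ∀ v w : Fin 2 → ZMod p, v ≠ 0 → w ≠ 0 →
      ∃! h : Subgroup.closure S,
        Matrix.mulVec ((h : GL2 p) : Matrix (Fin 2) (Fin 2) (ZMod p)) v = w := by
  refine regular_of_codes p (Subgroup.closure S) L (code_of_closure p S L hone hS) ?_ hfix hcol
  intro c hc
  rw [hW, List.mem_map] at hc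
  obtain ⟨w, -, rfl⟩ := hc
  exact real_of_word p S gens hg w

end Cfsg.Agent.Helper6.M2
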