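import Mathlib
import Cfsg.Agent.Helper6.M2
import Cfsg.Agent.Helper6.A10SD
import Cfsg.Agent.Helper5.Basic

set_option autoImplicit false

namespace Cfsg.Agent.Helper6.AGam

open Cfsg.Agent.Helper6.M2 Cfsg.Agent.Helper6.A10SD

/-! ### general lemmas -/

theorem subn_of_comm {G : Type*} [Group G] (a g : G) (h : Commute a g) :
    ((Subgroup.zpowers a).subgroupOf (Subgroup.zpowers a ⊔ Subgroup.zpowers g)).IsSubnormal := by
  have hle : Subgroup.zpowers a ⊔ Subgroup.zpowers g ≤
      Subgroup.normalizer (Subgroup.zpowers a : Set G) := by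
    apply sup_le Subgroup.le_normalizer
    rw [Subgroup.zpowers_le]
    apply Subgroup.centralizer_le_normalizer
    rw [Subgroup.mem_centralizer_iff]
    intro y hy
    obtain ⟨n, rfl⟩ := Subgroup.mem_zpowers_iff.mp hy
    exact (h.zpow_left n).eq
  exact (Subgroup.normal_subgroupOf_of_le_normalizer hle).isSubnormal

theorem subn_nilp {X : Type*} [Group X] [Finite X] [Group.IsNilpotent X] :
    ∀ (n : ℕ) (H : Subgroup X), H.index = n → H.IsSubnormal := by
  intro n
  induction n using Nat.strong_induction_on with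
  | _ n ih =>
    intro H hn
    by_cases hT : H = ⊤
    · rw [hT]; exact Subgroup.IsSubnormal.top
    · have hlt : H < Subgroup.normalizer (H : Set X) :=
        Group.normalizerCondition_of_isNilpotent H (lt_top_iff_ne_top.mpr hT)
      have hidx : (Subgroup.normalizer (H : Set X)).index < n := by
        rw [← hn]; exact Subgroup.index_strictAnti hlt
      exact Subgroup.IsSubnormal.step H _ Subgroup.le_normalizer (ih _ hidx _ rfl) inferInstance

theorem subn_of_pgroup {G : Type*} [Group G] (A X : Subgroup G) [Finite X] (hX : IsPGroup 2 X) :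
    (A.subgroupOf X).IsSubnormal := by
  haveI : Fact (Nat.Prime 2) := ⟨Nat.prime_two⟩
  haveI : Group.IsNilpotent X := hX.isNilpotent
  exact subn_nilp _ _ rfl

/-! ### the group `ΓL(1,9)` inside `GL(2,3)` -/

def cR : List ℕ := [1, 2, 1, 1]
def cRi : List ℕ := [2, 2, 1, 2]
def cS : List ℕ := [1, 0, 0, 2]
def L : List (List ℕ) := [[0, 1, 1, 0], [0, 1, 2, 0], [0, 2, 1, 0], [0, 2, 2, 0], [1, 0, 0, 1], [1, 0, 0, 2], [1, 1, 1, 2], [1, 1, 2, 1], [1, 2, 1, 1], [1, 2, 2, 2], [2, 0, 0, 1], [2, 0, 0, 2], [2, 1, 1, 1], [2, 1, 2, 2], [2, 2, 1, 2], [2, 2, 2, 1]]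
def W : List (List ℕ) := [[1, 0, 0], [0, 0], [1, 0, 0, 1], [0, 0, 1], [], [1], [0, 1], [0, 0, 0], [0], [1, 0], [0, 1, 0], [0, 0, 0, 0], [0, 1, 0, 0], [0, 0, 0, 0, 0], [1, 0, 0, 1, 0], [0, 0, 1, 0]]
def gensC : List (List ℕ) := [cR, cS]

theorem R_inv : mulC 3 cR cRi = oneC := by decide +kernel
theorem R_inv' : mulC 3 cRi cR = oneC := by decide +kernel
theorem S_inv : mulC 3 cS cS = oneC := by decide +kernel
theorem L_one : oneC ∈ L := by decide +kernel
theorem clos : ∀ c ∈ [cR, cRi, cS], ∀ d ∈ L, mulC 3 c d ∈ L := by decide +kernel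
theorem hW : L = W.map (evalW 3 gensC) := by decide +kernel
theorem hcol : ∀ x < 3, ∀ y < 3, (x ≠ 0 ∨ y ≠ 0) → ∃ c ∈ L, g c 0 % 3 = x ∧ g c 2 % 3 = y := by
  decide +kernel
def P8 (c : List ℕ) : List ℕ :=
  mulC 3 (mulC 3 (mulC 3 c c) (mulC 3 c c)) (mulC 3 (mulC 3 c c) (mulC 3 c c))
theorem hP8 : ∀ c ∈ L, P8 c = oneC := by decide +kernel
theorem hF3 : ∀ c ∈ L, c = oneC ∨ fixdet 3 c % 3 ≠ 0 ∨ ∃ x ∈ L, mulC 3 x c = mulC 3 cS x := by
  decide +kernel

def gR : GL2 3 := ⟨toMat 3 cR, toMat 3 cRi, by rw [← toMat_mul, R_inv, toMat_one],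
  by rw [← toMat_mul, R_inv', toMat_one]⟩
def gS : GL2 3 := ⟨toMat 3 cS, toMat 3 cS, by rw [← toMat_mul, S_inv, toMat_one],
  by rw [← toMat_mul, S_inv, toMat_one]⟩

abbrev Kg : Subgroup (GL2 3) := Subgroup.closure {gR, gS}

instance fact3 : Fact (Nat.Prime 3) := ⟨Nat.prime_three⟩

theorem K_code : ∀ k ∈ Kg, ∃ c ∈ L, toMat 3 c = k.val := by
  apply code_of_closure 3 _ L L_one
  intro s hs
  simp only [Set.mem_insert_iff, Set.mem_singleton_iff] at hs
  rcases hs with rfl | rfl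
  · exact ⟨cR, cRi, rfl, rfl, clos _ (by decide), clos _ (by decide)⟩
  · exact ⟨cS, cS, rfl, rfl, clos _ (by decide), clos _ (by decide)⟩

theorem K_real : ∀ c ∈ L, ∃ k ∈ Kg, k.val = toMat 3 c := by
  intro c hc
  rw [hW, List.mem_map] at hc
  obtain ⟨w, -, rfl⟩ := hc
  apply real_of_word 3 _ gensC _ w
  intro c hc
  simp only [gensC, List.mem_cons, List.not_mem_nil, or_false] at hc
  rcases hc with rfl | rfl
  · exact ⟨gR, by simp, rfl⟩
  · exact ⟨gS, by simp, rfl⟩

abbrev Mm := Fin 2 → ZMod 3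

instance instV : DistribMulAction ↥Kg Mm where
  smul k v := (k.1.val).mulVec v
  one_smul v := Matrix.one_mulVec v
  mul_smul k1 k2 v := by
    show ((k1 * k2).1.val).mulVec v = (k1.1.val).mulVec ((k2.1.val).mulVec v)
    rw [Matrix.mulVec_mulVec]; rfl
  smul_zero k := Matrix.mulVec_zero _
  smul_add k v w := Matrix.mulVec_add _ v w

theorem smul_def (k : ↥Kg) (v : Mm) : k • v = (k.1.val).mulVec v := rfl

abbrev G0 := SD ↥Kg Mm

def aK : ↥Kg := ⟨gS, Subgroup.subset_closure (Set.mem_insert_of_mem _ (Set.mem_singleton _))⟩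

theorem K_pow8 (k : ↥Kg) : k ^ 8 = 1 := by
  obtain ⟨c, hc, hck⟩ := K_code k.1 k.2
  apply Subtype.ext; apply Units.ext
  show ((k ^ 8 : ↥Kg) : GL2 3).val = 1
  rw [Subgroup.coe_pow, Units.val_pow_eq_pow_val, ← hck]
  have h := hP8 c hc
  have e : toMat 3 (P8 c) = toMat 3 c ^ 8 := by
    unfold P8
    rw [toMat_mul, toMat_mul, toMat_mul]
    simp only [← pow_two, ← pow_mul]
    norm_num
  rw [← e, h, toMat_one]

theorem K_pgroup : IsPGroup 2 ↥Kg := fun k => ⟨3, K_pow8 k⟩

theorem aK_sq : aK * aK = 1 := by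
  apply Subtype.ext; apply Units.ext
  show toMat 3 cS * toMat 3 cS = 1
  rw [← toMat_mul, S_inv, toMat_one]

theorem aK_smul (v : Mm) : aK • v = ![v 0, -v 1] := by
  show (toMat 3 cS).mulVec v = ![v 0, -v 1]
  have h2 : (2 : ZMod 3) = -1 := by decide
  funext i
  fin_cases i
  · simp [toMat, cS, g, Matrix.mulVec, dotProduct, Fin.sum_univ_two]
  · simp [toMat, cS, g, Matrix.mulVec, dotProduct, Fin.sum_univ_two, h2]

theorem aK_ne : aK ≠ 1 := by
  intro h
  have h1 : aK • (![0, 1] : Mm) = (1 : ↥Kg) • (![0, 1] : Mm) := by rw [h]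
  rw [aK_smul, one_smul] at h1
  have h2 := congrFun h1 1
  revert h2
  simp
  decide

/-! ### conjugation in the semidirect product -/

open SemidirectProduct in
theorem conj_inr (x k : ↥Kg) (n : Multiplicative Mm) :
    (inr x : G0) * (inl n * inr k) * (inr x)⁻¹ = inl (phi ↥Kg Mm x n) * inr (x * k * x⁻¹) := by
  rw [SemidirectProduct.inl_aut, map_mul, map_mul, map_inv]
  group

open SemidirectProduct in
theorem conj_inl (u n : Multiplicative Mm) (k : ↥Kg) :
    (inl u : G0) * (inl n * inr k) * (inl u)⁻¹ = inl (u * n * phi ↥Kg Mm k u⁻¹) * inr k := by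
  rw [map_mul, map_mul, SemidirectProduct.inl_aut, map_inv, map_inv]
  group

open SemidirectProduct in
theorem comm_lemma (m' : Mm) (k' : ↥Kg) (h1 : aK • m' = m') (h2 : aK * k' = k' * aK) :
    Commute (inr aK : G0) (inl (Multiplicative.ofAdd m') * inr k') := by
  show (inr aK : G0) * (inl (Multiplicative.ofAdd m') * inr k') =
    inl (Multiplicative.ofAdd m') * inr k' * inr aK
  have e : (inl (Multiplicative.ofAdd m') : G0) = inr aK * inl (Multiplicative.ofAdd m') * inr aK⁻¹ := by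
    rw [← SemidirectProduct.inl_aut, phi_apply, h1]
  calc (inr aK : G0) * (inl (Multiplicative.ofAdd m') * inr k')
      = (inr aK * inl (Multiplicative.ofAdd m') * inr aK⁻¹) * inr (aK * k') := by
        rw [map_mul, map_inv]; group
    _ = inl (Multiplicative.ofAdd m') * inr k' * inr aK := by
        rw [← e, h2, map_mul, mul_assoc]

instance instFinG0 : Finite G0 :=
  Finite.of_equiv _ (SemidirectProduct.equivProd (φ := phi ↥Kg Mm)).symm

abbrev Asub : Subgroup G0 := Subgroup.zpowers (SemidirectProduct.inr aK : G0)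

theorem trans1 : ∀ w : Mm, w ≠ 0 → ∃ k : ↥Kg, k • (![1, 0] : Mm) = w := by
  intro w hw
  have hxy : (w 0).val ≠ 0 ∨ (w 1).val ≠ 0 := by
    by_contra hcon
    rw [not_or, not_not, not_not] at hcon
    apply hw
    funext i
    fin_cases i
    · exact (ZMod.val_eq_zero _).mp hcon.1
    · exact (ZMod.val_eq_zero _).mp hcon.2
  obtain ⟨c, hc, h0, h2⟩ := hcol (w 0).val (ZMod.val_lt _) (w 1).val (ZMod.val_lt _) hxy
  obtain ⟨k, hk, hkv⟩ := K_real c hc
  refine ⟨⟨k, hk⟩, ?_⟩
  have e0 : ((g c 0 : ℕ) : ZMod 3) = w 0 := by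
    rw [← ZMod.natCast_mod, h0, ZMod.natCast_zmod_val]
  have e2 : ((g c 2 : ℕ) : ZMod 3) = w 1 := by
    rw [← ZMod.natCast_mod, h2, ZMod.natCast_zmod_val]
  show (k.val).mulVec ![1, 0] = w
  rw [hkv]
  funext i
  fin_cases i
  · simp [toMat, Matrix.mulVec, dotProduct, Fin.sum_univ_two, e0]
  · simp [toMat, Matrix.mulVec, dotProduct, Fin.sum_univ_two, e2]

open SemidirectProduct in
theorem main3 (c : G0) : ∃ g : G0, IsConj c g ∧
    (Asub.subgroupOf (Asub ⊔ Subgroup.zpowers g)).IsSubnormal := by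
  obtain ⟨n, k, rfl⟩ : ∃ (n : Multiplicative Mm) (k : ↥Kg), c = inl n * inr k :=
    ⟨c.left, c.right, (SemidirectProduct.inl_left_mul_inr_right c).symm⟩
  suffices key : ∀ m : Mm, ∃ g : G0, IsConj (inl (Multiplicative.ofAdd m) * inr k : G0) g ∧
      (Asub.subgroupOf (Asub ⊔ Subgroup.zpowers g)).IsSubnormal from key (Multiplicative.toAdd n)
  intro m
  by_cases hk1 : k = 1
  · subst hk1
    by_cases hm : m = 0
    · subst hm
      exact ⟨_, IsConj.refl _, subn_of_comm _ _ (comm_lemma 0 1 (smul_zero _) (by rw [mul_one, one_mul]))⟩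
    · obtain ⟨k0, hk0⟩ := trans1 m hm
      refine ⟨inl (Multiplicative.ofAdd (![1, 0] : Mm)) * inr 1, ?_, ?_⟩
      · rw [isConj_iff]
        refine ⟨inr k0⁻¹, ?_⟩
        rw [conj_inr, phi_apply, ← hk0, ← mul_smul, inv_mul_cancel, one_smul, mul_one,
          mul_inv_cancel]
      · apply subn_of_comm
        apply comm_lemma _ 1 _ (by rw [mul_one, one_mul])
        rw [aK_smul]; simp
  · obtain ⟨c', hc', hck⟩ := K_code k.1 k.2
    rcases hF3 c' hc' with h1 | h1 | ⟨xc, hxc, hx⟩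
    · exfalso; apply hk1
      apply Subtype.ext; apply Units.ext
      rw [← hck, h1, toMat_one]; rfl
    · -- `k - 1` invertible: conjugate into the complement
      have hdet : (k.1.val - 1).det ≠ 0 := by
        rw [← hck, ← fixdet_cast, Ne, ZMod.natCast_eq_zero_iff, Nat.dvd_iff_mod_eq_zero]
        exact h1
      have hunit : IsUnit (k.1.val - 1).det := isUnit_iff_ne_zero.mpr hdet
      set u : Mm := ((k.1.val - 1)⁻¹).mulVec m with hu
      have hku : k • u = u + m := by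
        have h3 : (k.1.val - 1).mulVec u = m := by
          rw [hu, Matrix.mulVec_mulVec, Matrix.mul_nonsing_inv _ hunit, Matrix.one_mulVec]
        rw [Matrix.sub_mulVec, Matrix.one_mulVec] at h3
        rw [smul_def, ← h3]; abel
      refine ⟨inl (Multiplicative.ofAdd (0 : Mm)) * inr k, ?_, ?_⟩
      · rw [isConj_iff]
        refine ⟨inl (Multiplicative.ofAdd u), ?_⟩
        rw [conj_inl]
        congr 2
        show Multiplicative.ofAdd u * Multiplicative.ofAdd m *
          phi ↥Kg Mm k (Multiplicative.ofAdd (-u)) = Multiplicative.ofAdd 0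
        rw [phi_apply, ← ofAdd_add, ← ofAdd_add, smul_neg, hku]
        congr 1; abel
      · have hg : (inl (Multiplicative.ofAdd (0 : Mm)) * inr k : G0) = inr k := by
          rw [ofAdd_zero, map_one, one_mul]
        rw [hg]
        apply subn_of_pgroup
        intro y
        refine ⟨3, ?_⟩
        have hy : (y : G0) ∈ (inr : ↥Kg →* G0).range := by
          have hle : Asub ⊔ Subgroup.zpowers (inr k : G0) ≤ (inr : ↥Kg →* G0).range := by
            apply sup_le
            · rw [Subgroup.zpowers_le]; exact ⟨aK, rfl⟩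
            · rw [Subgroup.zpowers_le]; exact ⟨k, rfl⟩
          exact hle y.2
        obtain ⟨k2, hk2⟩ := hy
        apply Subtype.ext
        show (y : G0) ^ 2 ^ 3 = 1
        rw [← hk2, ← map_pow]
        have : k2 ^ 2 ^ 3 = 1 := K_pow8 k2
        rw [this, map_one]
    · -- `k` conjugate to `aK`
      obtain ⟨x, hxK, hxv⟩ := K_real xc hxc
      have hconj : (⟨x, hxK⟩ : ↥Kg) * k * (⟨x, hxK⟩ : ↥Kg)⁻¹ = aK := by
        rw [mul_inv_eq_iff_eq_mul]
        apply Subtype.ext; apply Units.ext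
        show x.val * k.1.val = toMat 3 cS * x.val
        rw [hxv, ← hck, ← toMat_mul, ← toMat_mul, hx]
      set m1 : Mm := (⟨x, hxK⟩ : ↥Kg) • m with hm1
      refine ⟨inl (Multiplicative.ofAdd (![m1 0, 0] : Mm)) * inr aK, ?_, ?_⟩
      · rw [isConj_iff]
        refine ⟨inl (Multiplicative.ofAdd (![0, m1 1] : Mm)) * inr (⟨x, hxK⟩ : ↥Kg), ?_⟩
        have e1 : (inl (Multiplicative.ofAdd (![0, m1 1] : Mm)) * inr (⟨x, hxK⟩ : ↥Kg) : G0) *
            (inl (Multiplicative.ofAdd m) * inr k) *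
            (inl (Multiplicative.ofAdd (![0, m1 1] : Mm)) * inr (⟨x, hxK⟩ : ↥Kg) : G0)⁻¹ =
            inl (Multiplicative.ofAdd (![0, m1 1] : Mm)) *
              (inr (⟨x, hxK⟩ : ↥Kg) * (inl (Multiplicative.ofAdd m) * inr k) *
                (inr (⟨x, hxK⟩ : ↥Kg))⁻¹) * (inl (Multiplicative.ofAdd (![0, m1 1] : Mm)))⁻¹ := by
          group
        rw [e1, conj_inr, hconj, phi_apply, conj_inl]
        congr 2
        show Multiplicative.ofAdd (![0, m1 1] : Mm) * Multiplicative.ofAdd m1 *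
          phi ↥Kg Mm aK (Multiplicative.ofAdd (-(![0, m1 1] : Mm))) =
            Multiplicative.ofAdd (![m1 0, 0] : Mm)
        rw [phi_apply, ← ofAdd_add, ← ofAdd_add, aK_smul]
        congr 1
        funext i
        fin_cases i
        · show (0 : ZMod 3) + m1 0 + (-(0 : ZMod 3)) = m1 0
          ring
        · show m1 1 + m1 1 + -(-(m1 1)) = (0 : ZMod 3)
          have h3 : (3 : ZMod 3) = 0 := by decide
          linear_combination (m1 1) * h3
      · apply subn_of_comm
        apply comm_lemma _ aK _ rfl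
        rw [aK_smul]; simp

theorem card_Asub : Nat.card Asub = 2 := by
  haveI : Fact (Nat.Prime 2) := ⟨Nat.prime_two⟩
  rw [Nat.card_zpowers, sd_inr_order]
  refine orderOf_eq_prime ?_ aK_ne
  rw [pow_two]; exact aK_sq

instance instFinKg : Finite ↥Kg := inferInstance

theorem solv_G0 : Group.IsSolvable G0 := by
  haveI : Fact (Nat.Prime 2) := ⟨Nat.prime_two⟩
  haveI : Group.IsNilpotent ↥Kg := K_pgroup.isNilpotent
  exact solvable_of_ker_le_range (SemidirectProduct.inl : Multiplicative Mm →* G0)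
    (SemidirectProduct.rightHom : G0 →* ↥Kg)
    (le_of_eq SemidirectProduct.range_inl_eq_ker_rightHom.symm)

open SemidirectProduct in
theorem not_le_pCore : ¬ Asub ≤ Cfsg.pCore 2 G0 := by
  haveI : Fact (Nat.Prime 2) := ⟨Nat.prime_two⟩
  intro hle
  have hN : (Cfsg.pCore 2 G0).Normal := Cfsg.Agent.Helper5.pCore_normal 2 G0
  have hP : IsPGroup 2 (Cfsg.pCore 2 G0) := Cfsg.Agent.Helper5.pCore_isPGroup
  have ha : (inr aK : G0) ∈ Cfsg.pCore 2 G0 := hle (Subgroup.mem_zpowers _)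
  set u : Multiplicative Mm := Multiplicative.ofAdd (![0, 1] : Mm) with hu
  -- the commutator of `inr aK` and `inl u` lies in the core
  have hy : (inr aK : G0) * (inl u * (inr aK)⁻¹ * (inl u)⁻¹) ∈ Cfsg.pCore 2 G0 :=
    mul_mem ha (hN.conj_mem _ (inv_mem ha) _)
  have hy' : (inr aK : G0) * (inl u * (inr aK)⁻¹ * (inl u)⁻¹) =
      inl (Multiplicative.ofAdd (![0, 1] : Mm)) := by
    have e : (inr aK : G0) * (inl u * (inr aK)⁻¹ * (inl u)⁻¹) =
        (inr aK * inl u * inr aK⁻¹) * (inl u)⁻¹ := by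
      rw [map_inv]; group
    rw [e, ← SemidirectProduct.inl_aut, ← map_inv, ← map_mul, hu, phi_apply, aK_smul]
    congr 1
    show Multiplicative.ofAdd (![(![0, 1] : Mm) 0, -(![0, 1] : Mm) 1] + -(![0, 1] : Mm)) =
      Multiplicative.ofAdd (![0, 1] : Mm)
    congr 1
    funext i
    fin_cases i
    · show (0 : ZMod 3) + -0 = 0
      ring
    · show -(1 : ZMod 3) + -1 = 1
      decide
  rw [hy'] at hy
  obtain ⟨j, hj⟩ := hP ⟨_, hy⟩
  have hj' : (inl (Multiplicative.ofAdd (![0, 1] : Mm)) : G0) ^ 2 ^ j = 1 :=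
    congrArg Subtype.val hj
  have h3 : (inl (Multiplicative.ofAdd (![0, 1] : Mm)) : G0) ^ 3 = 1 := by
    rw [← map_pow, ← ofAdd_nsmul]
    have : (3 : ℕ) • (![0, 1] : Mm) = 0 := by
      funext i
      fin_cases i
      · show (3 : ℕ) • (0 : ZMod 3) = 0
        simp
      · show (3 : ℕ) • (1 : ZMod 3) = 0
        decide
    rw [this, ofAdd_zero, map_one]
  have hd1 : orderOf (inl (Multiplicative.ofAdd (![0, 1] : Mm)) : G0) ∣ 2 ^ j :=
    orderOf_dvd_of_pow_eq_one hj'
  have hd2 : orderOf (inl (Multiplicative.ofAdd (![0, 1] : Mm)) : G0) ∣ 3 :=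
    orderOf_dvd_of_pow_eq_one h3
  have hcop : Nat.Coprime (2 ^ j) 3 := Nat.Coprime.pow_left j (by norm_num)
  have h1 : orderOf (inl (Multiplicative.ofAdd (![0, 1] : Mm)) : G0) = 1 :=
    Nat.eq_one_of_dvd_coprimes hcop hd1 hd2
  rw [orderOf_eq_one_iff] at h1
  have h0 : Multiplicative.ofAdd (![0, 1] : Mm) = 1 :=
    SemidirectProduct.inl_injective (by rw [h1, map_one])
  have h00 : (![0, 1] : Mm) 1 = (0 : Mm) 1 := congrFun (Multiplicative.ofAdd.injective h0) 1
  revert h00
  show (1 : ZMod 3) = 0 → False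
  decide

theorem example_group : ∃ (G : Type) (_ : Group G) (_ : Finite G) (A : Subgroup G),
    Group.IsSolvable G ∧ Nat.card A = 2 ∧
    (∀ c : G, ∃ g : G, IsConj c g ∧ (A.subgroupOf (A ⊔ Subgroup.zpowers g)).IsSubnormal) ∧
    ¬ A ≤ Cfsg.pCore 2 G :=
  ⟨G0, inferInstance, inferInstance, Asub, solv_G0, card_Asub, main3, not_le_pCore⟩

end Cfsg.Agent.Helper6.AGam
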