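import Mathlib
import Cfsg.Agent.Helper6.Aff
import Cfsg.Agent.Helper6.Spectrum

set_option autoImplicit false

namespace Cfsg.Agent.Helper6

open Matrix

/-- The affine subgroup of `SL(3,F)`: matrices with last row `(0,0,1)`. -/
def affGroup (F : Type*) [Field F] : Subgroup (Matrix.SpecialLinearGroup (Fin 3) F) :=
  Subgroup.closure {M : Matrix.SpecialLinearGroup (Fin 3) F |
        (M : Matrix (Fin 3) (Fin 3) F) 2 0 = 0 ∧ (M : Matrix (Fin 3) (Fin 3) F) 2 1 = 0 ∧
        (M : Matrix (Fin 3) (Fin 3) F) 2 2 = 1}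

theorem affGroup_row {F : Type*} [Field F] (M : affGroup F) :
    (M.1 : Matrix (Fin 3) (Fin 3) F) 2 0 = 0 ∧ (M.1 : Matrix (Fin 3) (Fin 3) F) 2 1 = 0 ∧
        (M.1 : Matrix (Fin 3) (Fin 3) F) 2 2 = 1 :=
  aff_closure_row M.1 M.2

/-- upper-left block -/
def affBlockMat {F : Type*} [Field F] (M : Matrix (Fin 3) (Fin 3) F) : Matrix (Fin 2) (Fin 2) F :=
  !![M 0 0, M 0 1; M 1 0, M 1 1]

theorem affBlockMat_det {F : Type*} [Field F] (M : affGroup F) :
    (affBlockMat (M.1 : Matrix (Fin 3) (Fin 3) F)).det = 1 := by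
  obtain ⟨h0, h1, h2⟩ := affGroup_row M
  have hd := M.1.det_coe
  rw [Matrix.det_fin_three] at hd
  rw [Matrix.det_fin_two]
  simp only [h0, h1, h2] at hd
  simp only [affBlockMat, Matrix.of_apply, Matrix.cons_val', Matrix.cons_val_zero,
    Matrix.cons_val_one, Matrix.cons_val_fin_one]
  linear_combination hd

/-- the block homomorphism onto `SL(2,F)` -/
def affBlock (F : Type*) [Field F] : affGroup F →* Matrix.SpecialLinearGroup (Fin 2) F where
  toFun M := ⟨affBlockMat (M.1 : Matrix (Fin 3) (Fin 3) F), affBlockMat_det M⟩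
  map_one' := by
    apply Subtype.ext
    ext i j
    fin_cases i <;> fin_cases j <;> simp [affBlockMat]
  map_mul' M N := by
    obtain ⟨h0, h1, h2⟩ := affGroup_row N
    apply Subtype.ext
    show affBlockMat ((M.1 : Matrix (Fin 3) (Fin 3) F) * (N.1 : Matrix (Fin 3) (Fin 3) F)) =
      affBlockMat (M.1 : Matrix (Fin 3) (Fin 3) F) * affBlockMat (N.1 : Matrix (Fin 3) (Fin 3) F)
    ext i j
    fin_cases i <;> fin_cases j <;>
      simp [affBlockMat, Matrix.mul_apply, Fin.sum_univ_three, Fin.sum_univ_two, h0, h1]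

/-- block-diagonal embedding matrix -/
def affEmbMat {F : Type*} [Field F] (A : Matrix (Fin 2) (Fin 2) F) : Matrix (Fin 3) (Fin 3) F :=
  !![A 0 0, A 0 1, 0; A 1 0, A 1 1, 0; 0, 0, 1]

theorem affEmbMat_det {F : Type*} [Field F] (A : Matrix.SpecialLinearGroup (Fin 2) F) :
    (affEmbMat (A : Matrix (Fin 2) (Fin 2) F)).det = 1 := by
  rw [affEmbMat, aff_det]
  have := A.det_coe
  rw [Matrix.det_fin_two] at this
  exact this

theorem affEmbMat_mul {F : Type*} [Field F] (A B : Matrix (Fin 2) (Fin 2) F) :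
    affEmbMat (A * B) = affEmbMat A * affEmbMat B := by
  ext i j
  fin_cases i <;> fin_cases j <;>
    simp [affEmbMat, Matrix.mul_apply, Fin.sum_univ_three, Fin.sum_univ_two]

theorem affEmbMat_one {F : Type*} [Field F] :
    affEmbMat (1 : Matrix (Fin 2) (Fin 2) F) = 1 := by
  ext i j
  fin_cases i <;> fin_cases j <;> simp [affEmbMat]

/-- the embedding of `SL(2,F)` -/
def affEmb (F : Type*) [Field F] : Matrix.SpecialLinearGroup (Fin 2) F →* affGroup F where
  toFun A := ⟨⟨affEmbMat (A : Matrix (Fin 2) (Fin 2) F), affEmbMat_det A⟩,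
    Subgroup.subset_closure ⟨by simp [affEmbMat], by simp [affEmbMat], by simp [affEmbMat]⟩⟩
  map_one' := by
    apply Subtype.ext
    apply Subtype.ext
    exact affEmbMat_one
  map_mul' A B := by
    apply Subtype.ext
    apply Subtype.ext
    exact affEmbMat_mul _ _

theorem affBlock_affEmb {F : Type*} [Field F] (A : Matrix.SpecialLinearGroup (Fin 2) F) :
    affBlock F (affEmb F A) = A := by
  apply Subtype.ext
  show affBlockMat (affEmbMat (A : Matrix (Fin 2) (Fin 2) F)) = (A : Matrix (Fin 2) (Fin 2) F)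
  ext i j
  fin_cases i <;> fin_cases j <;> simp [affBlockMat, affEmbMat]

theorem affEmb_injective {F : Type*} [Field F] : Function.Injective (affEmb F) := by
  intro A B h
  have := congrArg (affBlock F) h
  rwa [affBlock_affEmb, affBlock_affEmb] at this

theorem affGroup_coe_pow {F : Type*} [Field F] (M : affGroup F) (k : ℕ) :
    (((M ^ k : affGroup F) : Matrix.SpecialLinearGroup (Fin 3) F) : Matrix (Fin 3) (Fin 3) F) =
      ((M : Matrix.SpecialLinearGroup (Fin 3) F) : Matrix (Fin 3) (Fin 3) F) ^ k := by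
  rw [Subgroup.coe_pow, Matrix.SpecialLinearGroup.coe_pow]

theorem affGroup_pow_eq_one_iff {F : Type*} [Field F] (M : affGroup F) (k : ℕ) :
    M ^ k = 1 ↔ ((M : Matrix.SpecialLinearGroup (Fin 3) F) : Matrix (Fin 3) (Fin 3) F) ^ k = 1 := by
  constructor
  · intro h
    rw [← affGroup_coe_pow, h]
    rfl
  · intro h
    apply Subtype.ext
    apply Subtype.ext
    rw [affGroup_coe_pow, h]
    rfl

/-- Conjugation trick: if the trace of the block is nonzero (char 2), powers of `M` are trivial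
as soon as the powers of the block are. -/
theorem aff_pow_of_block_pow {F : Type*} [Field F] [CharP F 2] (M : affGroup F)
    (ht : (M.1 : Matrix (Fin 3) (Fin 3) F) 0 0 + (M.1 : Matrix (Fin 3) (Fin 3) F) 1 1 ≠ 0)
    (k : ℕ) (hk : (affBlock F M) ^ k = 1) : M ^ k = 1 := by
  have h2 : (2 : F) = 0 := CharTwo.two_eq_zero
  obtain ⟨h0, h1, h22⟩ := affGroup_row M
  have heta := aff_eta (M.1 : Matrix (Fin 3) (Fin 3) F) h0 h1 h22
  have hdet : (M.1 : Matrix (Fin 3) (Fin 3) F) 0 0 * (M.1 : Matrix (Fin 3) (Fin 3) F) 1 1 -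
      (M.1 : Matrix (Fin 3) (Fin 3) F) 0 1 * (M.1 : Matrix (Fin 3) (Fin 3) F) 1 0 = 1 := by
    have h := M.1.det_coe
    rw [heta, aff_det] at h
    exact h
  generalize hMm : (M.1 : Matrix (Fin 3) (Fin 3) F) = Mm at *
  set a := Mm 0 0 with ha
  set b := Mm 0 1 with hb
  set x := Mm 0 2 with hx
  set c := Mm 1 0 with hc
  set d := Mm 1 1 with hd
  set y := Mm 1 2 with hy
  set T : Matrix (Fin 3) (Fin 3) F :=
    !![a + d, 0, (d + 1) * x + b * y; 0, a + d, c * x + (a + 1) * y; 0, 0, a + d] with hT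
  set D : Matrix (Fin 3) (Fin 3) F := !![a, b, 0; c, d, 0; 0, 0, 1] with hD
  have hTM : T * Mm = D * T := by
    rw [heta]
    ext i j
    fin_cases i <;> fin_cases j <;>
      simp [hT, hD, Matrix.mul_apply, Fin.sum_univ_three] <;> grind
  have hpow : ∀ n : ℕ, T * Mm ^ n = D ^ n * T := by
    intro n
    induction n with
    | zero => simp
    | succ n ih => rw [pow_succ, ← mul_assoc, ih, mul_assoc, hTM, ← mul_assoc, ← pow_succ]
  have hDk : D ^ k = 1 := by
    have e1 : D = affEmbMat (affBlockMat Mm) := by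
      ext i j
      fin_cases i <;> fin_cases j <;> simp [hD, affEmbMat, affBlockMat, ha, hb, hc, hd]
    have e2 : ((affEmb F (affBlock F M) : affGroup F) : Matrix.SpecialLinearGroup (Fin 3) F).1 =
        affEmbMat (affBlockMat Mm) := by
      rw [← hMm]; rfl
    have e3 : (affEmb F (affBlock F M)) ^ k = 1 := by rw [← map_pow, hk, map_one]
    rw [affGroup_pow_eq_one_iff] at e3
    rw [e1, ← e2]
    exact e3
  have hT_unit : IsUnit T := by
    rw [Matrix.isUnit_iff_isUnit_det]
    have : T.det = (a + d) ^ 3 := by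
      rw [hT, Matrix.det_fin_three]
      simp
      ring
    rw [this]
    exact (isUnit_iff_ne_zero.mpr ht).pow 3
  have hfin : Mm ^ k = 1 := by
    have h3 : T * Mm ^ k = T * 1 := by rw [hpow, hDk, one_mul, mul_one]
    exact hT_unit.mul_left_cancel h3
  rw [affGroup_pow_eq_one_iff, hMm]
  exact hfin

theorem aff_orderOf_eq_block {F : Type*} [Field F] [CharP F 2] (M : affGroup F)
    (ht : (M.1 : Matrix (Fin 3) (Fin 3) F) 0 0 + (M.1 : Matrix (Fin 3) (Fin 3) F) 1 1 ≠ 0) :
    orderOf M = orderOf (affBlock F M) := by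
  rw [orderOf_eq_orderOf_iff]
  intro n
  constructor
  · intro h
    rw [← map_pow, h, map_one]
  · exact aff_pow_of_block_pow M ht n

theorem aff_pow4_of_trace_zero {F : Type*} [Field F] [CharP F 2] (M : affGroup F)
    (ht : (M.1 : Matrix (Fin 3) (Fin 3) F) 0 0 + (M.1 : Matrix (Fin 3) (Fin 3) F) 1 1 = 0) :
    M ^ 4 = 1 := by
  obtain ⟨h0, h1, h22⟩ := affGroup_row M
  have heta := aff_eta (M.1 : Matrix (Fin 3) (Fin 3) F) h0 h1 h22
  have hdet : (M.1 : Matrix (Fin 3) (Fin 3) F) 0 0 * (M.1 : Matrix (Fin 3) (Fin 3) F) 1 1 -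
      (M.1 : Matrix (Fin 3) (Fin 3) F) 0 1 * (M.1 : Matrix (Fin 3) (Fin 3) F) 1 0 = 1 := by
    have h := M.1.det_coe
    rw [heta, aff_det] at h
    exact h
  rw [affGroup_pow_eq_one_iff, heta]
  exact aff_pow4 _ _ _ _ _ _ hdet ht

/-- the kernel of the block map has exponent 2 in characteristic 2 -/
theorem affBlock_ker_exp {F : Type*} [Field F] [CharP F 2] (x : (affBlock F).ker) : x ^ 2 = 1 := by
  have h2 : (2 : F) = 0 := CharTwo.two_eq_zero
  obtain ⟨M, hM⟩ := x
  rw [MonoidHom.mem_ker] at hM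
  obtain ⟨h0, h1, h22⟩ := affGroup_row M
  have hM' : affBlockMat (M.1 : Matrix (Fin 3) (Fin 3) F) = 1 := congrArg Subtype.val hM
  have e00 := congrFun (congrFun hM' 0) 0
  have e01 := congrFun (congrFun hM' 0) 1
  have e10 := congrFun (congrFun hM' 1) 0
  have e11 := congrFun (congrFun hM' 1) 1
  simp [affBlockMat] at e00 e01 e10 e11
  apply Subtype.ext
  show M ^ 2 = 1
  rw [affGroup_pow_eq_one_iff]
  ext i j
  fin_cases i <;> fin_cases j <;>
    simp [pow_succ, Matrix.mul_apply, Fin.sum_univ_three, h0, h1, h22, e00, e01, e10, e11] <;>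
    grind

theorem affBlock_ker_ne_bot {F : Type*} [Field F] : (affBlock F).ker ≠ ⊥ := by
  have hdet : (!![1, 0, 1; 0, 1, 0; 0, 0, 1] : Matrix (Fin 3) (Fin 3) F).det = 1 := by
    rw [aff_det]; ring
  intro hbot
  have hmem : (⟨⟨_, hdet⟩, Subgroup.subset_closure ⟨by simp, by simp, by simp⟩⟩ : affGroup F) ∈
      (affBlock F).ker := by
    rw [MonoidHom.mem_ker]
    apply Subtype.ext
    show affBlockMat (!![1, 0, 1; 0, 1, 0; 0, 0, 1] : Matrix (Fin 3) (Fin 3) F) = 1
    ext i j
    fin_cases i <;> fin_cases j <;> simp [affBlockMat]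
  rw [hbot, Subgroup.mem_bot] at hmem
  have h3 := congrArg Subtype.val (congrArg Subtype.val hmem)
  have h4 := congrFun (congrFun h3 0) 2
  simp at h4

instance affGroup_finite {F : Type*} [Field F] [Finite F] : Finite (affGroup F) := by
  have : Finite (Matrix.SpecialLinearGroup (Fin 3) F) := by
    unfold Matrix.SpecialLinearGroup
    infer_instance
  infer_instance

/-- arbitrarily large groups with the spectrum of the affine group (char 2) -/
theorem aff_exists_large {F : Type*} [Field F] [Finite F] [CharP F 2] (N : ℕ) :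
    ∃ (H : Type) (_ : Group H) (_ : Fintype H), N < Fintype.card H ∧
      Set.range (orderOf : H → ℕ) = Set.range (orderOf : affGroup F → ℕ) :=
  exists_large_same_spectrum (affBlock F).ker affBlock_ker_ne_bot 2 Nat.prime_two
    affBlock_ker_exp N

end Cfsg.Agent.Helper6
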