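import Mathlib
import Cfsg.Prelude.Def_Transfer
import Cfsg.Prelude.Def_Local
import Cfsg.Agent.Helper6.FrobNPC
import Cfsg.Agent.Helper6.Coprime
import Cfsg.Agent.Lead.PGroupFrattini
import Cfsg.Agent.Lead.SylowBasic

set_option autoImplicit false

namespace Cfsg.Agent.Helper6

/-- In a finite cyclic group, every solution of `x ^ p = 1` is a power of any element of
order `p`. -/
theorem mem_zpowers_of_isCyclic {A : Type*} [Group A] [Finite A] [IsCyclic A] {p : ℕ}
    (hp : 0 < p) (z x : A) (hz : orderOf z = p) (hx : x ^ p = 1) : x ∈ Subgroup.zpowers z := by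
  classical
  have : Fintype A := Fintype.ofFinite A
  have h1 := IsCyclic.card_pow_eq_one_le (α := A) (n := p) hp
  have h2 : ((Subgroup.zpowers z : Set A)).toFinset ⊆
      Finset.univ.filter (fun a : A => a ^ p = 1) := by
    intro a ha
    rw [Set.mem_toFinset] at ha
    obtain ⟨k, rfl⟩ := ha
    simp only [Finset.mem_filter, Finset.mem_univ, true_and]
    rw [← zpow_natCast, ← zpow_mul, mul_comm, zpow_mul, zpow_natCast, ← hz, pow_orderOf_eq_one,
      one_zpow]
  have h3 : ((Subgroup.zpowers z : Set A)).toFinset.card = p := by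
    rw [Set.toFinset_card, ← Nat.card_eq_fintype_card]
    exact (Nat.card_zpowers z).trans hz
  have h4 := Finset.eq_of_subset_of_card_le h2 (by rw [h3]; exact h1)
  have h5 : x ∈ Finset.univ.filter (fun a : A => a ^ p = 1) := by simp [hx]
  rw [← h4, Set.mem_toFinset] at h5
  exact h5

/-- In a finite cyclic `p`-group every proper subgroup lies in the Frattini subgroup. -/
theorem le_frattini_of_isCyclic_of_ne_top {P : Type*} [Group P] [Finite P] {p : ℕ}
    [Fact p.Prime] (hP : IsPGroup p P) [IsCyclic P] (A : Subgroup P) (hA : A ≠ ⊤) :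
    A ≤ frattini P := by
  have hp : p.Prime := Fact.out
  obtain ⟨g, hg⟩ := IsCyclic.exists_generator (α := P)
  intro a ha
  obtain ⟨k, rfl⟩ := Subgroup.mem_zpowers_iff.mp (hg a)
  by_cases hk : (p : ℤ) ∣ k
  · obtain ⟨j, rfl⟩ := hk
    rw [mul_comm, zpow_mul, zpow_natCast]
    exact Cfsg.Agent.Lead.pow_mem_frattini_of_isPGroup p hP _
  · exfalso
    apply hA
    obtain ⟨n, hn⟩ := IsPGroup.iff_card.mp hP
    have hcop : IsCoprime ((p : ℤ) ^ n) k :=
      IsCoprime.pow_left ((Prime.coprime_iff_not_dvd (Nat.prime_iff_prime_int.mp hp)).mpr hk)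
    obtain ⟨u, v, huv⟩ := hcop
    have hgn : g ^ ((p : ℤ) ^ n) = 1 := by
      have : g ^ (p ^ n) = 1 := by rw [← hn]; exact pow_card_eq_one'
      rw [← this, ← zpow_natCast]
      push_cast
      rfl
    have hgA : g ∈ A := by
      have h1 : g = (g ^ ((p : ℤ) ^ n)) ^ u * (g ^ k) ^ v := by
        rw [← zpow_mul, ← zpow_mul, ← zpow_add, mul_comm ((p : ℤ) ^ n) u, mul_comm k v, huv,
          zpow_one]
      rw [h1, hgn, one_zpow, one_mul]
      exact A.zpow_mem ha v
    rw [eq_top_iff]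
    intro x _
    obtain ⟨j, rfl⟩ := Subgroup.mem_zpowers_iff.mp (hg x)
    exact A.zpow_mem hgA j

/-- The Frobenius condition for a subgroup `C`, from a statement about subgroups of `G`. -/
theorem frobCond_subtype_of {G : Type*} [Group G] {p : ℕ} (C : Subgroup G)
    (h : ∀ X : Subgroup G, X ≤ C → IsPGroup p X → ∀ g ∈ C,
      g ∈ Subgroup.normalizer (X : Set G) → (orderOf g).Coprime p →
      g ∈ Subgroup.centralizer (X : Set G)) : FrobCond p C := by
  intro X hX g hg hcop
  have h1 : IsPGroup p (X.map C.subtype) := hX.map _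
  have h2 : (g : G) ∈ Subgroup.normalizer ((X.map C.subtype : Subgroup G) : Set G) := by
    rw [Subgroup.mem_normalizer_iff] at hg ⊢
    intro y
    constructor
    · rintro ⟨x, hx, rfl⟩
      exact ⟨g * x * g⁻¹, (hg x).mp hx, by simp⟩
    · rintro ⟨x, hx, hxe⟩
      have hy : y = ((g⁻¹ * x * g : C) : G) := by
        simp only [Subgroup.coe_mul, Subgroup.coe_inv, Subgroup.coe_subtype] at hxe ⊢
        rw [hxe]; group
      rw [hy]
      refine ⟨g⁻¹ * x * g, ?_, rfl⟩
      apply (hg _).mpr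
      have e : g * (g⁻¹ * x * g) * g⁻¹ = x := by group
      rw [e]; exact hx
  have h3 := h _ (Subgroup.map_subtype_le _) h1 _ g.2 h2 (by rwa [Subgroup.orderOf_coe])
  rw [Subgroup.mem_centralizer_iff] at h3 ⊢
  intro x hx
  apply Subtype.ext
  exact h3 x ⟨x, hx, rfl⟩

/-- A finite group with a cyclic Sylow `p`-subgroup and a normal subgroup `H` of order
divisible by `p` having a normal `p`-complement is `p`-solvable. -/
theorem isPSolvable_of_cyclic_sylow {G : Type*} [Group G] [Finite G] (p : ℕ) [Fact p.Prime]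
    (P : Sylow p G) (hP : IsCyclic (P : Subgroup G)) (H : Subgroup G) [hHn : H.Normal]
    (h1 : p ∣ Nat.card H) (hnpc : Cfsg.HasNormalPComplement p H) : Cfsg.IsPSolvable p G := by
  classical
  have hp : p.Prime := Fact.out
  obtain ⟨KH, hKH⟩ := exists_isNPC_of_hasNormalPComplement hnpc
  have hKHn : KH.Normal := hKH.1
  obtain ⟨z', hz'⟩ := exists_prime_orderOf_dvd_card' p h1
  obtain ⟨S, hS⟩ := (Cfsg.Agent.Lead.isPGroup_zpowers_of_orderOf_prime hz').exists_le_sylow
  have hz'S : z' ∈ S := hS (Subgroup.mem_zpowers z')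
  obtain ⟨P', hP'⟩ := (S.isPGroup'.map H.subtype).exists_le_sylow
  obtain ⟨g₀, hg₀⟩ := MulAction.exists_smul_eq G P P'
  have hP'c : IsCyclic (P' : Subgroup G) := by
    subst hg₀
    exact isCyclic_of_surjective (Sylow.equivSMul P g₀) (Sylow.equivSMul P g₀).surjective
  have hP'comm : ∀ a ∈ (P' : Subgroup G), ∀ b ∈ (P' : Subgroup G), a * b = b * a := by
    intro a ha b hb
    have hc : IsMulCommutative (P' : Subgroup G) := inferInstance
    exact congrArg Subtype.val (hc.is_comm.comm ⟨a, ha⟩ ⟨b, hb⟩)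
  set z : G := (z' : G) with hz
  have hzP' : z ∈ (P' : Subgroup G) := hP' ⟨z', hz'S, rfl⟩
  have hzo : orderOf z = p := by rw [hz, Subgroup.orderOf_coe]; exact hz'
  have hzH : z ∈ H := z'.2
  set K : Subgroup G := KH.map H.subtype with hK
  have hKmem : ∀ x : G, x ∈ K ↔ x ∈ H ∧ (orderOf x).Coprime p := by
    intro x
    constructor
    · rintro ⟨y, hy, rfl⟩
      exact ⟨y.2, by rw [Subgroup.subtype_apply, Subgroup.orderOf_coe]; exact (hKH.mem_iff y).mp hy⟩
    · rintro ⟨hxH, hc⟩
      exact ⟨⟨x, hxH⟩, (hKH.mem_iff _).mpr (by rw [← Subgroup.orderOf_coe]; exact hc), rfl⟩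
  have hKn : K.Normal := by
    constructor
    intro x hx g
    rw [hKmem] at hx ⊢
    exact ⟨hHn.conj_mem x hx.1 g, by rw [Cfsg.Agent.Lead.orderOf_conj_eq]; exact hx.2⟩
  have hzK : ∀ k : ℤ, z ^ k ∈ K → z ^ k = 1 := by
    intro k hk
    have h2 := ((hKmem _).mp hk).2
    exact eq_one_of_pow_of_coprime (k := 1) (by
      rw [pow_one, ← zpow_natCast, ← zpow_mul, mul_comm, zpow_mul, zpow_natCast, ← hzo,
        pow_orderOf_eq_one, one_zpow]) h2
  set π : G →* G ⧸ K := QuotientGroup.mk' K with hπ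
  have hπK : ∀ x, π x = 1 ↔ x ∈ K := fun x => QuotientGroup.eq_one_iff x
  have hScyc : IsCyclic S := by
    let ι : S →* (P' : Subgroup G) :=
      (H.subtype.comp (S : Subgroup H).subtype).codRestrict (P' : Subgroup G)
        (fun s => hP' ⟨s, s.2, rfl⟩)
    apply isCyclic_of_injective ι
    intro a b hab
    have := congrArg Subtype.val hab
    exact Subtype.ext (Subtype.ext this)
  set Hbar : Subgroup (G ⧸ K) := H.map π with hHbar
  have hHbarc : IsCyclic Hbar := by
    let θ : S →* Hbar := (π.comp (H.subtype.comp (S : Subgroup H).subtype)).codRestrict Hbar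
      (fun s => ⟨((s : H) : G), (s : H).2, rfl⟩)
    apply isCyclic_of_surjective θ
    rintro ⟨_, ⟨h, hh, rfl⟩⟩
    have hQ : IsPGroup p (H ⧸ KH) := quot_isPGroup p KH (fun g hg => (hKH.mem_iff g).mpr hg)
    obtain ⟨c, hc, s, hs, hcs⟩ := exists_mul_of_quot_isPGroup p KH hQ S ⟨h, hh⟩
    refine ⟨⟨s, hs⟩, Subtype.ext ?_⟩
    show π ((s : H) : G) = π h
    have h3 : h = (c : G) * (s : G) := congrArg Subtype.val hcs
    have h4 : π (c : G) = 1 := (hπK _).mpr ⟨c, hc, rfl⟩
    rw [h3, map_mul, h4, one_mul]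
  have hclaim : ∀ x : G, ∃ k : ℤ, π (x * z * x⁻¹) = (π z) ^ k := by
    intro x
    have hb : orderOf (⟨π z, ⟨z, hzH, rfl⟩⟩ : Hbar) = p := by
      apply orderOf_eq_prime
      · apply Subtype.ext
        show (π z) ^ p = 1
        rw [← map_pow, ← hzo, pow_orderOf_eq_one, map_one]
      · intro h
        have h2 : π z = 1 := congrArg Subtype.val h
        have h3 := hzK 1 (by rw [zpow_one]; exact (hπK z).mp h2)
        rw [zpow_one] at h3
        rw [h3, orderOf_one] at hzo
        exact hp.ne_one hzo.symm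
    have ha : (⟨π (x * z * x⁻¹), ⟨x * z * x⁻¹, hHn.conj_mem z hzH x, rfl⟩⟩ : Hbar) ^ p = 1 := by
      apply Subtype.ext
      show (π (x * z * x⁻¹)) ^ p = 1
      rw [← map_pow, conj_pow, ← hzo, pow_orderOf_eq_one, mul_one, mul_inv_cancel, map_one]
    obtain ⟨k, hk⟩ := Subgroup.mem_zpowers_iff.mp (mem_zpowers_of_isCyclic hp.pos _ _ hb ha)
    refine ⟨k, ?_⟩
    have := congrArg Subtype.val hk
    simpa using this.symm
  set Cbar : Subgroup (G ⧸ K) := Subgroup.centralizer {π z} with hCbar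
  have hCbarn : Cbar.Normal := by
    constructor
    intro c hc x
    obtain ⟨x', rfl⟩ : ∃ x', π x' = x := QuotientGroup.mk'_surjective K x
    rw [hCbar, Subgroup.mem_centralizer_iff] at hc ⊢
    intro w hw
    rw [Set.mem_singleton_iff] at hw
    subst hw
    have hcz := hc (π z) rfl
    obtain ⟨k, hk⟩ := hclaim x'⁻¹
    have h3 : Commute c ((π z) ^ k) := (show Commute c (π z) from hcz.symm).zpow_right k
    have h4 : (π x')⁻¹ * π z * π x' = (π z) ^ k := by
      rw [← hk]; simp [map_mul]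
    calc π z * (π x' * c * (π x')⁻¹)
        = π x' * ((π x')⁻¹ * π z * π x' * c) * (π x')⁻¹ := by group
      _ = π x' * (c * ((π x')⁻¹ * π z * π x')) * (π x')⁻¹ := by rw [h4, h3.eq]
      _ = _ := by group
  set C : Subgroup G := Cbar.comap π with hC
  have hCn : C.Normal := hCbarn.comap π
  have hCmem : ∀ g : G, g ∈ C ↔ π z * π g = π g * π z := by
    intro g
    rw [hC, Subgroup.mem_comap, hCbar, Subgroup.mem_centralizer_iff]
    simp
  have hP'C : (P' : Subgroup G) ≤ C := by
    intro a ha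
    rw [hCmem, ← map_mul, ← map_mul, hP'comm z hzP' a ha]
  have hCi : C.index.Coprime p := by
    have h2 := Subgroup.index_dvd_of_le hP'C
    exact Nat.Coprime.coprime_dvd_left h2
      ((Nat.Prime.coprime_iff_not_dvd hp).mpr P'.not_dvd_index).symm
  have hkey : ∀ X : Subgroup G, X ≤ C → IsPGroup p X → ∀ g ∈ C,
      g ∈ Subgroup.normalizer (X : Set G) → (orderOf g).Coprime p →
      g ∈ Subgroup.centralizer (X : Set G) := by
    intro X hXC hX g hgC hgN hcop
    obtain ⟨x, hx⟩ := Cfsg.Agent.Lead.exists_conj_mem_sylow P' hX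
    have hgX : ∀ a ∈ X, g * a * g⁻¹ ∈ X :=
      fun a ha => (Subgroup.mem_normalizer_iff.mp hgN a).mp ha
    have hXcomm : ∀ a ∈ X, ∀ b ∈ X, a * b = b * a := by
      intro a ha b hb
      have h2 := hP'comm _ (hx a ha) _ (hx b hb)
      have h3 : x * (a * b) * x⁻¹ = x * (b * a) * x⁻¹ := by
        calc x * (a * b) * x⁻¹ = (x * a * x⁻¹) * (x * b * x⁻¹) := by group
          _ = (x * b * x⁻¹) * (x * a * x⁻¹) := h2
          _ = _ := by group
      exact mul_left_cancel (mul_right_cancel h3)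
    have hpow : ∀ b ∈ X, b ^ p = 1 → ∃ k : ℤ, b = x⁻¹ * z ^ k * x := by
      intro b hb hbp
      have hb1 : (⟨x * b * x⁻¹, hx b hb⟩ : (P' : Subgroup G)) ^ p = 1 := by
        apply Subtype.ext
        show (x * b * x⁻¹) ^ p = 1
        rw [conj_pow, hbp, mul_one, mul_inv_cancel]
      have hz1 : orderOf (⟨z, hzP'⟩ : (P' : Subgroup G)) = p := by
        rw [Subgroup.orderOf_mk]; exact hzo
      obtain ⟨k, hk⟩ :=
        Subgroup.mem_zpowers_iff.mp (mem_zpowers_of_isCyclic hp.pos _ _ hz1 hb1)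
      refine ⟨k, ?_⟩
      have h2 : z ^ k = x * b * x⁻¹ := by
        have := congrArg Subtype.val hk
        simpa using this
      rw [h2]; group
    have hcase1 : ∀ a ∈ X, a ^ p = 1 → g * a * g⁻¹ = a := by
      intro a ha hap
      obtain ⟨b, hb⟩ : ∃ b, b = g * a * g⁻¹ := ⟨_, rfl⟩
      have hbX : b ∈ X := hb ▸ hgX a ha
      have hbp : b ^ p = 1 := by rw [hb, conj_pow, hap, mul_one, mul_inv_cancel]
      obtain ⟨k, hk⟩ := hpow a ha hap
      obtain ⟨l, hl⟩ := hpow b hbX hbp
      obtain ⟨j, hj⟩ := hclaim x⁻¹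
      have hπa : π a = (π z) ^ (j * k) := by
        rw [zpow_mul, ← hj, ← map_zpow, conj_zpow, hk, inv_inv]
      have hgz : Commute (π g) (π z) := ((hCmem g).mp hgC).symm
      have hπb : π b = π a := by
        rw [hb, map_mul, map_mul, map_inv, hπa, (hgz.zpow_right (j * k)).eq,
          mul_inv_cancel_right]
      have h3 : b * a⁻¹ ∈ K := by
        rw [← hπK, map_mul, hπb, map_inv, mul_inv_cancel]
      have h4 : x * (b * a⁻¹) * x⁻¹ = z ^ (l - k) := by
        rw [hl, hk, zpow_sub]; group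
      have h5 : z ^ (l - k) ∈ K := by
        rw [← h4]; exact hKn.conj_mem _ h3 x
      have h6 := hzK _ h5
      have h7 : z ^ l = z ^ k := by
        rw [zpow_sub] at h6; exact mul_inv_eq_one.mp h6
      rw [← hb, hl, h7, ← hk]
    apply centralizes_of_centralizes_omega g hcop (Nat.card X) X rfl hX hgN
    intro a ha hcase
    rcases hcase with hap | ⟨hp2, ha4⟩
    · exact hcase1 a ha hap
    · subst hp2
      have h2 : (a ^ 2) ^ 2 = 1 := by rw [← pow_mul]; exact ha4
      have hsq := hcase1 (a ^ 2) (X.pow_mem ha 2) h2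
      obtain ⟨b, hb⟩ : ∃ b, b = g * a * g⁻¹ := ⟨_, rfl⟩
      have hbX : b ∈ X := hb ▸ hgX a ha
      have hb2 : b ^ 2 = a ^ 2 := by rw [hb, conj_pow]; exact hsq
      have hcX : a⁻¹ * b ∈ X := X.mul_mem (X.inv_mem ha) hbX
      have hc2 : (a⁻¹ * b) ^ 2 = 1 := by
        have hab : a⁻¹ * b = b * a⁻¹ := hXcomm _ (X.inv_mem ha) _ hbX
        calc (a⁻¹ * b) ^ 2 = a⁻¹ * b * (a⁻¹ * b) := pow_two _
          _ = a⁻¹ * (b * a⁻¹) * b := by group
          _ = a⁻¹ * (a⁻¹ * b) * b := by rw [hab]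
          _ = (a ^ 2)⁻¹ * b ^ 2 := by simp [pow_two, mul_assoc]
          _ = 1 := by rw [hb2, inv_mul_cancel]
      have hgc := hcase1 (a⁻¹ * b) hcX hc2
      have hgc' : g * (a⁻¹ * b) = (a⁻¹ * b) * g := by
        calc g * (a⁻¹ * b) = g * (a⁻¹ * b) * g⁻¹ * g := by group
          _ = (a⁻¹ * b) * g := by rw [hgc]
      have hy : g * a * g⁻¹ = a * (a⁻¹ * b) := by rw [hb]; group
      have hc1 : a⁻¹ * b = 1 :=
        eq_one_of_conj_eq_mul (p := 2) (k := 1) hy hgc' (by rw [pow_one]; exact hc2) hcop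
      rw [hy, hc1, mul_one]
  have hF : FrobCond p C := frobCond_subtype_of C hkey
  obtain ⟨K₂, hK₂⟩ := exists_isNPC_of_hasNormalPComplement (hasNormalPComplement_of_frobCond hF)
  have hK₂n := hK₂.1
  set K₂G : Subgroup G := K₂.map C.subtype with hK₂G
  have hK₂mem : ∀ x : G, x ∈ K₂G ↔ x ∈ C ∧ (orderOf x).Coprime p := by
    intro x
    constructor
    · rintro ⟨y, hy, rfl⟩
      exact ⟨y.2, by rw [Subgroup.subtype_apply, Subgroup.orderOf_coe]; exact (hK₂.mem_iff y).mp hy⟩
    · rintro ⟨hxC, hc⟩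
      exact ⟨⟨x, hxC⟩, (hK₂.mem_iff _).mpr (by rw [← Subgroup.orderOf_coe]; exact hc), rfl⟩
  have hK₂Gn : K₂G.Normal := by
    constructor
    intro x hx g
    rw [hK₂mem] at hx ⊢
    exact ⟨hCn.conj_mem x hx.1 g, by rw [Cfsg.Agent.Lead.orderOf_conj_eq]; exact hx.2⟩
  refine ⟨3, ![⊥, K₂G, C, ⊤], rfl, rfl, ?_, ?_, ?_⟩
  · apply Fin.monotone_iff_le_succ.mpr
    intro i
    fin_cases i
    · exact bot_le
    · exact Subgroup.map_subtype_le _
    · exact le_top
  · intro i
    fin_cases i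
    · exact Subgroup.normal_bot
    · exact hK₂Gn
    · exact hCn
    · exact Subgroup.normal_top
  · intro i
    fin_cases i
    · right
      show ((⊥ : Subgroup G).relIndex K₂G).Coprime p
      rw [Subgroup.relIndex_bot_left, hK₂G, Subgroup.card_map_of_injective C.subtype_injective]
      exact hK₂.2.1
    · left
      show ∃ m, K₂G.relIndex C = p ^ m
      have h2 : K₂G.relIndex C = K₂.index := by
        rw [Subgroup.relIndex, hK₂G]
        congr 1
        exact Subgroup.comap_map_eq_self_of_injective C.subtype_injective K₂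
      rw [h2, Subgroup.index_eq_card]
      have hQ : IsPGroup p (C ⧸ K₂) := by
        intro q
        obtain ⟨g, rfl⟩ := QuotientGroup.mk_surjective q
        obtain ⟨k, hk⟩ := hK₂.2.2 g
        exact ⟨k, by rw [← QuotientGroup.mk_pow]; exact (QuotientGroup.eq_one_iff _).mpr hk⟩
      exact IsPGroup.iff_card.mp hQ
    · right
      show (C.relIndex ⊤).Coprime p
      rw [Subgroup.relIndex_top_right]
      exact hCi

end Cfsg.Agent.Helper6
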