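import Mathlib
import Cfsg.Agent.Lead.SylowBasic

set_option autoImplicit false

namespace Cfsg.Agent.Helper6

variable {G : Type*} [Group G]

/-- An abelian subgroup with a normal complement has no fusion. -/
theorem eq_of_conj_of_normal_complement (N P : Subgroup G) (hN : N.Normal)
    (hc : N.IsComplement' P) (hab : ∀ x ∈ P, ∀ y ∈ P, x * y = y * x) {x y : G} (hx : x ∈ P)
    (hy : y ∈ P) (g : G) (h : g * x * g⁻¹ = y) : x = y := by
  obtain ⟨⟨⟨n, hn⟩, ⟨q, hq⟩⟩, hnq, -⟩ := hc.existsUnique g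
  simp only at hnq
  subst hnq
  have h1 : y = n * x * n⁻¹ := by
    rw [← h]
    have h0 : q * x * q⁻¹ = x := by rw [hab q hq x hx]; group
    calc n * q * x * (n * q)⁻¹ = n * (q * x * q⁻¹) * n⁻¹ := by group
      _ = n * x * n⁻¹ := by rw [h0]
  have h2 : y * x⁻¹ ∈ N := by
    rw [h1]
    have h0 := hN.conj_mem n⁻¹ (N.inv_mem hn) x
    have e : n * x * n⁻¹ * x⁻¹ = n * (x * n⁻¹ * x⁻¹) := by group
    rw [e]; exact N.mul_mem hn h0
  have h3 : y * x⁻¹ ∈ P := P.mul_mem hy (P.inv_mem hx)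
  have h4 : y * x⁻¹ = 1 := Subgroup.disjoint_def.mp hc.disjoint h2 h3
  exact (mul_inv_eq_one.mp h4).symm

/-- Burnside's transfer theorem, elementwise hypothesis. -/
theorem exists_normal_complement_of_conj_trivial [Finite G] {p : ℕ} [Fact p.Prime]
    (P : Sylow p G)
    (h : ∀ n ∈ Subgroup.normalizer ((P : Subgroup G) : Set G), ∀ x ∈ (P : Subgroup G),
      n * x * n⁻¹ = x) :
    ∃ N : Subgroup G, N.Normal ∧ N.IsComplement' (P : Subgroup G) := by
  have hP : Subgroup.normalizer ((P : Subgroup G) : Set G) ≤ Subgroup.centralizer (P : Set G) := by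
    intro n hn
    rw [Subgroup.mem_centralizer_iff]
    intro x hx
    have h0 := h n hn x hx
    calc x * n = (n * x * n⁻¹) * n := by rw [h0]
      _ = n * x := by group
  exact ⟨_, MonoidHom.normal_ker _, MonoidHom.ker_transferSylow_isComplement' P hP⟩

/-- Every involution is conjugate into a given Sylow `2`-subgroup. -/
theorem exists_conj_mem_sylow_two [Finite G] (P : Sylow 2 G) {t : G} (ht : orderOf t = 2) :
    ∃ g : G, g * t * g⁻¹ ∈ (P : Subgroup G) := by
  have hQ : IsPGroup 2 (Subgroup.zpowers t) :=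
    Cfsg.Agent.Lead.isPGroup_zpowers_of_orderOf_prime ht
  obtain ⟨g, hg⟩ := Cfsg.Agent.Lead.exists_conj_mem_sylow P hQ
  exact ⟨g, hg t (Subgroup.mem_zpowers t)⟩

/-- The elements of a Klein four-subgroup. -/
theorem kleinFour_elems (V : Subgroup G) (hV : IsKleinFour V) :
    ∃ a b : G, a ∈ V ∧ b ∈ V ∧ a ≠ 1 ∧ b ≠ 1 ∧ a ≠ b ∧ a * a = 1 ∧ b * b = 1 ∧ a * b = b * a ∧
      ∀ x ∈ V, x = 1 ∨ x = a ∨ x = b ∨ x = a * b := by
  obtain ⟨e⟩ := IsKleinFour.nonempty_mulEquiv (G₁ := Multiplicative (ZMod 2 × ZMod 2)) (G₂ := V)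
  have key : ∀ v : ZMod 2 × ZMod 2, v = 0 ∨ v = (1, 0) ∨ v = (0, 1) ∨ v = (1, 0) + (0, 1) := by
    decide
  have ha1 : e (Multiplicative.ofAdd ((1, 0) : ZMod 2 × ZMod 2)) ≠ 1 := by
    intro h
    have h0 := e.injective (h.trans (map_one e).symm)
    have h1 : ((1, 0) : ZMod 2 × ZMod 2) = 0 := Multiplicative.ofAdd.injective h0
    revert h1; decide
  have hb1 : e (Multiplicative.ofAdd ((0, 1) : ZMod 2 × ZMod 2)) ≠ 1 := by
    intro h
    have h0 := e.injective (h.trans (map_one e).symm)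
    have h1 : ((0, 1) : ZMod 2 × ZMod 2) = 0 := Multiplicative.ofAdd.injective h0
    revert h1; decide
  have hab : e (Multiplicative.ofAdd ((1, 0) : ZMod 2 × ZMod 2)) ≠
      e (Multiplicative.ofAdd ((0, 1) : ZMod 2 × ZMod 2)) := by
    intro h
    have h0 := e.injective h
    have h1 : ((1, 0) : ZMod 2 × ZMod 2) = (0, 1) := Multiplicative.ofAdd.injective h0
    revert h1; decide
  refine ⟨(e (Multiplicative.ofAdd ((1, 0) : ZMod 2 × ZMod 2)) : G),
    (e (Multiplicative.ofAdd ((0, 1) : ZMod 2 × ZMod 2)) : G), Subtype.coe_prop _, Subtype.coe_prop _,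
    ?_, ?_, ?_, ?_, ?_, ?_, ?_⟩
  · intro h; exact ha1 (Subtype.ext h)
  · intro h; exact hb1 (Subtype.ext h)
  · intro h; exact hab (Subtype.ext h)
  · have := IsKleinFour.mul_self (e (Multiplicative.ofAdd ((1, 0) : ZMod 2 × ZMod 2)))
    exact congrArg Subtype.val this
  · have := IsKleinFour.mul_self (e (Multiplicative.ofAdd ((0, 1) : ZMod 2 × ZMod 2)))
    exact congrArg Subtype.val this
  · have h0 : e (Multiplicative.ofAdd ((1, 0) : ZMod 2 × ZMod 2)) *
        e (Multiplicative.ofAdd ((0, 1) : ZMod 2 × ZMod 2)) =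
        e (Multiplicative.ofAdd ((0, 1) : ZMod 2 × ZMod 2)) *
        e (Multiplicative.ofAdd ((1, 0) : ZMod 2 × ZMod 2)) := by
      rw [← map_mul e, ← map_mul e, mul_comm]
    exact congrArg Subtype.val h0
  · intro x hx
    obtain ⟨w, hw⟩ := e.surjective ⟨x, hx⟩
    have hx' : x = (e w : G) := by rw [hw]
    rcases key (Multiplicative.toAdd w) with h | h | h | h
    · left
      have : w = 1 := Multiplicative.toAdd.injective h
      rw [hx', this, map_one]; rfl
    · right; left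
      have : w = Multiplicative.ofAdd ((1, 0) : ZMod 2 × ZMod 2) := Multiplicative.toAdd.injective h
      rw [hx', this]
    · right; right; left
      have : w = Multiplicative.ofAdd ((0, 1) : ZMod 2 × ZMod 2) := Multiplicative.toAdd.injective h
      rw [hx', this]
    · right; right; right
      have : w = Multiplicative.ofAdd ((1, 0) : ZMod 2 × ZMod 2) *
          Multiplicative.ofAdd ((0, 1) : ZMod 2 × ZMod 2) := Multiplicative.toAdd.injective h
      rw [hx', this, map_mul]; rfl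

end Cfsg.Agent.Helper6
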