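import Mathlib
import Cfsg.Agent.Helper6.FrobNPC
import Cfsg.Agent.Helper6.Coprime
import Cfsg.Agent.Helper6.KleinSylow
import Cfsg.Agent.Helper5.Basic

set_option autoImplicit false

namespace Cfsg.Agent.Helper6

open DihedralGroup

/-- A cyclic group `ZMod n` has at most one element of order two. -/
theorem zmod_two_torsion' (n : ℕ) [NeZero n] (i j : ZMod n) (hi : i + i = 0) (hj : j + j = 0)
    (hi0 : i ≠ 0) (hj0 : j ≠ 0) : i = j := by
  have key : ∀ k : ZMod n, k + k = 0 → k ≠ 0 → 2 * k.val = n := by
    intro k hk hk0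
    have h : ((2 * k.val : ℕ) : ZMod n) = 0 := by
      push_cast
      rw [ZMod.natCast_zmod_val, two_mul]
      exact hk
    have h2 : n ∣ 2 * k.val := (ZMod.natCast_eq_zero_iff _ _).mp h
    have h3 : k.val < n := ZMod.val_lt k
    have h4 : k.val ≠ 0 := fun h0 => hk0 ((ZMod.val_eq_zero k).mp h0)
    obtain ⟨c, hc⟩ := h2
    have hc1 : c = 1 := by
      rcases c with _ | _ | c
      · omega
      · rfl
      · exfalso
        have : n * (c + 1 + 1) = n * c + 2 * n := by ring
        omega
    rw [hc, hc1, mul_one]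
  have h1 := key i hi hi0
  have h2 := key j hj hj0
  have h3 : i.val = j.val := by omega
  exact ZMod.val_injective n h3

/-- A permutation of odd order fixing `a` under its square fixes `a`. -/
theorem fix_of_fix_sq_of_odd {α : Type*} (φ : α → α) (k : ℕ) (hk : ∀ x, φ^[2 * k + 1] x = x)
    (a : α) (ha : φ (φ a) = a) : φ a = a := by
  have h1 : ∀ m : ℕ, φ^[2 * m] a = a := by
    intro m
    induction m with
    | zero => rfl
    | succ m ih =>
      rw [show 2 * (m + 1) = 2 * m + 2 by ring, Function.iterate_add_apply]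
      have : φ^[2] a = a := ha
      rw [this, ih]
  have h2 := hk a
  rw [Function.iterate_succ_apply', h1 k] at h2
  exact h2

/-- A `2`-group without elements of order four has exponent dividing two. -/
theorem pgroup_two_exponent {Q : Type*} [Group Q] (hQ : IsPGroup 2 Q)
    (h : ∀ y : Q, (y * y) * (y * y) = 1 → y * y = 1) : ∀ x : Q, x * x = 1 := by
  classical
  intro x
  have hex : ∃ a : ℕ, x ^ 2 ^ a = 1 := hQ x
  obtain ⟨a, ha_spec, ha_min⟩ : ∃ a, x ^ 2 ^ a = 1 ∧ ∀ b < a, x ^ 2 ^ b ≠ 1 :=
    ⟨Nat.find hex, Nat.find_spec hex, fun b hb => Nat.find_min hex hb⟩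
  rcases a with _ | _ | b
  · have : x = 1 := by simpa using ha_spec
    rw [this, mul_one]
  · have : x ^ 2 = 1 := by simpa using ha_spec
    rw [← pow_two]; exact this
  · exfalso
    have h3 : (x ^ 2 ^ b * x ^ 2 ^ b) * (x ^ 2 ^ b * x ^ 2 ^ b) = 1 := by
      rw [← pow_add, ← pow_add, ← ha_spec]
      congr 1
      ring
    have h4 := h _ h3
    have h5 : x ^ 2 ^ (b + 1) = 1 := by
      rw [← h4, ← pow_add]
      congr 1
      ring
    exact ha_min (b + 1) (by omega) h5

/-- An element of odd order normalizing a `2`-subgroup `Q` that embeds in a dihedral group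
centralizes `Q`, unless `Q` is a four-group. -/
theorem dihedral_odd_normalizer {X : Type*} [Group X] [Finite X] (Q : Subgroup X)
    (hQ : IsPGroup 2 Q) (n : ℕ) [NeZero n] (f : Q →* DihedralGroup n)
    (hf : Function.Injective f) (g : X) (hg : g ∈ Subgroup.normalizer (Q : Set X))
    (hodd : (orderOf g).Coprime 2) :
    g ∈ Subgroup.centralizer (Q : Set X) ∨ IsKleinFour Q := by
  classical
  haveI : Fact (Nat.Prime 2) := ⟨Nat.prime_two⟩
  have hgQ : ∀ x ∈ Q, g * x * g⁻¹ ∈ Q := fun x hx =>
    (Subgroup.mem_normalizer_iff.mp hg x).mp hx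
  obtain ⟨φ, hφ⟩ : ∃ φ : Q → Q, ∀ x : Q, (φ x : X) = g * x * g⁻¹ :=
    ⟨fun x => ⟨g * x * g⁻¹, hgQ x x.2⟩, fun x => rfl⟩
  have hφmul : ∀ x y : Q, φ (x * y) = φ x * φ y := by
    intro x y
    apply Subtype.ext
    rw [Subgroup.coe_mul, hφ, hφ, hφ, Subgroup.coe_mul]
    group
  have hφone : φ 1 = 1 := by
    apply Subtype.ext
    rw [hφ, Subgroup.coe_one]
    group
  have hφinj : Function.Injective φ := by
    intro x y h
    have h1 := congrArg Subtype.val h
    rw [hφ, hφ] at h1
    apply Subtype.ext
    have h2 : g⁻¹ * (g * (x : X) * g⁻¹) * g = g⁻¹ * (g * (y : X) * g⁻¹) * g := by rw [h1]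
    simpa [mul_assoc] using h2
  have hφiter : ∀ (m : ℕ) (x : Q), ((φ^[m] x : Q) : X) = g ^ m * x * (g ^ m)⁻¹ := by
    intro m
    induction m with
    | zero => intro x; simp
    | succ m ih =>
      intro x
      rw [Function.iterate_succ_apply', hφ, ih, pow_succ']
      group
  obtain ⟨k, hk⟩ : ∃ k, orderOf g = 2 * k + 1 := Nat.Coprime.odd_of_right hodd
  have hφk : ∀ x : Q, φ^[2 * k + 1] x = x := by
    intro x
    apply Subtype.ext
    rw [hφiter, ← hk, pow_orderOf_eq_one]
    group
  have hfix2 : ∀ a : Q, φ (φ a) = a → φ a = a := fun a ha =>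
    fix_of_fix_sq_of_odd φ k hφk a ha
  have hfixX : ∀ a : Q, g * (a : X) * g⁻¹ = a → φ a = a := fun a h =>
    Subtype.ext ((hφ a).trans h)
  have hcentral : (∀ a : Q, φ a = a) → g ∈ Subgroup.centralizer (Q : Set X) := by
    intro hall
    rw [Subgroup.mem_centralizer_iff]
    intro x hx
    have h1 := hall ⟨x, hx⟩
    have h2 := hφ ⟨x, hx⟩
    rw [h1] at h2
    have h3 : x = g * x * g⁻¹ := h2
    calc x * g = (g * x * g⁻¹) * g := by rw [← h3]
      _ = g * x := by group
  -- dihedral facts
  have hrefl : ∀ (x : Q) (i : ZMod n), f x = sr i → x * x = 1 := by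
    intro x i hx
    apply hf
    rw [map_mul, hx, sr_mul_self, map_one]
  have hrot2 : ∀ (x : Q) (i : ZMod n), f x = r i → (x * x = 1 ↔ i + i = 0) := by
    intro x i hx
    constructor
    · intro h
      have h1 : f (x * x) = 1 := by rw [h, map_one]
      rw [map_mul, hx, r_mul_r, one_def] at h1
      exact r.inj h1
    · intro h
      apply hf
      rw [map_mul, hx, r_mul_r, h, map_one, one_def]
  have hφsq : ∀ x : Q, φ x * φ x = 1 ↔ x * x = 1 := by
    intro x
    rw [← hφmul]
    constructor
    · intro h; exact hφinj (h.trans hφone.symm)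
    · intro h; rw [h, hφone]
  by_cases hA : ∃ y : Q, y * y ≠ 1 ∧ (y * y) * (y * y) = 1
  · left
    obtain ⟨y, hy2, hy4⟩ := hA
    obtain ⟨j, hj⟩ : ∃ j, f y = r j := by
      rcases hfy : f y with j | j
      · exact ⟨j, rfl⟩
      · exact absurd (hrefl y j hfy) hy2
    have hj2 : j + j ≠ 0 := fun h => hy2 ((hrot2 y j hj).mpr h)
    have hj4 : (j + j) + (j + j) = 0 := by
      have h1 : f (y * y) = r (j + j) := by rw [map_mul, hj, r_mul_r]
      exact (hrot2 (y * y) (j + j) h1).mp hy4
    -- rotations of order four are fixed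
    have hC4 : ∀ (a : Q) (i : ZMod n), f a = r i → i + i ≠ 0 → (i + i) + (i + i) = 0 →
        φ a = a := by
      intro a i ha hi2 hi4
      have ha2 : a * a ≠ 1 := fun h => hi2 ((hrot2 a i ha).mp h)
      have hφa2 : φ a * φ a ≠ 1 := fun h => ha2 ((hφsq a).mp h)
      obtain ⟨i', hi'⟩ : ∃ i', f (φ a) = r i' := by
        rcases hfy : f (φ a) with j | j
        · exact ⟨j, rfl⟩
        · exact absurd (hrefl (φ a) j hfy) hφa2
      have hi'2 : i' + i' ≠ 0 := fun h => hφa2 ((hrot2 (φ a) i' hi').mpr h)
      have hi'4 : (i' + i') + (i' + i') = 0 := by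
        have h1 : f (φ a * φ a) = r (i' + i') := by rw [map_mul, hi', r_mul_r]
        have h2 : (φ a * φ a) * (φ a * φ a) = 1 := by
          rw [← hφmul, ← hφmul]
          have h3 : (a * a) * (a * a) = 1 := by
            have h4 : f (a * a) = r (i + i) := by rw [map_mul, ha, r_mul_r]
            exact (hrot2 (a * a) (i + i) h4).mpr hi4
          rw [h3, hφone]
        exact (hrot2 (φ a * φ a) (i' + i') h1).mp h2
      have h1 : i + i = i' + i' := zmod_two_torsion' n _ _ hi4 hi'4 hi2 hi'2
      by_cases h2 : i - i' = 0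
      · have h3 : i = i' := sub_eq_zero.mp h2
        apply hf
        rw [ha, hi', h3]
      · have h3 : (i - i') + (i - i') = 0 := by
          have h4 : (i - i') + (i - i') = (i + i) - (i' + i') := by ring
          rw [h4, h1, sub_self]
        have h4 : i - i' = i + i := zmod_two_torsion' n _ _ h3 hi4 h2 hi2
        have h5 : i' = -i := by
          have h6 : i' = i - (i - i') := by ring
          rw [h6, h4]
          ring
        have h6 : φ a = a⁻¹ := by
          apply hf
          rw [hi', map_inv, ha, inv_r, h5]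
        apply hfix2
        rw [h6]
        have h7 : φ (a⁻¹) * φ a = 1 := by rw [← hφmul, inv_mul_cancel, hφone]
        rw [h6] at h7
        exact mul_inv_eq_one.mp h7
    have hφy : φ y = y := hC4 y j hj hj2 hj4
    -- rotations of order at most two are fixed
    have hC2 : ∀ (a : Q) (i : ZMod n), f a = r i → i + i = 0 → φ a = a := by
      intro a i ha hi2
      by_cases hi0 : i = 0
      · have h1 : a = 1 := by
          apply hf
          rw [ha, hi0, map_one, one_def]
        rw [h1, hφone]
      · have h1 : i = j + j := zmod_two_torsion' n _ _ hi2 hj4 hi0 hj2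
        have h2 : a = y * y := by
          apply hf
          rw [ha, map_mul, hj, r_mul_r, h1]
        rw [h2, hφmul, hφy]
    -- rotations are preserved
    have hCR : ∀ (a : Q) (i : ZMod n), f a = r i → ∃ i', f (φ a) = r i' := by
      intro a i ha
      by_cases hi2 : i + i = 0
      · exact ⟨i, by rw [hC2 a i ha hi2, ha]⟩
      · have ha2 : a * a ≠ 1 := fun h => hi2 ((hrot2 a i ha).mp h)
        have hφa2 : φ a * φ a ≠ 1 := fun h => ha2 ((hφsq a).mp h)
        rcases hfy : f (φ a) with j | j
        · exact ⟨j, rfl⟩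
        · exact absurd (hrefl (φ a) j hfy) hφa2
    -- the rotation subgroup
    let R : Subgroup Q :=
      { carrier := {x | ∃ i, f x = r i}
        mul_mem' := by
          rintro a b ⟨i, hi⟩ ⟨j, hj⟩
          exact ⟨i + j, by rw [map_mul, hi, hj, r_mul_r]⟩
        one_mem' := ⟨0, by rw [map_one, one_def]⟩
        inv_mem' := by
          rintro a ⟨i, hi⟩
          exact ⟨-i, by rw [map_inv, hi, inv_r]⟩ }
    have hRmem : ∀ x : Q, x ∈ R ↔ ∃ i, f x = r i := fun x => Iff.rfl
    have hR'P : IsPGroup 2 (R.map Q.subtype) := hQ.to_le (Subgroup.map_subtype_le R)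
    have hR'N : g ∈ Subgroup.normalizer ((R.map Q.subtype : Subgroup X) : Set X) := by
      apply Cfsg.Agent.Helper5.mem_normalizer_of_conj_le
      rintro _ ⟨_, ⟨a, ha, rfl⟩, rfl⟩
      obtain ⟨i, hi⟩ := (hRmem a).mp ha
      obtain ⟨i', hi'⟩ := hCR a i hi
      refine Subgroup.mem_map.mpr ⟨φ a, (hRmem _).mpr ⟨i', hi'⟩, ?_⟩
      simp [hφ]
    have hRfix : ∀ a : Q, a ∈ R → φ a = a := by
      have hom : ∀ x ∈ R.map Q.subtype, (x ^ 2 = 1 ∨ ((2 : ℕ) = 2 ∧ x ^ 4 = 1)) →
          g * x * g⁻¹ = x := by
        rintro _ ⟨a, ha, rfl⟩ hpow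
        obtain ⟨i, hi⟩ := (hRmem a).mp ha
        have hx : ((a : X)) ^ 4 = 1 := by
          rcases hpow with h | ⟨-, h⟩
          · have h' : (a : X) ^ 2 = 1 := h
            rw [show 4 = 2 * 2 from rfl, pow_mul, h', one_pow]
          · exact h
        have h4 : (a * a) * (a * a) = 1 := by
          apply Subtype.ext
          have hx' : (a : X) * a * ((a : X) * a) = 1 := by
            have e : (a : X) * a * ((a : X) * a) = (a : X) ^ 4 := by
              simp only [pow_succ, pow_zero, one_mul, mul_assoc]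
            rw [e]
            exact hx
          simp only [Subgroup.coe_mul, Subgroup.coe_one]
          exact hx'
        have hi4 : (i + i) + (i + i) = 0 := by
          have h1 : f (a * a) = r (i + i) := by rw [map_mul, hi, r_mul_r]
          exact (hrot2 (a * a) (i + i) h1).mp h4
        have hfa : φ a = a := by
          by_cases hi2 : i + i = 0
          · exact hC2 a i hi hi2
          · exact hC4 a i hi hi2 hi4
        have h5 := hφ a
        rw [hfa] at h5
        exact h5.symm
      have hcent := centralizes_of_centralizes_omega g hodd _ (R.map Q.subtype) rfl hR'P hR'N hom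
      intro a ha
      apply hfixX
      have h1 := (Subgroup.mem_centralizer_iff.mp hcent) (a : X)
        (Subgroup.mem_map.mpr ⟨a, ha, rfl⟩)
      rw [← h1, mul_inv_cancel_right]
    apply hcentral
    intro a
    rcases hfa : f a with i | i
    · exact hRfix a ((hRmem a).mpr ⟨i, hfa⟩)
    · have ha2 : a * a = 1 := hrefl a i hfa
      have hφa2 : φ a * φ a = 1 := (hφsq a).mpr ha2
      rcases hfφ : f (φ a) with i' | i'
      · have h1 : i' + i' = 0 := (hrot2 (φ a) i' hfφ).mp hφa2
        have h2 : φ (φ a) = φ a := hC2 (φ a) i' hfφ h1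
        exact hφinj h2
      · have hc : a⁻¹ * φ a ∈ R :=
          (hRmem _).mpr ⟨i' - i, by rw [map_mul, map_inv, hfa, hfφ, inv_sr, sr_mul_sr]⟩
        have hcfix := hRfix _ hc
        obtain ⟨m, hm⟩ := hQ (a⁻¹ * φ a)
        have h1 : g * (a : X) * g⁻¹ = (a : X) * ((a⁻¹ * φ a : Q) : X) := by
          rw [← hφ a]
          simp
        have h2 : g * ((a⁻¹ * φ a : Q) : X) = ((a⁻¹ * φ a : Q) : X) * g := by
          have h3 := hφ (a⁻¹ * φ a)
          rw [hcfix] at h3
          calc g * ((a⁻¹ * φ a : Q) : X) = (g * ((a⁻¹ * φ a : Q) : X) * g⁻¹) * g := by group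
            _ = ((a⁻¹ * φ a : Q) : X) * g := by rw [← h3]
        have h3 : ((a⁻¹ * φ a : Q) : X) ^ 2 ^ m = 1 := by
          have h4 := congrArg Subtype.val hm
          simpa using h4
        have h4 := eq_one_of_conj_eq_mul h1 h2 h3 hodd
        apply hfixX
        rw [h1, h4, mul_one]
  · -- no element of order four
    have hB : ∀ y : Q, (y * y) * (y * y) = 1 → y * y = 1 := by
      intro y hy
      by_contra h
      exact hA ⟨y, h, hy⟩
    have hexp : ∀ x : Q, x * x = 1 := pgroup_two_exponent hQ hB
    have hrot1 : ∀ (x x' : Q) (i i' : ZMod n), f x = r i → f x' = r i' → x ≠ 1 → x' ≠ 1 →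
        x = x' := by
      intro x x' i i' hx hx' h1 h1'
      have hi : i + i = 0 := (hrot2 x i hx).mp (hexp x)
      have hi' : i' + i' = 0 := (hrot2 x' i' hx').mp (hexp x')
      have hi0 : i ≠ 0 := by
        intro h
        apply h1
        apply hf
        rw [hx, h, map_one, one_def]
      have hi0' : i' ≠ 0 := by
        intro h
        apply h1'
        apply hf
        rw [hx', h, map_one, one_def]
      apply hf
      rw [hx, hx', zmod_two_torsion' n i i' hi hi' hi0 hi0']
    obtain ⟨z, hz⟩ : ∃ z : Q, ∀ (x : Q) (i : ZMod n), f x = r i → x = 1 ∨ x = z := by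
      by_cases h : ∃ (z : Q) (i : ZMod n), f z = r i ∧ z ≠ 1
      · obtain ⟨z, i, hz, hz1⟩ := h
        refine ⟨z, fun x i' hx => ?_⟩
        by_cases hx1 : x = 1
        · left; exact hx1
        · right; exact hrot1 x z i' i hx hz hx1 hz1
      · refine ⟨1, fun x i' hx => ?_⟩
        left
        by_contra hx1
        exact h ⟨x, i', hx, hx1⟩
    obtain ⟨a, b, hab⟩ : ∃ a b : Q, ∀ x : Q, x = 1 ∨ x = a ∨ x = b ∨ x = a * b := by
      by_cases h : ∃ (u : Q) (i : ZMod n), f u = sr i
      · obtain ⟨u, i, hu⟩ := h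
        refine ⟨u, z, fun x => ?_⟩
        rcases hfx : f x with i' | i'
        · rcases hz x i' hfx with h1 | h1
          · left; exact h1
          · right; right; left; exact h1
        · have h1 : f (u⁻¹ * x) = r (i' - i) := by
            rw [map_mul, map_inv, hu, hfx, inv_sr, sr_mul_sr]
          rcases hz _ _ h1 with h2 | h2
          · right; left
            exact (inv_mul_eq_one.mp h2).symm
          · right; right; right
            rw [← h2]
            group
      · refine ⟨z, 1, fun x => ?_⟩
        rcases hfx : f x with i' | i'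
        · rcases hz x i' hfx with h1 | h1
          · left; exact h1
          · right; left; exact h1
        · exact absurd ⟨x, i', hfx⟩ h
    haveI : Fintype Q := Fintype.ofFinite Q
    have hcard4 : Nat.card Q ≤ 4 := by
      rw [Nat.card_eq_fintype_card, ← Finset.card_univ]
      calc (Finset.univ : Finset Q).card ≤ ({1, a, b, a * b} : Finset Q).card := by
            apply Finset.card_le_card
            intro x _
            simp only [Finset.mem_insert, Finset.mem_singleton]
            exact hab x
        _ ≤ 4 := Finset.card_le_four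
    by_cases hall : ∀ a : Q, φ a = a
    · left
      exact hcentral hall
    · right
      push Not at hall
      obtain ⟨c, hc⟩ := hall
      have hc1 : c ≠ 1 := by
        rintro rfl
        exact hc hφone
      have hφc1 : φ c ≠ 1 := by
        intro h
        exact hc1 (hφinj (h.trans hφone.symm))
      have hcard3 : 3 ≤ Nat.card Q := by
        rw [Nat.card_eq_fintype_card, ← Finset.card_univ]
        have h3 : ({1, c, φ c} : Finset Q).card = 3 :=
          Finset.card_eq_three.mpr ⟨1, c, φ c, Ne.symm hc1, Ne.symm hφc1, Ne.symm hc, rfl⟩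
        rw [← h3]
        exact Finset.card_le_univ _
      obtain ⟨m, hm⟩ := IsPGroup.iff_card.mp hQ
      have hm2 : Nat.card Q = 4 := by
        rw [hm] at hcard3 hcard4 ⊢
        rcases m with _ | _ | _ | m
        · simp at hcard3
        · simp at hcard3
        · rfl
        · exfalso
          have h8 : 2 ^ (m + 3) = 2 ^ m * 8 := by ring
          have hpos : 0 < 2 ^ m := by positivity
          omega
      have hexp2 : Monoid.exponent Q = 2 := by
        have h1 : Monoid.exponent Q ∣ 2 :=
          Monoid.exponent_dvd_of_forall_pow_eq_one (fun x => by rw [pow_two]; exact hexp x)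
        have h2 : Monoid.exponent Q ≠ 1 := by
          intro h
          have hss := Monoid.exp_eq_one_iff.mp h
          exact hc1 (Subsingleton.elim c 1)
        rcases (Nat.dvd_prime Nat.prime_two).mp h1 with h | h
        · exact absurd h h2
        · exact h
      exact { card_four := hm2, exponent_two := hexp2 }

/-- Sylow version: in a group with dihedral Sylow `2`-subgroups, an element of odd order
normalizing a `2`-subgroup `Q` centralizes it unless `Q` is a four-group. -/
theorem dihedral_sylow_odd_normalizer {X : Type*} [Group X] [Finite X] (S : Sylow 2 X) (n : ℕ)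
    (e : (S : Subgroup X) ≃* DihedralGroup n) (Q : Subgroup X) (hQ : IsPGroup 2 Q) (g : X)
    (hg : g ∈ Subgroup.normalizer (Q : Set X)) (hodd : (orderOf g).Coprime 2) :
    g ∈ Subgroup.centralizer (Q : Set X) ∨ IsKleinFour Q := by
  haveI : Fact (Nat.Prime 2) := ⟨Nat.prime_two⟩
  haveI : NeZero n := ⟨by
    rintro rfl
    haveI : Infinite (S : Subgroup X) := Infinite.of_injective e.symm e.symm.injective
    exact not_finite (S : Subgroup X)⟩
  obtain ⟨h, hh⟩ := Cfsg.Agent.Lead.exists_conj_mem_sylow S hQ
  let f0 : Q →* (S : Subgroup X) :=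
    { toFun := fun x => ⟨h * x * h⁻¹, hh x x.2⟩
      map_one' := by apply Subtype.ext; simp
      map_mul' := by intro x y; apply Subtype.ext; simp }
  have hf0 : Function.Injective f0 := by
    intro x y hxy
    have h1 : h * (x : X) * h⁻¹ = h * (y : X) * h⁻¹ := congrArg Subtype.val hxy
    apply Subtype.ext
    simpa using h1
  exact dihedral_odd_normalizer Q hQ n (e.toMonoidHom.comp f0) (e.injective.comp hf0) g hg hodd

/-- An element of odd order normalizing a four-group and fixing one of its involutions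
centralizes it. -/
theorem kleinFour_centralize {X : Type*} [Group X] (U : Subgroup X)
    (hU : IsKleinFour U) (g : X) (hg : g ∈ Subgroup.normalizer (U : Set X))
    (hodd : (orderOf g).Coprime 2) (t : X) (htU : t ∈ U) (ht1 : t ≠ 1)
    (hgt : g * t * g⁻¹ = t) : g ∈ Subgroup.centralizer (U : Set X) := by
  have hgU : ∀ x ∈ U, g * x * g⁻¹ ∈ U := fun x hx =>
    (Subgroup.mem_normalizer_iff.mp hg x).mp hx
  have ht2 : t ^ 2 ^ 1 = 1 := by
    have h1 := IsKleinFour.mul_self (⟨t, htU⟩ : U)
    have h2 := congrArg Subtype.val h1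
    simp only [Subgroup.coe_mul, Subgroup.coe_one] at h2
    rw [pow_one, pow_two]
    exact h2
  have hgt' : g * t = t * g := by
    calc g * t = (g * t * g⁻¹) * g := by group
      _ = t * g := by rw [hgt]
  have key : ∀ x ∈ U, g * x * g⁻¹ = x := by
    intro x hx
    by_contra hne
    have hx1 : x ≠ 1 := by
      rintro rfl
      apply hne
      group
    have hxt : x ≠ t := by
      rintro rfl
      exact hne hgt
    have hy1 : g * x * g⁻¹ ≠ 1 := by
      intro h
      apply hx1
      have : x = g⁻¹ * (g * x * g⁻¹) * g := by group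
      rw [this, h]
      group
    have hyt : g * x * g⁻¹ ≠ t := by
      intro h
      apply hxt
      have h1 : g * x * g⁻¹ = g * t * g⁻¹ := h.trans hgt.symm
      have h2 : x = g⁻¹ * (g * x * g⁻¹) * g := by group
      rw [h2, h1]
      group
    have h3 : (⟨g * x * g⁻¹, hgU x hx⟩ : U) = ⟨x, hx⟩ * ⟨t, htU⟩ :=
      IsKleinFour.eq_mul_of_ne_all (x := (⟨x, hx⟩ : U)) (y := (⟨t, htU⟩ : U))
        (fun h => hx1 (congrArg Subtype.val h)) (fun h => ht1 (congrArg Subtype.val h))
        (fun h => hxt (congrArg Subtype.val h)) (fun h => hy1 (congrArg Subtype.val h))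
        (fun h => hne (congrArg Subtype.val h)) (fun h => hyt (congrArg Subtype.val h))
    have h4 : g * x * g⁻¹ = x * t := congrArg Subtype.val h3
    exact ht1 (eq_one_of_conj_eq_mul h4 hgt' ht2 hodd)
  rw [Subgroup.mem_centralizer_iff]
  intro x hx
  have h1 := key x hx
  calc x * g = (g * x * g⁻¹) * g := by rw [h1]
    _ = g * x := by group

/-- The Frobenius condition only needs to be checked for subgroups of a fixed Sylow subgroup. -/
theorem frobCond_of_sylow {G : Type*} [Group G] [Finite G] {p : ℕ} [Fact p.Prime] (P : Sylow p G)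
    (h : ∀ Q : Subgroup G, Q ≤ P → ∀ g ∈ Subgroup.normalizer (Q : Set G),
      (orderOf g).Coprime p → g ∈ Subgroup.centralizer (Q : Set G)) : FrobCond p G := by
  intro Y hY g hg hcop
  obtain ⟨c, hc⟩ := Cfsg.Agent.Lead.exists_conj_mem_sylow P hY
  have hQP : Y.map (MulAut.conj c).toMonoidHom ≤ P := by
    rintro _ ⟨y, hy, rfl⟩
    exact hc y hy
  have hgY : ∀ y ∈ Y, g * y * g⁻¹ ∈ Y := fun y hy =>
    (Subgroup.mem_normalizer_iff.mp hg y).mp hy
  have hN : c * g * c⁻¹ ∈ Subgroup.normalizer
      ((Y.map (MulAut.conj c).toMonoidHom : Subgroup G) : Set G) := by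
    apply Cfsg.Agent.Helper5.mem_normalizer_of_conj_le
    rintro _ ⟨_, ⟨y, hy, rfl⟩, rfl⟩
    refine Subgroup.mem_map.mpr ⟨g * y * g⁻¹, hgY y hy, ?_⟩
    simp [MulAut.conj_apply]
    group
  have hord : (orderOf (c * g * c⁻¹)).Coprime p := by
    rw [Cfsg.Agent.Lead.orderOf_conj_eq]
    exact hcop
  have h1 := h _ hQP _ hN hord
  rw [Subgroup.mem_centralizer_iff] at h1 ⊢
  intro y hy
  have h2 := h1 (c * y * c⁻¹) (Subgroup.mem_map.mpr ⟨y, hy, by simp [MulAut.conj_apply]⟩)
  have h3 : c⁻¹ * (c * y * c⁻¹ * (c * g * c⁻¹)) * c = c⁻¹ * (c * g * c⁻¹ * (c * y * c⁻¹)) * c := by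
    rw [h2]
  calc y * g = c⁻¹ * (c * y * c⁻¹ * (c * g * c⁻¹)) * c := by group
    _ = c⁻¹ * (c * g * c⁻¹ * (c * y * c⁻¹)) * c := h3
    _ = g * y := by group

/-- A normal `p`-complement complements every Sylow `p`-subgroup. -/
theorem exists_complement_sylow_of_hasNormalPComplement {G : Type*} [Group G] [Finite G] {p : ℕ}
    [Fact p.Prime] (h : Cfsg.HasNormalPComplement p G) (S : Sylow p G) :
    ∃ N : Subgroup G, N.Normal ∧ N.IsComplement' (S : Subgroup G) ∧ (Nat.card N).Coprime p := by
  obtain ⟨P, N, hN, hc⟩ := h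
  have h1 : Nat.card N * Nat.card (P : Subgroup G) = Nat.card G := hc.card_mul_card
  have hcardS : Nat.card (S : Subgroup G) = Nat.card (P : Subgroup G) := by
    rw [Sylow.card_eq_multiplicity, Sylow.card_eq_multiplicity]
  have hidx : (P : Subgroup G).index = Nat.card N := hc.index_eq_card
  have hcop : (Nat.card N).Coprime (Nat.card (P : Subgroup G)) := by
    rw [← hidx]
    exact P.card_coprime_index.symm
  refine ⟨N, hN, Subgroup.isComplement'_of_coprime (by rw [hcardS]; exact h1)
    (by rw [hcardS]; exact hcop), ?_⟩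
  rw [← hidx]
  exact ((Nat.Prime.coprime_iff_not_dvd Fact.out).mpr P.not_dvd_index).symm

end Cfsg.Agent.Helper6
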