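import Mathlib
import Cfsg.Agent.Helper6.DihSylow
import Cfsg.Agent.Helper6.ThompsonTransfer

set_option autoImplicit false

namespace Cfsg.Agent.Helper6

open DihedralGroup

/-- Reduction mod `2` of a dihedral group `D_m` (`m` even) onto the four-group `D_2`. -/
def dihRed (m : ℕ) (h2 : 2 ∣ m) : DihedralGroup m →* DihedralGroup 2 where
  toFun x := match x with
    | r j => r (ZMod.castHom h2 (ZMod 2) j)
    | sr j => sr (ZMod.castHom h2 (ZMod 2) j)
  map_one' := by
    show r (ZMod.castHom h2 (ZMod 2) 0) = 1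
    rw [map_zero]; rfl
  map_mul' := by
    rintro (i | i) (j | j)
    · show r (ZMod.castHom h2 (ZMod 2) (i + j)) = r _ * r _
      rw [map_add, r_mul_r]
    · show sr (ZMod.castHom h2 (ZMod 2) (j - i)) = r _ * sr _
      rw [map_sub, r_mul_sr]
    · show sr (ZMod.castHom h2 (ZMod 2) (i + j)) = sr _ * r _
      rw [map_add, sr_mul_r]
    · show r (ZMod.castHom h2 (ZMod 2) (j - i)) = sr _ * sr _
      rw [map_sub, sr_mul_sr]

theorem dihRed_r (m : ℕ) (h2 : 2 ∣ m) (j : ZMod m) :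
    dihRed m h2 (r j) = r (ZMod.castHom h2 (ZMod 2) j) := rfl

theorem dihRed_sr (m : ℕ) (h2 : 2 ∣ m) (j : ZMod m) :
    dihRed m h2 (sr j) = sr (ZMod.castHom h2 (ZMod 2) j) := rfl

theorem dihRed_surjective (m : ℕ) (h2 : 2 ∣ m) : Function.Surjective (dihRed m h2) := by
  rintro (a | a)
  · refine ⟨r (a.val : ZMod m), ?_⟩
    rw [dihRed_r, map_natCast, ZMod.natCast_zmod_val]
  · refine ⟨sr (a.val : ZMod m), ?_⟩
    rw [dihRed_sr, map_natCast, ZMod.natCast_zmod_val]

theorem zmod_two_cases (a : ZMod 2) : a = 0 ∨ a = 1 := by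
  revert a; decide

/-- Parity decomposition in `ZMod m`, `m` even. -/
theorem zmod_even_decomp (m : ℕ) [NeZero m] (h2 : 2 ∣ m) (i : ZMod m)
    (hi : ZMod.castHom h2 (ZMod 2) i = 0) : ∃ k : ZMod m, i = k + k := by
  have h1 : ZMod.castHom h2 (ZMod 2) i = ((i.val : ℕ) : ZMod 2) := by
    conv_lhs => rw [← ZMod.natCast_zmod_val i]
    rw [map_natCast]
  rw [h1, ZMod.natCast_eq_zero_iff_even] at hi
  obtain ⟨q, hq⟩ := hi
  refine ⟨(q : ZMod m), ?_⟩
  conv_lhs => rw [← ZMod.natCast_zmod_val i, hq]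
  push_cast; rfl

theorem zmod_odd_decomp (m : ℕ) [NeZero m] (h2 : 2 ∣ m) (i : ZMod m)
    (hi : ZMod.castHom h2 (ZMod 2) i = 1) : ∃ k : ZMod m, i = 1 + k + k := by
  have h1 : ZMod.castHom h2 (ZMod 2) i = ((i.val : ℕ) : ZMod 2) := by
    conv_lhs => rw [← ZMod.natCast_zmod_val i]
    rw [map_natCast]
  rw [h1, ZMod.natCast_eq_one_iff_odd] at hi
  obtain ⟨q, hq⟩ := hi
  refine ⟨(q : ZMod m), ?_⟩
  conv_lhs => rw [← ZMod.natCast_zmod_val i, hq]
  push_cast; ring

theorem castHom_add_self (m : ℕ) (h2 : 2 ∣ m) (k : ZMod m) :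
    ZMod.castHom h2 (ZMod 2) (k + k) = 0 := by
  rw [map_add]
  rcases zmod_two_cases (ZMod.castHom h2 (ZMod 2) k) with h | h <;> rw [h] <;> decide

/-- The half-turn index. -/
theorem zmod_half (m : ℕ) [NeZero m] (h2 : 2 ∣ m) :
    ((m / 2 : ℕ) : ZMod m) + ((m / 2 : ℕ) : ZMod m) = 0 ∧ ((m / 2 : ℕ) : ZMod m) ≠ 0 := by
  obtain ⟨q, hq⟩ := h2
  have hm : m ≠ 0 := NeZero.ne m
  have hq2 : m / 2 = q := by omega
  rw [hq2]
  constructor
  · have : ((q : ZMod m)) + (q : ZMod m) = ((m : ℕ) : ZMod m) := by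
      rw [hq]; push_cast; ring
    rw [this, ZMod.natCast_self]
  · intro h
    have h1 := (ZMod.natCast_eq_zero_iff q m).mp h
    have h3 := Nat.le_of_dvd (by omega) h1
    omega

/-- In `D_2`, the cyclic subgroup generated by an involution. -/
theorem mem_zpowers_of_mul_self {H : Type*} [Group H] (c : H) (hc : c * c = 1) (y : H) :
    y ∈ Subgroup.zpowers c ↔ y = 1 ∨ y = c := by
  constructor
  · rintro ⟨k, rfl⟩
    rcases Int.even_or_odd k with ⟨j, hj⟩ | ⟨j, hj⟩
    · left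
      show c ^ k = 1
      rw [hj, zpow_add, ← (Commute.refl c).mul_zpow, hc, one_zpow]
    · right
      show c ^ k = c
      rw [hj, zpow_add, zpow_one, two_mul, zpow_add, ← (Commute.refl c).mul_zpow, hc, one_zpow,
        one_mul]
  · rintro (rfl | rfl)
    · exact Subgroup.one_mem _
    · exact Subgroup.mem_zpowers _

theorem dih2_mul_self (c : DihedralGroup 2) : c * c = 1 := by
  revert c; decide

theorem dih2_index_zpowers (c : DihedralGroup 2) (hc : c ≠ 1) :
    (Subgroup.zpowers c).index = 2 := by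
  have h1 : Nat.card (Subgroup.zpowers c) = 2 := by
    rw [Nat.card_zpowers]
    exact orderOf_eq_prime (by rw [pow_two]; exact dih2_mul_self c) hc
  have h2 := (Subgroup.zpowers c).card_mul_index
  rw [h1, DihedralGroup.nat_card] at h2
  omega

variable {G : Type*} [Group G]

/-- The maximal subgroup of the dihedral subgroup `τ(D_m)` attached to an involution `c` of
`D_2`. -/
def dihMax {m : ℕ} (h2 : 2 ∣ m) (τ : DihedralGroup m →* G) (c : DihedralGroup 2) : Subgroup G :=
  ((Subgroup.zpowers c).comap (dihRed m h2)).map τ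

theorem mem_dihMax {m : ℕ} (h2 : 2 ∣ m) (τ : DihedralGroup m →* G)
    (hτ : Function.Injective τ) (c : DihedralGroup 2) (y : DihedralGroup m) :
    τ y ∈ dihMax h2 τ c ↔ dihRed m h2 y = 1 ∨ dihRed m h2 y = c := by
  unfold dihMax
  rw [Subgroup.mem_map]
  constructor
  · rintro ⟨y', hy', hyy⟩
    have : y' = y := hτ hyy
    subst this
    exact (mem_zpowers_of_mul_self c (dih2_mul_self c) _).mp (Subgroup.mem_comap.mp hy')
  · intro h
    exact ⟨y, Subgroup.mem_comap.mpr ((mem_zpowers_of_mul_self c (dih2_mul_self c) _).mpr h), rfl⟩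

theorem dihMax_le {m : ℕ} (h2 : 2 ∣ m) (τ : DihedralGroup m →* G) (c : DihedralGroup 2) :
    dihMax h2 τ c ≤ τ.range := by
  rintro _ ⟨y, -, rfl⟩
  exact ⟨y, rfl⟩

theorem dihMax_relIndex {m : ℕ} (h2 : 2 ∣ m) (τ : DihedralGroup m →* G)
    (hτ : Function.Injective τ) (c : DihedralGroup 2) (hc : c ≠ 1) :
    (dihMax h2 τ c).relIndex τ.range = 2 := by
  unfold dihMax
  rw [MonoidHom.range_eq_map, Subgroup.relIndex_map_map_of_injective _ _ hτ,
    Subgroup.relIndex_top_right, Subgroup.index_comap_of_surjective _ (dihRed_surjective m h2)]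
  exact dih2_index_zpowers c hc

theorem sr_ne_one' {m : ℕ} (i : ZMod m) : (sr i : DihedralGroup m) ≠ 1 := by
  intro h
  have h' : (sr i : DihedralGroup m) = r 0 := h
  cases h'

theorem dih2_r_one_ne : (r 1 : DihedralGroup 2) ≠ 1 := by decide

theorem sr_ne_r' {m : ℕ} (i j : ZMod m) : (sr i : DihedralGroup m) ≠ r j := by
  simp

/-- The involutions of a dihedral group `D_m`, `m` even. -/
theorem dih_invol_cases {m : ℕ} [NeZero m] (h2 : 2 ∣ m) (y : DihedralGroup m) (hy : y * y = 1)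
    (hy1 : y ≠ 1) : y = r ((m / 2 : ℕ) : ZMod m) ∨ ∃ i, y = sr i := by
  rcases y with j | i
  · left
    have hj : j + j = 0 := by
      rw [r_mul_r, one_def] at hy
      exact r.inj hy
    have hj0 : j ≠ 0 := by
      rintro rfl
      exact hy1 rfl
    obtain ⟨h1, h3⟩ := zmod_half m h2
    rw [zmod_two_torsion' m j _ hj h1 hj0 h3]
  · right; exact ⟨i, rfl⟩

theorem dih_sr_conj_even {m : ℕ} [NeZero m] (h2 : 2 ∣ m) (i : ZMod m)
    (hi : ZMod.castHom h2 (ZMod 2) i = 0) : ∃ x : DihedralGroup m, x * sr i * x⁻¹ = sr 0 := by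
  obtain ⟨k, rfl⟩ := zmod_even_decomp m h2 i hi
  refine ⟨r k, ?_⟩
  rw [r_mul_sr, inv_r, sr_mul_r]
  congr 1
  ring

theorem dih_sr_conj_odd {m : ℕ} [NeZero m] (h2 : 2 ∣ m) (i : ZMod m)
    (hi : ZMod.castHom h2 (ZMod 2) i = 1) : ∃ x : DihedralGroup m, x * sr i * x⁻¹ = sr 1 := by
  obtain ⟨k, rfl⟩ := zmod_odd_decomp m h2 i hi
  refine ⟨r k, ?_⟩
  rw [r_mul_sr, inv_r, sr_mul_r]
  congr 1
  ring

/-- A conjugate `g t g⁻¹ = τ (sr i)` is conjugate to `τ (sr 0)` or `τ (sr 1)` according to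
the parity of `i`. -/
theorem isConj_sr_of_conj {m : ℕ} [NeZero m] (h2 : 2 ∣ m) (τ : DihedralGroup m →* G)
    (t g : G) (i : ZMod m) (hy : τ (sr i) = g * t * g⁻¹) :
    (ZMod.castHom h2 (ZMod 2) i = 0 ∧ IsConj t (τ (sr 0))) ∨
      (ZMod.castHom h2 (ZMod 2) i = 1 ∧ IsConj t (τ (sr 1))) := by
  rcases zmod_two_cases (ZMod.castHom h2 (ZMod 2) i) with h | h
  · left
    obtain ⟨x, hx⟩ := dih_sr_conj_even h2 i h
    refine ⟨h, isConj_iff.mpr ⟨τ x * g, ?_⟩⟩
    calc τ x * g * t * (τ x * g)⁻¹ = τ x * (g * t * g⁻¹) * (τ x)⁻¹ := by group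
      _ = τ (x * sr i * x⁻¹) := by rw [← hy, map_mul, map_mul, map_inv]
      _ = τ (sr 0) := by rw [hx]
  · right
    obtain ⟨x, hx⟩ := dih_sr_conj_odd h2 i h
    refine ⟨h, isConj_iff.mpr ⟨τ x * g, ?_⟩⟩
    calc τ x * g * t * (τ x * g)⁻¹ = τ x * (g * t * g⁻¹) * (τ x)⁻¹ := by group
      _ = τ (x * sr i * x⁻¹) := by rw [← hy, map_mul, map_mul, map_inv]
      _ = τ (sr 1) := by rw [hx]

/-- Every involution of a group with dihedral Sylow `2`-subgroup `τ(D_m)` is conjugate to the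
central involution or to one of the two standard reflections. -/
theorem dih_sylow_invol_conj [Finite G] (P : Sylow 2 G) {m : ℕ} [NeZero m] (h2 : 2 ∣ m)
    (τ : DihedralGroup m →* G) (hτ : Function.Injective τ) (hP : τ.range = (P : Subgroup G))
    (t : G) (ht : orderOf t = 2) :
    IsConj t (τ (r ((m / 2 : ℕ) : ZMod m))) ∨ IsConj t (τ (sr 0)) ∨ IsConj t (τ (sr 1)) := by
  obtain ⟨g, hg⟩ := exists_conj_mem_sylow_two P ht
  rw [← hP] at hg
  obtain ⟨y, hy⟩ := hg
  have ht2 : t * t = 1 := by rw [← pow_two, ← ht]; exact pow_orderOf_eq_one t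
  have hy2 : y * y = 1 := by
    apply hτ
    rw [map_mul, hy, map_one]
    calc g * t * g⁻¹ * (g * t * g⁻¹) = g * (t * t) * g⁻¹ := by group
      _ = 1 := by rw [ht2]; group
  have hy1 : y ≠ 1 := by
    rintro rfl
    rw [map_one] at hy
    have h1 : t = 1 := by
      have h0 : t = g⁻¹ * (g * t * g⁻¹) * g := by group
      rw [h0, ← hy]; group
    rw [h1, orderOf_one] at ht
    omega
  rcases dih_invol_cases h2 y hy2 hy1 with rfl | ⟨i, rfl⟩
  · left; exact isConj_iff.mpr ⟨g, hy.symm⟩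
  · right
    rcases isConj_sr_of_conj h2 τ t g i hy with ⟨-, h⟩ | ⟨-, h⟩
    · left; exact h
    · right; exact h

/-- Thompson transfer for a dihedral Sylow `2`-subgroup. -/
theorem dih_sylow_transfer [Finite G] (P : Sylow 2 G) {m : ℕ} [NeZero m] (h2 : 2 ∣ m)
    (τ : DihedralGroup m →* G) (hτ : Function.Injective τ) (hP : τ.range = (P : Subgroup G))
    (c : DihedralGroup 2) (hc : c ≠ 1) (x₀ : DihedralGroup m) (hx₀ : x₀ * x₀ = 1)
    (hconj : ∀ y : DihedralGroup m, IsConj (τ x₀) (τ y) →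
      dihRed m h2 y ≠ 1 ∧ dihRed m h2 y ≠ c) :
    ∃ N : Subgroup G, N.Normal ∧ N.index = 2 ∧ τ x₀ ∉ N := by
  haveI : Fact (Nat.Prime 2) := ⟨Nat.prime_two⟩
  have hodd : Odd (P : Subgroup G).index := by
    have h0 := P.not_dvd_index
    exact Nat.not_even_iff_odd.mp (fun h => h0 (even_iff_two_dvd.mp h))
  have hrel : (dihMax h2 τ c).relIndex (P : Subgroup G) = 2 := by
    rw [← hP]; exact dihMax_relIndex h2 τ hτ c hc
  have hu : τ x₀ ^ 2 = 1 := by rw [pow_two, ← map_mul, hx₀, map_one]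
  apply thompson_transfer (P : Subgroup G) (dihMax h2 τ c) hrel hodd (τ x₀) hu
  intro g hg hgQ
  rw [← hP] at hg
  obtain ⟨y, hy⟩ := hg
  have h1 : IsConj (τ x₀) (τ y) := isConj_iff.mpr ⟨g⁻¹, by rw [hy, inv_inv]⟩
  obtain ⟨h3, h4⟩ := hconj y h1
  rw [← hy, mem_dihMax h2 τ hτ] at hgQ
  rcases hgQ with h | h
  · exact h3 h
  · exact h4 h

/-- If all involutions are conjugate, there is no subgroup of index two. -/
theorem dih_sylow_no_index_two [Finite G] (P : Sylow 2 G) {m : ℕ} [NeZero m]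
    (τ : DihedralGroup m →* G) (hP : τ.range = (P : Subgroup G))
    (hA : IsConj (τ (r ((m / 2 : ℕ) : ZMod m))) (τ (sr 0)))
    (hB : IsConj (τ (r ((m / 2 : ℕ) : ZMod m))) (τ (sr 1))) (N : Subgroup G) : N.index ≠ 2 := by
  intro hN
  haveI : Fact (Nat.Prime 2) := ⟨Nat.prime_two⟩
  have hNn : N.Normal := Subgroup.normal_of_index_eq_two hN
  have hconjN : ∀ a b : G, IsConj a b → a ∈ N → b ∈ N := by
    intro a b hab ha
    obtain ⟨g, rfl⟩ := isConj_iff.mp hab
    exact hNn.conj_mem a ha g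
  have hconjN' : ∀ a b : G, IsConj a b → b ∈ N → a ∈ N := fun a b hab hb =>
    hconjN b a hab.symm hb
  have hrot : τ (r 1) ∈ N → ∀ j : ZMod m, τ (r j) ∈ N := by
    intro h j
    have h1 : r j = (r 1 : DihedralGroup m) ^ j.val := by
      rw [r_one_pow, ZMod.natCast_zmod_val]
    rw [h1, map_pow]
    exact N.pow_mem h _
  have hz : τ (r ((m / 2 : ℕ) : ZMod m)) ∈ N := by
    by_cases h0 : τ (sr 0) ∈ N
    · exact hconjN' _ _ hA h0
    · by_cases h1 : τ (sr 1) ∈ N
      · exact hconjN' _ _ hB h1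
      · have h3 : τ (sr 0) * τ (sr 1) ∈ N :=
          (Subgroup.mul_mem_iff_of_index_two hN).mpr (iff_of_false h0 h1)
        rw [← map_mul, sr_mul_sr, sub_zero] at h3
        exact hrot h3 _
  have h0 : τ (sr 0) ∈ N := hconjN _ _ hA hz
  have h1 : τ (sr 1) ∈ N := hconjN _ _ hB hz
  have hr1 : τ (r 1) ∈ N := by
    have h3 : τ (sr 0) * τ (sr 1) ∈ N := N.mul_mem h0 h1
    rw [← map_mul, sr_mul_sr, sub_zero] at h3
    exact h3
  have hPN : (P : Subgroup G) ≤ N := by
    rw [← hP]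
    rintro _ ⟨y, rfl⟩
    rcases y with j | j
    · exact hrot hr1 j
    · have h3 : (sr j : DihedralGroup m) = sr 0 * r j := by rw [sr_mul_r, zero_add]
      rw [h3, map_mul]
      exact N.mul_mem h0 (hrot hr1 j)
  have h3 := Subgroup.index_dvd_of_le hPN
  rw [hN] at h3
  exact P.not_dvd_index h3

/-- If some fusion of involutions occurs, there is no normal subgroup of index four. -/
theorem dih_sylow_no_index_four [Finite G] (P : Sylow 2 G) {m : ℕ} [NeZero m] (h4 : 4 ∣ m)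
    (τ : DihedralGroup m →* G) (hτ : Function.Injective τ) (hP : τ.range = (P : Subgroup G))
    (h : IsConj (τ (r ((m / 2 : ℕ) : ZMod m))) (τ (sr 0)) ∨
      IsConj (τ (r ((m / 2 : ℕ) : ZMod m))) (τ (sr 1)) ∨ IsConj (τ (sr 0)) (τ (sr 1)))
    (N : Subgroup G) (hNn : N.Normal) : N.index ≠ 4 := by
  intro hN
  haveI : Fact (Nat.Prime 2) := ⟨Nat.prime_two⟩
  have h2 : 2 ∣ m := dvd_trans (by norm_num) h4
  have hcomm : ∀ a b : G, a * b * a⁻¹ * b⁻¹ ∈ N := by
    intro a b
    have hc := IsPGroup.commutative_of_card_eq_prime_sq (p := 2) (G := G ⧸ N)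
      (by rw [← Subgroup.index_eq_card, hN]; norm_num) (a : G ⧸ N) (b : G ⧸ N)
    rw [← QuotientGroup.eq_one_iff, QuotientGroup.mk_mul, QuotientGroup.mk_mul,
      QuotientGroup.mk_mul, QuotientGroup.mk_inv, QuotientGroup.mk_inv, hc]
    group
  have hsq : ∀ j : ZMod m, τ (r (j + j)) ∈ N := by
    intro j
    have h0 := hcomm (τ (sr 0)) (τ (r (-j)))
    rw [← map_inv, ← map_inv, ← map_mul, ← map_mul, ← map_mul] at h0
    have e : (sr 0 : DihedralGroup m) * r (-j) * (sr 0)⁻¹ * (r (-j))⁻¹ = r (j + j) := by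
      rw [inv_sr, inv_r, sr_mul_r, sr_mul_sr, r_mul_r]
      congr 1
      ring
    rw [e] at h0
    exact h0
  have hrelP : N.relIndex (P : Subgroup G) = 4 := by
    have hsup : (P : Subgroup G) ⊔ N = ⊤ := by
      rw [← Subgroup.index_eq_one]
      have h1 : ((P : Subgroup G) ⊔ N).index ∣ (P : Subgroup G).index :=
        Subgroup.index_dvd_of_le le_sup_left
      have h5 : ((P : Subgroup G) ⊔ N).index ∣ 2 ^ 2 := by
        have := Subgroup.index_dvd_of_le (le_sup_right : N ≤ (P : Subgroup G) ⊔ N)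
        rw [hN] at this
        exact this
      have h3 : ¬ 2 ∣ (P : Subgroup G).index := P.not_dvd_index
      obtain ⟨k, hk, hk'⟩ := (Nat.dvd_prime_pow Nat.prime_two).mp h5
      rcases k with _ | k
      · simpa using hk'
      · exfalso
        apply h3
        refine dvd_trans ?_ h1
        rw [hk']
        exact dvd_pow_self 2 (by omega)
    rw [← Subgroup.relIndex_sup_right, hsup, Subgroup.relIndex_top_right, hN]
  have hfin : ∀ c : DihedralGroup 2, c ≠ 1 → dihMax h2 τ c ≤ N → False := by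
    intro c hc hle
    have h1 := Subgroup.relIndex_dvd_of_le_left (P : Subgroup G) hle
    have hrel := dihMax_relIndex h2 τ hτ c hc
    rw [hP] at hrel
    rw [hrelP, hrel] at h1
    omega
  have hzN : τ (r ((m / 2 : ℕ) : ZMod m)) ∈ N := by
    obtain ⟨q, hq⟩ := h4
    have h1 : ((m / 2 : ℕ) : ZMod m) = (q : ZMod m) + (q : ZMod m) := by
      have h3 : m / 2 = q + q := by omega
      rw [h3]; push_cast; rfl
    rw [h1]
    exact hsq _
  have hconjN : ∀ a b : G, IsConj a b → a ∈ N → b ∈ N := by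
    intro a b hab ha
    obtain ⟨g, rfl⟩ := isConj_iff.mp hab
    exact hNn.conj_mem a ha g
  have heven : ∀ j : ZMod m, ZMod.castHom h2 (ZMod 2) j = 0 → τ (r j) ∈ N := by
    intro j hj
    obtain ⟨k, rfl⟩ := zmod_even_decomp m h2 j hj
    exact hsq k
  rcases h with hA | hB | hC
  · apply hfin (sr 0) (sr_ne_one' 0)
    have h0 : τ (sr 0) ∈ N := hconjN _ _ hA hzN
    rintro _ ⟨y, hy, rfl⟩
    have hy' := (mem_zpowers_of_mul_self _ (dih2_mul_self _) _).mp (Subgroup.mem_comap.mp hy)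
    rcases y with j | i
    · rw [dihRed_r] at hy'
      rcases hy' with h | h
      · exact heven j (r.inj (h.trans one_def))
      · exact absurd h.symm (sr_ne_r' _ _)
    · rw [dihRed_sr] at hy'
      rcases hy' with h | h
      · exact absurd h (sr_ne_one' _)
      · have hi : ZMod.castHom h2 (ZMod 2) i = 0 := sr.inj h
        obtain ⟨k, rfl⟩ := zmod_even_decomp m h2 i hi
        have h3 : (sr (k + k) : DihedralGroup m) = sr 0 * r (k + k) := by
          rw [sr_mul_r, zero_add]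
        rw [h3, map_mul]
        exact N.mul_mem h0 (hsq k)
  · apply hfin (sr 1) (sr_ne_one' 1)
    have h0 : τ (sr 1) ∈ N := hconjN _ _ hB hzN
    rintro _ ⟨y, hy, rfl⟩
    have hy' := (mem_zpowers_of_mul_self _ (dih2_mul_self _) _).mp (Subgroup.mem_comap.mp hy)
    rcases y with j | i
    · rw [dihRed_r] at hy'
      rcases hy' with h | h
      · exact heven j (r.inj (h.trans one_def))
      · exact absurd h.symm (sr_ne_r' _ _)
    · rw [dihRed_sr] at hy'
      rcases hy' with h | h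
      · exact absurd h (sr_ne_one' _)
      · have hi : ZMod.castHom h2 (ZMod 2) i = 1 := sr.inj h
        obtain ⟨k, rfl⟩ := zmod_odd_decomp m h2 i hi
        have h3 : (sr (1 + k + k) : DihedralGroup m) = sr 1 * r (k + k) := by
          rw [sr_mul_r, add_assoc]
        rw [h3, map_mul]
        exact N.mul_mem h0 (hsq k)
  · apply hfin (r 1) dih2_r_one_ne
    have hr1 : τ (r 1) ∈ N := by
      obtain ⟨g, hg⟩ := isConj_iff.mp hC
      have h0 := hcomm g (τ (sr 0))
      rw [hg, ← map_inv, ← map_mul, inv_sr, sr_mul_sr] at h0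
      have h1 := N.inv_mem h0
      rw [← map_inv, inv_r] at h1
      have e : (-(0 - 1) : ZMod m) = 1 := by ring
      rw [e] at h1
      exact h1
    have hrot : ∀ j : ZMod m, τ (r j) ∈ N := by
      intro j
      have h1 : r j = (r 1 : DihedralGroup m) ^ j.val := by
        rw [r_one_pow, ZMod.natCast_zmod_val]
      rw [h1, map_pow]
      exact N.pow_mem hr1 _
    rintro _ ⟨y, hy, rfl⟩
    have hy' := (mem_zpowers_of_mul_self _ (dih2_mul_self _) _).mp (Subgroup.mem_comap.mp hy)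
    rcases y with j | i
    · exact hrot j
    · rw [dihRed_sr] at hy'
      rcases hy' with h | h
      · exact absurd h (sr_ne_one' _)
      · exact absurd h (sr_ne_r' _ _)

/-- If the central involution is fused to no reflection, there is a normal `2`-complement. -/
theorem dih_sylow_npc [Finite G] (P : Sylow 2 G) {m : ℕ} [NeZero m] (h2 : 2 ∣ m)
    (τ : DihedralGroup m →* G) (hτ : Function.Injective τ) (hP : τ.range = (P : Subgroup G))
    (hA : ¬ IsConj (τ (r ((m / 2 : ℕ) : ZMod m))) (τ (sr 0)))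
    (hB : ¬ IsConj (τ (r ((m / 2 : ℕ) : ZMod m))) (τ (sr 1))) :
    Cfsg.HasNormalPComplement 2 G := by
  haveI : Fact (Nat.Prime 2) := ⟨Nat.prime_two⟩
  apply hasNormalPComplement_of_frobCond
  apply frobCond_of_sylow P
  intro Q hQP g hg hodd
  have hQ2 : IsPGroup 2 Q := P.isPGroup'.to_le hQP
  have hQr : Q ≤ τ.range := by rw [hP]; exact hQP
  rcases dihedral_odd_normalizer Q hQ2 m
    ((MonoidHom.ofInjective hτ).symm.toMonoidHom.comp (Subgroup.inclusion hQr))
    ((MonoidHom.ofInjective hτ).symm.injective.comp (Subgroup.inclusion_injective hQr))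
    g hg hodd with h | hK
  · exact h
  · by_contra hnc
    have hnofix : ∀ t ∈ Q, t ≠ 1 → g * t * g⁻¹ ≠ t := by
      intro t htQ ht1 hfix
      exact hnc (kleinFour_centralize Q hK g hg hodd t htQ ht1 hfix)
    obtain ⟨a, b, haQ, hbQ, ha1, hb1, hab, ha2, hb2, hcomm, hall⟩ := kleinFour_elems Q hK
    have hpre : ∀ t ∈ Q, ∃ y : DihedralGroup m, τ y = t := fun t ht => hQr ht
    have hinv : ∀ (t : G) (y : DihedralGroup m), τ y = t → t * t = 1 → t ≠ 1 →
        y = r ((m / 2 : ℕ) : ZMod m) ∨ ∃ i, y = sr i := by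
      intro t y hy ht2 ht1
      apply dih_invol_cases h2 y
      · apply hτ
        rw [map_mul, hy, ht2, map_one]
      · rintro rfl
        rw [map_one] at hy
        exact ht1 hy.symm
    have hzQ : τ (r ((m / 2 : ℕ) : ZMod m)) ∈ Q := by
      obtain ⟨ya, hya⟩ := hpre a haQ
      obtain ⟨yb, hyb⟩ := hpre b hbQ
      rcases hinv a ya hya ha2 ha1 with rfl | ⟨i, rfl⟩
      · rw [hya]; exact haQ
      · rcases hinv b yb hyb hb2 hb1 with rfl | ⟨j, rfl⟩
        · rw [hyb]; exact hbQ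
        · have habQ : a * b ∈ Q := Q.mul_mem haQ hbQ
          have hab2 : (a * b) * (a * b) = 1 := by
            calc a * b * (a * b) = a * (b * a) * b := by group
              _ = a * (a * b) * b := by rw [hcomm]
              _ = (a * a) * (b * b) := by group
              _ = 1 := by rw [ha2, hb2, one_mul]
          have hab1 : a * b ≠ 1 := by
            intro h
            apply hab
            have h0 : a = a * b * b := by rw [mul_assoc, hb2, mul_one]
            rw [h0, h, one_mul]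
          have hyab : τ (sr i * sr j) = a * b := by rw [map_mul, hya, hyb]
          rcases hinv (a * b) _ hyab hab2 hab1 with h | ⟨k, h⟩
          · rw [← h, hyab]; exact habQ
          · rw [sr_mul_sr] at h
            exact absurd h.symm (sr_ne_r' _ _)
    have hz1 : τ (r ((m / 2 : ℕ) : ZMod m)) ≠ 1 := by
      intro h
      have h0 := hτ (h.trans (map_one τ).symm)
      exact (zmod_half m h2).2 (r.inj (h0.trans one_def))
    have hz2 : τ (r ((m / 2 : ℕ) : ZMod m)) * τ (r ((m / 2 : ℕ) : ZMod m)) = 1 := by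
      rw [← map_mul, r_mul_r, (zmod_half m h2).1, r_zero, map_one]
    have hgz := hnofix _ hzQ hz1
    have hgzQ : g * τ (r ((m / 2 : ℕ) : ZMod m)) * g⁻¹ ∈ Q :=
      (Subgroup.mem_normalizer_iff.mp hg _).mp hzQ
    obtain ⟨y, hy⟩ := hpre _ hgzQ
    have hy2 : y * y = 1 := by
      apply hτ
      rw [map_mul, hy, map_one]
      calc g * τ (r ((m / 2 : ℕ) : ZMod m)) * g⁻¹ * (g * τ (r ((m / 2 : ℕ) : ZMod m)) * g⁻¹)
          = g * (τ (r ((m / 2 : ℕ) : ZMod m)) * τ (r ((m / 2 : ℕ) : ZMod m))) * g⁻¹ := by group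
        _ = 1 := by rw [hz2]; group
    have hy1 : y ≠ 1 := by
      rintro rfl
      rw [map_one] at hy
      apply hz1
      have h0 : τ (r ((m / 2 : ℕ) : ZMod m))
          = g⁻¹ * (g * τ (r ((m / 2 : ℕ) : ZMod m)) * g⁻¹) * g := by group
      rw [h0, ← hy]
      group
    rcases dih_invol_cases h2 y hy2 hy1 with rfl | ⟨i, rfl⟩
    · exact hgz hy.symm
    · rcases isConj_sr_of_conj h2 τ _ g i hy with ⟨-, h⟩ | ⟨-, h⟩
      · exact hA h
      · exact hB h

/-- Conjugates (inside `τ(D_m)`) of an involution `τ x₀`. -/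
theorem dih_conj_invol {m : ℕ} [NeZero m] (h2 : 2 ∣ m) (τ : DihedralGroup m →* G)
    (hτ : Function.Injective τ) (x₀ y : DihedralGroup m) (hx₀ : x₀ * x₀ = 1) (hx₀1 : x₀ ≠ 1)
    (hy : IsConj (τ x₀) (τ y)) :
    (y = r ((m / 2 : ℕ) : ZMod m) ∧ IsConj (τ x₀) (τ (r ((m / 2 : ℕ) : ZMod m)))) ∨
      ∃ i, y = sr i ∧ ((ZMod.castHom h2 (ZMod 2) i = 0 ∧ IsConj (τ x₀) (τ (sr 0))) ∨
        (ZMod.castHom h2 (ZMod 2) i = 1 ∧ IsConj (τ x₀) (τ (sr 1)))) := by
  obtain ⟨g, hg⟩ := isConj_iff.mp hy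
  have hx2 : τ x₀ * τ x₀ = 1 := by rw [← map_mul, hx₀, map_one]
  have hy2 : y * y = 1 := by
    apply hτ
    rw [map_mul, ← hg, map_one]
    calc g * τ x₀ * g⁻¹ * (g * τ x₀ * g⁻¹) = g * (τ x₀ * τ x₀) * g⁻¹ := by group
      _ = 1 := by rw [hx2]; group
  have hy1 : y ≠ 1 := by
    rintro rfl
    rw [map_one] at hg
    apply hx₀1
    apply hτ
    rw [map_one]
    have h0 : τ x₀ = g⁻¹ * (g * τ x₀ * g⁻¹) * g := by group
    rw [h0, hg]
    group
  rcases dih_invol_cases h2 y hy2 hy1 with rfl | ⟨i, rfl⟩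
  · left; exact ⟨rfl, hy⟩
  · right
    exact ⟨i, rfl, isConj_sr_of_conj h2 τ (τ x₀) g i hg.symm⟩

theorem dih_orderOf_half {m : ℕ} [NeZero m] (h2 : 2 ∣ m) (τ : DihedralGroup m →* G)
    (hτ : Function.Injective τ) : orderOf (τ (r ((m / 2 : ℕ) : ZMod m))) = 2 := by
  rw [orderOf_injective τ hτ]
  apply orderOf_eq_prime
  · rw [pow_two, r_mul_r, (zmod_half m h2).1, r_zero]
  · intro h
    exact (zmod_half m h2).2 (r.inj (h.trans one_def))

theorem dih_orderOf_sr {m : ℕ} (τ : DihedralGroup m →* G)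
    (hτ : Function.Injective τ) (i : ZMod m) : orderOf (τ (sr i)) = 2 := by
  rw [orderOf_injective τ hτ, orderOf_sr]

/-- A Sylow subgroup isomorphic to `D_m` is the range of an injective homomorphism. -/
theorem exists_dih_hom {p : ℕ} (P : Sylow p G) {m : ℕ} (e : (P : Subgroup G) ≃* DihedralGroup m) :
    ∃ τ : DihedralGroup m →* G, Function.Injective τ ∧ τ.range = (P : Subgroup G) := by
  refine ⟨(P : Subgroup G).subtype.comp e.symm.toMonoidHom, ?_, ?_⟩
  · exact (Subgroup.subtype_injective _).comp e.symm.injective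
  · rw [MonoidHom.range_comp]
    have h1 : e.symm.toMonoidHom.range = ⊤ := MonoidHom.range_eq_top.mpr e.symm.surjective
    rw [h1, ← MonoidHom.range_eq_map, Subgroup.range_subtype]

end Cfsg.Agent.Helper6
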