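import Mathlib

set_option autoImplicit false

namespace Cfsg.Agent.Helper6.Isaacs

/-- Isaacs: for an abelian normal subgroup `K`, `k ∈ K` and any `x`, a nontrivial commutator
`y = k x k⁻¹ x⁻¹` has a strictly larger centralizer than `x`. -/
theorem card_lt {G : Type*} [Group G] [Finite G] (K : Subgroup G) [hKn : K.Normal]
    (hK : ∀ a ∈ K, ∀ b ∈ K, a * b = b * a) (x k : G) (hk : k ∈ K)
    (hy : k * x * k⁻¹ * x⁻¹ ≠ 1) :
    Nat.card (Subgroup.centralizer ({x} : Set G))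
      < Nat.card (Subgroup.centralizer ({k * x * k⁻¹ * x⁻¹} : Set G)) := by
  classical
  haveI : Fintype G := Fintype.ofFinite G
  obtain ⟨y, hydef⟩ : ∃ y : G, y = k * x * k⁻¹ * x⁻¹ := ⟨_, rfl⟩
  rw [← hydef] at hy ⊢
  have hθK : ∀ l ∈ K, l * x * l⁻¹ * x⁻¹ ∈ K := by
    intro l hl
    have h1 : x * l⁻¹ * x⁻¹ ∈ K := hKn.conj_mem _ (K.inv_mem hl) x
    have e : l * x * l⁻¹ * x⁻¹ = l * (x * l⁻¹ * x⁻¹) := by group
    rw [e]; exact K.mul_mem hl h1
  have hyK : y ∈ K := by rw [hydef]; exact hθK k hk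
  have hcard : ∀ w : G, Nat.card (Subgroup.centralizer ({w} : Set G))
      = (Finset.univ.filter (fun g : G => g * w = w * g)).card := by
    intro w
    rw [Nat.card_eq_fintype_card, Fintype.card_subtype]
    congr 1
    ext g
    simp only [Finset.mem_filter, Finset.mem_univ, true_and]
    exact Subgroup.mem_centralizer_singleton_iff
  rw [hcard x, hcard y]
  obtain ⟨Cx, hCx⟩ : ∃ Cx : Finset G, Cx = Finset.univ.filter (fun g : G => g * x = x * g) := ⟨_, rfl⟩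
  obtain ⟨Cy, hCy⟩ : ∃ Cy : Finset G, Cy = Finset.univ.filter (fun g : G => g * y = y * g) := ⟨_, rfl⟩
  obtain ⟨D, hD⟩ : ∃ D : Finset G,
      D = Finset.univ.filter (fun g : G => g * x = x * g ∧ g * y = y * g) := ⟨_, rfl⟩
  obtain ⟨S1, hS1⟩ : ∃ S1 : Finset G, S1 = Cx.image (fun g => g * y * g⁻¹) := ⟨_, rfl⟩
  rw [← hCx, ← hCy]
  have hCxmem : ∀ g, g ∈ Cx ↔ g * x = x * g := by intro g; rw [hCx]; simp
  have hCymem : ∀ g, g ∈ Cy ↔ g * y = y * g := by intro g; rw [hCy]; simp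
  have hDmem : ∀ g, g ∈ D ↔ (g * x = x * g ∧ g * y = y * g) := by intro g; rw [hD]; simp
  have hα : Cx.card ≤ D.card * S1.card := by
    rw [hS1]
    apply Finset.card_le_mul_card_image
    intro b hb
    obtain ⟨g0, hg0, rfl⟩ := Finset.mem_image.1 hb
    have hg0x := (hCxmem g0).1 hg0
    apply Finset.card_le_card_of_injOn (fun g' => g0⁻¹ * g')
    · intro g' hg'
      have hg'2 := Finset.mem_filter.1 (Finset.mem_coe.1 hg')
      have hg'x := (hCxmem g').1 hg'2.1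
      have hg'y := hg'2.2
      apply Finset.mem_coe.2
      rw [hDmem]
      constructor
      · exact ((Commute.inv_left (show Commute g0 x from hg0x)).mul_left
          (show Commute g' x from hg'x)).eq
      · have e : g' * y = g0 * y * g0⁻¹ * g' := by rw [← hg'y, inv_mul_cancel_right]
        calc g0⁻¹ * g' * y = g0⁻¹ * (g' * y) := by group
          _ = g0⁻¹ * (g0 * y * g0⁻¹ * g') := by rw [e]
          _ = y * (g0⁻¹ * g') := by group
    · intro a _ b _ hab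
      exact mul_left_cancel hab
  have h1S : (1 : G) ∉ S1 := by
    intro h
    rw [hS1] at h
    obtain ⟨g, _, hg⟩ := Finset.mem_image.1 h
    apply hy
    have e : y = g⁻¹ * (g * y * g⁻¹) * g := by group
    rw [e, hg]; group
  have hex : ∀ b ∈ insert 1 S1, ∃ l ∈ K, l * x * l⁻¹ * x⁻¹ = b := by
    intro b hb
    rcases Finset.mem_insert.1 hb with rfl | hb
    · exact ⟨1, K.one_mem, by group⟩
    · rw [hS1] at hb
      obtain ⟨g, hg, rfl⟩ := Finset.mem_image.1 hb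
      have hgx : g * x = x * g := (hCxmem g).1 hg
      refine ⟨g * k * g⁻¹, hKn.conj_mem _ hk g, ?_⟩
      rw [hydef]
      have e1 : g⁻¹ * x = x * g⁻¹ := ((show Commute g x from hgx).inv_left).eq
      calc g * k * g⁻¹ * x * (g * k * g⁻¹)⁻¹ * x⁻¹
          = g * k * (g⁻¹ * x) * (g * k⁻¹ * g⁻¹ * x⁻¹) := by group
        _ = g * k * (x * g⁻¹) * (g * k⁻¹ * g⁻¹ * x⁻¹) := by rw [e1]
        _ = g * k * x * k⁻¹ * (g⁻¹ * x⁻¹) := by group
        _ = g * k * x * k⁻¹ * (x⁻¹ * g⁻¹) := by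
            rw [show g⁻¹ * x⁻¹ = x⁻¹ * g⁻¹ from by rw [← mul_inv_rev, ← mul_inv_rev, hgx]]
        _ = g * (k * x * k⁻¹ * x⁻¹) * g⁻¹ := by group
  choose! lam hlamK hlam using hex
  have hβ : D.card * (S1.card + 1) ≤ Cy.card := by
    rw [← Finset.card_insert_of_notMem h1S, ← Finset.card_product]
    apply Finset.card_le_card_of_injOn (fun q : G × G => q.1 * lam q.2)
    · intro q hq
      obtain ⟨hq1, hq2⟩ := Finset.mem_product.1 (Finset.mem_coe.1 hq)
      have hd := (hDmem _).1 hq1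
      apply Finset.mem_coe.2
      rw [hCymem]
      have h2 : lam q.2 * y = y * lam q.2 := hK _ (hlamK _ hq2) _ hyK
      show q.1 * lam q.2 * y = y * (q.1 * lam q.2)
      rw [mul_assoc, h2, ← mul_assoc, hd.2, mul_assoc]
    · intro q hq q' hq' hqq
      obtain ⟨hq1, hq2⟩ := Finset.mem_product.1 (Finset.mem_coe.1 hq)
      obtain ⟨hq1', hq2'⟩ := Finset.mem_product.1 (Finset.mem_coe.1 hq')
      have hd := (hDmem _).1 hq1
      have hd' := (hDmem _).1 hq1'
      have hqq' : q.1 * lam q.2 = q'.1 * lam q'.2 := hqq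
      have hc : q'.1⁻¹ * q.1 = lam q'.2 * (lam q.2)⁻¹ := by
        rw [eq_mul_inv_iff_mul_eq, mul_assoc, hqq', inv_mul_cancel_left]
      have hbK : q.2 ∈ K := by rw [← hlam _ hq2]; exact hθK _ (hlamK _ hq2)
      have h2 : q'.2 = q.2 := by
        obtain ⟨c, hcdef⟩ : ∃ c : G, c = q'.1⁻¹ * q.1 := ⟨_, rfl⟩
        rw [← hcdef] at hc
        have hcK : c ∈ K := by
          rw [hc]; exact K.mul_mem (hlamK _ hq2') (K.inv_mem (hlamK _ hq2))
        have hcx : Commute c x := by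
          rw [hcdef]
          exact (Commute.inv_left (show Commute q'.1 x from hd'.1)).mul_left
            (show Commute q.1 x from hd.1)
        have hl' : lam q'.2 = c * lam q.2 := by rw [hc, inv_mul_cancel_right]
        rw [← hlam _ hq2', hl']
        calc c * lam q.2 * x * (c * lam q.2)⁻¹ * x⁻¹
            = c * (lam q.2 * x * (lam q.2)⁻¹) * (c⁻¹ * x⁻¹) := by group
          _ = c * (lam q.2 * x * (lam q.2)⁻¹) * (x⁻¹ * c⁻¹) := by
              rw [show c⁻¹ * x⁻¹ = x⁻¹ * c⁻¹ from by rw [← mul_inv_rev, ← mul_inv_rev, hcx.eq]]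
          _ = c * (lam q.2 * x * (lam q.2)⁻¹ * x⁻¹) * c⁻¹ := by group
          _ = c * q.2 * c⁻¹ := by rw [hlam _ hq2]
          _ = q.2 := by rw [hK c hcK q.2 hbK, mul_inv_cancel_right]
      have h3 : q.1 = q'.1 := by
        rw [h2] at hqq'
        exact mul_right_cancel hqq'
      exact Prod.ext h3 h2.symm
  have hDpos : 0 < D.card := Finset.card_pos.2 ⟨1, by rw [hDmem]; simp⟩
  calc Cx.card ≤ D.card * S1.card := hα
    _ < D.card * (S1.card + 1) := by nlinarith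
    _ ≤ Cy.card := hβ

theorem index_lt {G : Type*} [Group G] [Finite G] (K : Subgroup G) [hKn : K.Normal]
    (hK : ∀ a ∈ K, ∀ b ∈ K, a * b = b * a) (x k : G) (hk : k ∈ K)
    (hy : k * x * k⁻¹ * x⁻¹ ≠ 1) :
    (Subgroup.centralizer ({k * x * k⁻¹ * x⁻¹} : Set G)).index
      < (Subgroup.centralizer ({x} : Set G)).index := by
  have h := card_lt K hK x k hk hy
  have h1 := Subgroup.index_mul_card (Subgroup.centralizer ({x} : Set G))
  have h2 := Subgroup.index_mul_card (Subgroup.centralizer ({k * x * k⁻¹ * x⁻¹} : Set G))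
  by_contra hcon
  push Not at hcon
  have hpos : 0 < (Subgroup.centralizer ({x} : Set G)).index :=
    Nat.pos_of_ne_zero Subgroup.index_ne_zero_of_finite
  have h3 := Nat.mul_lt_mul_of_le_of_lt hcon h (lt_of_lt_of_le hpos hcon)
  rw [h1, h2] at h3
  exact lt_irrefl _ h3

/-- If every element of `M` has central commutators with a self-centralizing subgroup `A`,
then triple commutators of `M` are central. -/
theorem core {G : Type*} [Group G] (A : Subgroup G)
    (hCA : ∀ g : G, (∀ a ∈ A, g * a = a * g) → g ∈ A) (M : Subgroup G)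
    (hM : ∀ g ∈ M, ∀ a ∈ A, a * g * a⁻¹ * g⁻¹ ∈ Subgroup.center G) :
    ∀ g ∈ M, ∀ h ∈ M, ∀ k ∈ M,
      (g * h * g⁻¹ * h⁻¹) * k * (g * h * g⁻¹ * h⁻¹)⁻¹ * k⁻¹ ∈ Subgroup.center G := by
  intro g hg h hh k hk
  have hcA : g * h * g⁻¹ * h⁻¹ ∈ A := by
    apply hCA
    intro a ha
    obtain ⟨z1, hz1⟩ : ∃ z1 : G, z1 = a * g * a⁻¹ * g⁻¹ := ⟨_, rfl⟩
    obtain ⟨z2, hz2⟩ : ∃ z2 : G, z2 = a * h * a⁻¹ * h⁻¹ := ⟨_, rfl⟩
    have c1 : ∀ w : G, w * z1 = z1 * w := by
      rw [hz1]; exact fun w => (Subgroup.mem_center_iff.1 (hM g hg a ha)) w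
    have c2 : ∀ w : G, w * z2 = z2 * w := by
      rw [hz2]; exact fun w => (Subgroup.mem_center_iff.1 (hM h hh a ha)) w
    have e1 : a * g * a⁻¹ = z1 * g := by rw [hz1]; group
    have e2 : a * h * a⁻¹ = z2 * h := by rw [hz2]; group
    have e3 : a * (g * h * g⁻¹ * h⁻¹) * a⁻¹
        = (a * g * a⁻¹) * (a * h * a⁻¹) * (a * g * a⁻¹)⁻¹ * (a * h * a⁻¹)⁻¹ := by group
    have e4 : z1 * g * (z2 * h) * (z1 * g)⁻¹ * (z2 * h)⁻¹ = g * h * g⁻¹ * h⁻¹ := by
      have e5 : g * (z2 * h) = z2 * (g * h) := by rw [← mul_assoc, c2 g, mul_assoc]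
      calc z1 * g * (z2 * h) * (z1 * g)⁻¹ * (z2 * h)⁻¹
          = z1 * (g * (z2 * h) * g⁻¹) * z1⁻¹ * (z2 * h)⁻¹ := by group
        _ = g * (z2 * h) * g⁻¹ * (z2 * h)⁻¹ := by rw [← c1, mul_inv_cancel_right]
        _ = z2 * (g * h * g⁻¹ * h⁻¹) * z2⁻¹ := by rw [e5]; group
        _ = g * h * g⁻¹ * h⁻¹ := by rw [← c2, mul_inv_cancel_right]
    rw [e1, e2, e4] at e3
    exact (mul_inv_eq_iff_eq_mul.1 e3).symm
  exact hM k hk _ hcA

end Cfsg.Agent.Helper6.Isaacs
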