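import Mathlib
import Cfsg.Agent.Helper6.Aff2

set_option autoImplicit false

namespace Cfsg.Agent.Helper6

open Matrix

/-! ### 2×2 matrices of determinant one: powers from the trace -/

theorem m2c2_pow3 {F : Type*} [Field F] [CharP F 2] (a b c d : F) (h : a * d - b * c = 1)
    (ht : a + d = 1) : (!![a, b; c, d] : Matrix (Fin 2) (Fin 2) F) ^ 3 = 1 := by
  have h2 : (2 : F) = 0 := CharTwo.two_eq_zero
  ext i j
  fin_cases i <;> fin_cases j <;>
    simp [pow_succ, Matrix.mul_apply, Fin.sum_univ_two] <;> grind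

theorem m2c2_pow7 {F : Type*} [Field F] [CharP F 2] (a b c d : F) (h : a * d - b * c = 1)
    (ht : (a + d) ^ 3 + (a + d) ^ 2 + 1 = 0) :
    (!![a, b; c, d] : Matrix (Fin 2) (Fin 2) F) ^ 7 = 1 := by
  have h2 : (2 : F) = 0 := CharTwo.two_eq_zero
  ext i j
  fin_cases i <;> fin_cases j <;>
    simp [pow_succ, Matrix.mul_apply, Fin.sum_univ_two] <;> grind

theorem m2c2_pow9 {F : Type*} [Field F] [CharP F 2] (a b c d : F) (h : a * d - b * c = 1)
    (ht : (a + d) ^ 3 + (a + d) + 1 = 0) :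
    (!![a, b; c, d] : Matrix (Fin 2) (Fin 2) F) ^ 9 = 1 := by
  have h2 : (2 : F) = 0 := CharTwo.two_eq_zero
  ext i j
  fin_cases i <;> fin_cases j <;>
    simp [pow_succ, Matrix.mul_apply, Fin.sum_univ_two] <;> grind

theorem m2c7_t0 {F : Type*} [Field F] (a b c d : F) (h : a * d - b * c = 1)
    (ht : a + d = 0) : (!![a, b; c, d] : Matrix (Fin 2) (Fin 2) F) ^ 2 = -1 := by
  ext i j
  fin_cases i <;> fin_cases j <;>
    simp [pow_succ, Matrix.mul_apply, Fin.sum_univ_two] <;> grind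

theorem m2c7_t1 {F : Type*} [Field F] (a b c d : F) (h : a * d - b * c = 1)
    (ht : a + d = 1) : (!![a, b; c, d] : Matrix (Fin 2) (Fin 2) F) ^ 3 = -1 := by
  ext i j
  fin_cases i <;> fin_cases j <;>
    simp [pow_succ, Matrix.mul_apply, Fin.sum_univ_two] <;> grind

theorem m2c7_tm1 {F : Type*} [Field F] (a b c d : F) (h : a * d - b * c = 1)
    (ht : a + d = -1) : (!![a, b; c, d] : Matrix (Fin 2) (Fin 2) F) ^ 3 = 1 := by
  ext i j
  fin_cases i <;> fin_cases j <;>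
    simp [pow_succ, Matrix.mul_apply, Fin.sum_univ_two] <;> grind

theorem m2c7_t2 {F : Type*} [Field F] (h7 : (7 : F) = 0) (a b c d : F) (h : a * d - b * c = 1)
    (ht : a + d = 2) : (!![a, b; c, d] : Matrix (Fin 2) (Fin 2) F) ^ 7 = 1 := by
  ext i j
  fin_cases i <;> fin_cases j <;>
    simp [pow_succ, Matrix.mul_apply, Fin.sum_univ_two] <;> grind

theorem m2c7_tm2 {F : Type*} [Field F] (h7 : (7 : F) = 0) (a b c d : F) (h : a * d - b * c = 1)
    (ht : a + d = -2) : (!![a, b; c, d] : Matrix (Fin 2) (Fin 2) F) ^ 7 = -1 := by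
  ext i j
  fin_cases i <;> fin_cases j <;>
    simp [pow_succ, Matrix.mul_apply, Fin.sum_univ_two] <;> grind

theorem m2c7_t3 {F : Type*} [Field F] (h7 : (7 : F) = 0) (a b c d : F) (h : a * d - b * c = 1)
    (ht : a + d = 3) : (!![a, b; c, d] : Matrix (Fin 2) (Fin 2) F) ^ 4 = -1 := by
  ext i j
  fin_cases i <;> fin_cases j <;>
    simp [pow_succ, Matrix.mul_apply, Fin.sum_univ_two] <;> grind

theorem m2c7_tm3 {F : Type*} [Field F] (h7 : (7 : F) = 0) (a b c d : F) (h : a * d - b * c = 1)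
    (ht : a + d = -3) : (!![a, b; c, d] : Matrix (Fin 2) (Fin 2) F) ^ 4 = -1 := by
  ext i j
  fin_cases i <;> fin_cases j <;>
    simp [pow_succ, Matrix.mul_apply, Fin.sum_univ_two] <;> grind


/-- every element of a field with 8 elements -/
theorem f8_cases {F : Type*} [Field F] [Fintype F] (hF : Fintype.card F = 8) (t : F) :
    t = 0 ∨ t = 1 ∨ t ^ 3 + t + 1 = 0 ∨ t ^ 3 + t ^ 2 + 1 = 0 := by
  have h8 : (8 : F) = 0 := by
    have := Nat.cast_card_eq_zero F
    rw [hF] at this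
    exact_mod_cast this
  have h2 : (2 : F) = 0 := by
    have : (2 : F) ^ 3 = 0 := by rw [← h8]; norm_num
    exact pow_eq_zero_iff (by norm_num) |>.mp this
  have ht := FiniteField.pow_card t
  rw [hF] at ht
  have : t * (t - 1) * (t ^ 3 + t + 1) * (t ^ 3 + t ^ 2 + 1) = 0 := by grind
  rcases mul_eq_zero.mp this with h | h
  · rcases mul_eq_zero.mp h with h | h
    · rcases mul_eq_zero.mp h with h | h
      · exact Or.inl h
      · exact Or.inr (Or.inl (sub_eq_zero.mp h))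
    · exact Or.inr (Or.inr (Or.inl h))
  · exact Or.inr (Or.inr (Or.inr h))

theorem f8_two {F : Type*} [Field F] [Fintype F] (hF : Fintype.card F = 8) : (2 : F) = 0 := by
  have h8 : (8 : F) = 0 := by
    have := Nat.cast_card_eq_zero F
    rw [hF] at this
    exact_mod_cast this
  have : (2 : F) ^ 3 = 0 := by rw [← h8]; norm_num
  exact pow_eq_zero_iff (by norm_num) |>.mp this

theorem f8_exists_root {F : Type*} [Field F] [Fintype F] (hF : Fintype.card F = 8) :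
    ∃ t : F, t ^ 3 + t ^ 2 + 1 = 0 := by
  classical
  have h2 := f8_two hF
  have : ∃ s : F, s ≠ 0 ∧ s ≠ 1 := by
    by_contra hcon
    push Not at hcon
    have hsub : (Finset.univ : Finset F) ⊆ {0, 1} := by
      intro s _
      by_cases hs : s = 0
      · simp [hs]
      · simp [hcon s hs]
    have := Finset.card_le_card hsub
    rw [Finset.card_univ, hF] at this
    have h3 : ({0, 1} : Finset F).card ≤ 2 := Finset.card_insert_le _ _
    omega
  obtain ⟨s, hs0, hs1⟩ := this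
  rcases f8_cases hF s with h | h | h | h
  · exact absurd h hs0
  · exact absurd h hs1
  · exact ⟨s + 1, by grind⟩
  · exact ⟨s, h⟩

theorem f7_cases {F : Type*} [Field F] [Fintype F] (hF : Fintype.card F = 7) (t : F) :
    t = 0 ∨ t = 1 ∨ t = -1 ∨ t = 2 ∨ t = -2 ∨ t = 3 ∨ t = -3 := by
  have h7 : (7 : F) = 0 := by
    have := Nat.cast_card_eq_zero F
    rw [hF] at this
    exact_mod_cast this
  have ht := FiniteField.pow_card t
  rw [hF] at ht
  have : t * (t - 1) * (t + 1) * (t - 2) * (t + 2) * (t - 3) * (t + 3) = 0 := by grind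
  simp only [mul_eq_zero] at this
  rcases this with (((((h | h) | h) | h) | h) | h) | h
  · exact Or.inl h
  · exact Or.inr (Or.inl (sub_eq_zero.mp h))
  · exact Or.inr (Or.inr (Or.inl (eq_neg_of_add_eq_zero_left h)))
  · exact Or.inr (Or.inr (Or.inr (Or.inl (sub_eq_zero.mp h))))
  · exact Or.inr (Or.inr (Or.inr (Or.inr (Or.inl (eq_neg_of_add_eq_zero_left h)))))
  · exact Or.inr (Or.inr (Or.inr (Or.inr (Or.inr (Or.inl (sub_eq_zero.mp h))))))
  · exact Or.inr (Or.inr (Or.inr (Or.inr (Or.inr (Or.inr (eq_neg_of_add_eq_zero_left h))))))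

/-! ### group-level statements -/

theorem sl2_det_entries {F : Type*} [Field F] (A : Matrix.SpecialLinearGroup (Fin 2) F) :
    (A : Matrix (Fin 2) (Fin 2) F) 0 0 * (A : Matrix (Fin 2) (Fin 2) F) 1 1 -
      (A : Matrix (Fin 2) (Fin 2) F) 0 1 * (A : Matrix (Fin 2) (Fin 2) F) 1 0 = 1 := by
  have := A.det_coe
  rwa [Matrix.det_fin_two] at this

theorem sl2_pow_eq_one {F : Type*} [Field F] (A : Matrix.SpecialLinearGroup (Fin 2) F) (k : ℕ)
    (h : (A : Matrix (Fin 2) (Fin 2) F) ^ k = 1) : A ^ k = 1 := by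
  apply Subtype.ext
  rw [Matrix.SpecialLinearGroup.coe_pow, h]
  rfl

theorem psl2_mk_pow {F : Type*} [Field F] (A : Matrix.SpecialLinearGroup (Fin 2) F) (k : ℕ)
    (h : (A : Matrix (Fin 2) (Fin 2) F) ^ k = 1 ∨ (A : Matrix (Fin 2) (Fin 2) F) ^ k = -1) :
    (QuotientGroup.mk' (Subgroup.center (Matrix.SpecialLinearGroup (Fin 2) F)) A) ^ k = 1 := by
  rw [← map_pow, QuotientGroup.mk'_apply, QuotientGroup.eq_one_iff, Subgroup.mem_center_iff]
  intro C
  apply Subtype.ext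
  rw [Matrix.SpecialLinearGroup.coe_mul, Matrix.SpecialLinearGroup.coe_mul,
    Matrix.SpecialLinearGroup.coe_pow]
  rcases h with h | h <;> rw [h] <;> simp

theorem psl2_mk_ne_one {F : Type*} [Field F] (A : Matrix.SpecialLinearGroup (Fin 2) F)
    (h : (A : Matrix (Fin 2) (Fin 2) F) 0 1 ≠ 0) :
    (QuotientGroup.mk' (Subgroup.center (Matrix.SpecialLinearGroup (Fin 2) F)) A) ≠ 1 := by
  intro hA
  rw [QuotientGroup.mk'_apply, QuotientGroup.eq_one_iff,
    Matrix.SpecialLinearGroup.mem_center_iff] at hA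
  obtain ⟨r, -, hr⟩ := hA
  apply h
  rw [← hr]
  simp

theorem psl27_order {F : Type*} [Field F] [Fintype F] (hF : Fintype.card F = 7)
    (g : Matrix.ProjectiveSpecialLinearGroup (Fin 2) F) :
    orderOf g ∣ 2 ^ 2 ∨ orderOf g ∣ 3 ^ 2 ∨ orderOf g ∣ 7 ^ 1 := by
  have h7 : (7 : F) = 0 := by
    have := Nat.cast_card_eq_zero F
    rw [hF] at this
    exact_mod_cast this
  obtain ⟨A, rfl⟩ := QuotientGroup.mk'_surjective _ g
  have hdet := sl2_det_entries A
  have heta : (A : Matrix (Fin 2) (Fin 2) F) = !![(A : Matrix (Fin 2) (Fin 2) F) 0 0,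
      (A : Matrix (Fin 2) (Fin 2) F) 0 1; (A : Matrix (Fin 2) (Fin 2) F) 1 0,
      (A : Matrix (Fin 2) (Fin 2) F) 1 1] := Matrix.eta_fin_two _
  have key : ∀ k : ℕ, ((A : Matrix (Fin 2) (Fin 2) F) ^ k = 1 ∨
      (A : Matrix (Fin 2) (Fin 2) F) ^ k = -1) →
      orderOf (QuotientGroup.mk' (Subgroup.center (Matrix.SpecialLinearGroup (Fin 2) F)) A) ∣ k :=
    fun k hk => orderOf_dvd_of_pow_eq_one (psl2_mk_pow A k hk)
  rcases f7_cases hF ((A : Matrix (Fin 2) (Fin 2) F) 0 0 + (A : Matrix (Fin 2) (Fin 2) F) 1 1)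
    with h | h | h | h | h | h | h
  · left
    exact (key 2 (Or.inr (by rw [heta]; exact m2c7_t0 _ _ _ _ hdet h))).trans (by norm_num)
  · right; left
    exact (key 3 (Or.inr (by rw [heta]; exact m2c7_t1 _ _ _ _ hdet h))).trans (by norm_num)
  · right; left
    exact (key 3 (Or.inl (by rw [heta]; exact m2c7_tm1 _ _ _ _ hdet h))).trans (by norm_num)
  · right; right
    exact (key 7 (Or.inl (by rw [heta]; exact m2c7_t2 h7 _ _ _ _ hdet h))).trans (by norm_num)
  · right; right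
    exact (key 7 (Or.inr (by rw [heta]; exact m2c7_tm2 h7 _ _ _ _ hdet h))).trans (by norm_num)
  · left
    exact (key 4 (Or.inr (by rw [heta]; exact m2c7_t3 h7 _ _ _ _ hdet h))).trans (by norm_num)
  · left
    exact (key 4 (Or.inr (by rw [heta]; exact m2c7_tm3 h7 _ _ _ _ hdet h))).trans (by norm_num)

theorem psl27_exists {F : Type*} [Field F] [Fintype F] (hF : Fintype.card F = 7) :
    (∃ g : Matrix.ProjectiveSpecialLinearGroup (Fin 2) F, orderOf g = 2) ∧
    (∃ g : Matrix.ProjectiveSpecialLinearGroup (Fin 2) F, orderOf g = 3) ∧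
    (∃ g : Matrix.ProjectiveSpecialLinearGroup (Fin 2) F, orderOf g = 7) := by
  have h7 : (7 : F) = 0 := by
    have := Nat.cast_card_eq_zero F
    rw [hF] at this
    exact_mod_cast this
  refine ⟨?_, ?_, ?_⟩
  · have hdet : (!![0, 1; -1, 0] : Matrix (Fin 2) (Fin 2) F).det = 1 := by
      rw [Matrix.det_fin_two]; simp
    obtain ⟨A0, hA0⟩ : ∃ A0 : Matrix.SpecialLinearGroup (Fin 2) F,
        (A0 : Matrix (Fin 2) (Fin 2) F) = !![0, 1; -1, 0] := ⟨⟨_, hdet⟩, rfl⟩
    refine ⟨QuotientGroup.mk' _ A0, ?_⟩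
    have : Fact (Nat.Prime 2) := ⟨Nat.prime_two⟩
    apply orderOf_eq_prime
    · apply psl2_mk_pow
      right
      rw [hA0]
      exact m2c7_t0 _ _ _ _ (by ring) (by ring)
    · apply psl2_mk_ne_one
      rw [hA0]
      simp
  · have hdet : (!![0, 1; -1, -1] : Matrix (Fin 2) (Fin 2) F).det = 1 := by
      rw [Matrix.det_fin_two]; simp
    obtain ⟨A0, hA0⟩ : ∃ A0 : Matrix.SpecialLinearGroup (Fin 2) F,
        (A0 : Matrix (Fin 2) (Fin 2) F) = !![0, 1; -1, -1] := ⟨⟨_, hdet⟩, rfl⟩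
    refine ⟨QuotientGroup.mk' _ A0, ?_⟩
    have : Fact (Nat.Prime 3) := ⟨Nat.prime_three⟩
    apply orderOf_eq_prime
    · apply psl2_mk_pow
      left
      rw [hA0]
      exact m2c7_tm1 _ _ _ _ (by ring) (by ring)
    · apply psl2_mk_ne_one
      rw [hA0]
      simp
  · have hdet : (!![1, 1; 0, 1] : Matrix (Fin 2) (Fin 2) F).det = 1 := by
      rw [Matrix.det_fin_two]; simp
    obtain ⟨A0, hA0⟩ : ∃ A0 : Matrix.SpecialLinearGroup (Fin 2) F,
        (A0 : Matrix (Fin 2) (Fin 2) F) = !![1, 1; 0, 1] := ⟨⟨_, hdet⟩, rfl⟩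
    refine ⟨QuotientGroup.mk' _ A0, ?_⟩
    have : Fact (Nat.Prime 7) := ⟨by norm_num⟩
    apply orderOf_eq_prime
    · apply psl2_mk_pow
      left
      rw [hA0]
      exact m2c7_t2 h7 _ _ _ _ (by ring) (by ring)
    · apply psl2_mk_ne_one
      rw [hA0]
      simp

theorem aff8_order {F : Type*} [Field F] [Fintype F] [CharP F 2] (hF : Fintype.card F = 8)
    (M : affGroup F) :
    orderOf M ∣ 2 ^ 2 ∨ orderOf M ∣ 3 ^ 2 ∨ orderOf M ∣ 7 ^ 1 := by
  by_cases ht : (M.1 : Matrix (Fin 3) (Fin 3) F) 0 0 + (M.1 : Matrix (Fin 3) (Fin 3) F) 1 1 = 0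
  · left
    exact orderOf_dvd_of_pow_eq_one (aff_pow4_of_trace_zero M ht)
  · rw [aff_orderOf_eq_block M ht]
    obtain ⟨A, hA⟩ : ∃ A, A = affBlock F M := ⟨_, rfl⟩
    have htr : (A : Matrix (Fin 2) (Fin 2) F) 0 0 + (A : Matrix (Fin 2) (Fin 2) F) 1 1 =
        (M.1 : Matrix (Fin 3) (Fin 3) F) 0 0 + (M.1 : Matrix (Fin 3) (Fin 3) F) 1 1 := by
      rw [hA]; rfl
    rw [← hA]
    rw [← htr] at ht
    have hdet := sl2_det_entries A
    have heta : (A : Matrix (Fin 2) (Fin 2) F) = !![(A : Matrix (Fin 2) (Fin 2) F) 0 0,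
        (A : Matrix (Fin 2) (Fin 2) F) 0 1; (A : Matrix (Fin 2) (Fin 2) F) 1 0,
        (A : Matrix (Fin 2) (Fin 2) F) 1 1] := Matrix.eta_fin_two _
    have key : ∀ k : ℕ, (A : Matrix (Fin 2) (Fin 2) F) ^ k = 1 → orderOf A ∣ k :=
      fun k hk => orderOf_dvd_of_pow_eq_one (sl2_pow_eq_one A k hk)
    rcases f8_cases hF ((A : Matrix (Fin 2) (Fin 2) F) 0 0 + (A : Matrix (Fin 2) (Fin 2) F) 1 1)
      with h | h | h | h
    · exact absurd h ht
    · right; left
      exact (key 3 (by rw [heta]; exact m2c2_pow3 _ _ _ _ hdet h)).trans (by norm_num)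
    · right; left
      exact (key 9 (by rw [heta]; exact m2c2_pow9 _ _ _ _ hdet h)).trans (by norm_num)
    · right; right
      exact (key 7 (by rw [heta]; exact m2c2_pow7 _ _ _ _ hdet h)).trans (by norm_num)

theorem aff8_exists {F : Type*} [Field F] [Fintype F] [CharP F 2] (hF : Fintype.card F = 8) :
    (∃ g : affGroup F, orderOf g = 2) ∧ (∃ g : affGroup F, orderOf g = 3) ∧
    (∃ g : affGroup F, orderOf g = 7) := by
  have h2 : (2 : F) = 0 := CharTwo.two_eq_zero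
  have hsl : ∀ n : ℕ, (∃ A : Matrix.SpecialLinearGroup (Fin 2) F, orderOf A = n) →
      (∃ M : affGroup F, orderOf M = n) := by
    rintro n ⟨A, rfl⟩
    exact ⟨affEmb F A, orderOf_injective _ affEmb_injective A⟩
  have hne : ∀ A : Matrix.SpecialLinearGroup (Fin 2) F,
      (A : Matrix (Fin 2) (Fin 2) F) 0 1 ≠ 0 → A ≠ 1 := by
    intro A h hA
    apply h
    rw [hA]
    simp
  refine ⟨hsl 2 ?_, hsl 3 ?_, hsl 7 ?_⟩
  · have hdet : (!![1, 1; 0, 1] : Matrix (Fin 2) (Fin 2) F).det = 1 := by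
      rw [Matrix.det_fin_two]; simp
    obtain ⟨A0, hA0⟩ : ∃ A0 : Matrix.SpecialLinearGroup (Fin 2) F,
        (A0 : Matrix (Fin 2) (Fin 2) F) = !![1, 1; 0, 1] := ⟨⟨_, hdet⟩, rfl⟩
    refine ⟨A0, ?_⟩
    have : Fact (Nat.Prime 2) := ⟨Nat.prime_two⟩
    apply orderOf_eq_prime
    · apply sl2_pow_eq_one
      rw [hA0]
      ext i j
      fin_cases i <;> fin_cases j <;>
        simp [pow_succ, Matrix.mul_apply, Fin.sum_univ_two] <;> grind
    · apply hne
      rw [hA0]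
      simp
  · have hdet : (!![0, 1; 1, 1] : Matrix (Fin 2) (Fin 2) F).det = 1 := by
      rw [Matrix.det_fin_two]; simp; grind
    obtain ⟨A0, hA0⟩ : ∃ A0 : Matrix.SpecialLinearGroup (Fin 2) F,
        (A0 : Matrix (Fin 2) (Fin 2) F) = !![0, 1; 1, 1] := ⟨⟨_, hdet⟩, rfl⟩
    refine ⟨A0, ?_⟩
    have : Fact (Nat.Prime 3) := ⟨Nat.prime_three⟩
    apply orderOf_eq_prime
    · apply sl2_pow_eq_one
      rw [hA0]
      exact m2c2_pow3 _ _ _ _ (by grind) (by ring)
    · apply hne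
      rw [hA0]
      simp
  · obtain ⟨t, ht⟩ := f8_exists_root hF
    have hdet : (!![0, 1; 1, t] : Matrix (Fin 2) (Fin 2) F).det = 1 := by
      rw [Matrix.det_fin_two]; simp; grind
    obtain ⟨A0, hA0⟩ : ∃ A0 : Matrix.SpecialLinearGroup (Fin 2) F,
        (A0 : Matrix (Fin 2) (Fin 2) F) = !![0, 1; 1, t] := ⟨⟨_, hdet⟩, rfl⟩
    refine ⟨A0, ?_⟩
    have : Fact (Nat.Prime 7) := ⟨by norm_num⟩
    apply orderOf_eq_prime
    · apply sl2_pow_eq_one
      rw [hA0]
      exact m2c2_pow7 _ _ _ _ (by grind) (by rw [zero_add]; exact ht)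
    · apply hne
      rw [hA0]
      simp

theorem no_edge_of_dvd (n : ℕ) (h : n ∣ 2 ^ 2 ∨ n ∣ 3 ^ 2 ∨ n ∣ 7 ^ 1) (p q : ℕ) (hp : p.Prime)
    (hq : q.Prime) (hpq : p ≠ q) : n ≠ p * q := by
  rintro rfl
  have key : ∀ r k : ℕ, r.Prime → p * q ∣ r ^ k → False := by
    intro r k hr hd
    have h1 : p = r := (Nat.prime_dvd_prime_iff_eq hp hr).mp
      (hp.dvd_of_dvd_pow ((dvd_mul_right p q).trans hd))
    have h2 : q = r := (Nat.prime_dvd_prime_iff_eq hq hr).mp
      (hq.dvd_of_dvd_pow ((dvd_mul_left q p).trans hd))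
    exact hpq (h1.trans h2.symm)
  rcases h with h | h | h
  · exact key 2 2 Nat.prime_two h
  · exact key 3 2 Nat.prime_three h
  · exact key 7 1 (by norm_num) h

theorem prime_cases_of_dvd (n : ℕ) (h : n ∣ 2 ^ 2 ∨ n ∣ 3 ^ 2 ∨ n ∣ 7 ^ 1) (hn : n.Prime) :
    n = 2 ∨ n = 3 ∨ n = 7 := by
  rcases h with h | h | h
  · exact Or.inl ((Nat.prime_dvd_prime_iff_eq hn Nat.prime_two).mp (hn.dvd_of_dvd_pow h))
  · exact Or.inr (Or.inl ((Nat.prime_dvd_prime_iff_eq hn Nat.prime_three).mp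
      (hn.dvd_of_dvd_pow h)))
  · exact Or.inr (Or.inr ((Nat.prime_dvd_prime_iff_eq hn (by norm_num)).mp
      (hn.dvd_of_dvd_pow h)))


end Cfsg.Agent.Helper6
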