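import Mathlib
import Cfsg.Agent.Helper6.BaerSuzuki

set_option autoImplicit false

open scoped Pointwise

namespace Cfsg.Agent.Helper6

universe u

/-- A real element of odd order of `G ⧸ N`, `N` a normal `2`-subgroup, lifts to one of `G`. -/
theorem real_odd_lift {G : Type*} [Group G] [Finite G] (N : Subgroup G) [N.Normal]
    (hN : IsPGroup 2 N) (xb : G ⧸ N) (hx1 : xb ≠ 1) (hodd : Odd (orderOf xb))
    (hreal : IsConj xb xb⁻¹) : ∃ y : G, y ≠ 1 ∧ Odd (orderOf y) ∧ IsConj y y⁻¹ := by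
  classical
  have hne1 : orderOf xb ≠ 1 := by rwa [Ne, orderOf_eq_one_iff]
  obtain ⟨q, hq, hqd⟩ := Nat.exists_prime_and_dvd hne1
  have hqf : Fact q.Prime := ⟨hq⟩
  have hqodd : Odd q := hodd.of_dvd_nat hqd
  obtain ⟨gb, hgb⟩ := isConj_iff.mp hreal
  have hpowreal : ∀ k : ℕ, gb * xb ^ k * gb⁻¹ = (xb ^ k)⁻¹ := by
    intro k
    rw [← conj_pow, hgb, inv_pow]
  obtain ⟨y0b, hy0b⟩ : ∃ y0b, y0b = xb ^ (orderOf xb / q) := ⟨_, rfl⟩
  have hy0ord : orderOf y0b = q := by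
    rw [hy0b]; exact orderOf_pow_orderOf_div (orderOf_pos xb).ne' hqd
  obtain ⟨y0, hy0⟩ := QuotientGroup.mk_surjective y0b
  obtain ⟨g, hg⟩ := QuotientGroup.mk_surjective gb
  obtain ⟨b, c, hc, hbc⟩ := Nat.exists_eq_pow_mul_and_not_dvd (orderOf_pos y0).ne' q hq.ne_one
  have hcpos : 0 < c := by
    rcases Nat.eq_zero_or_pos c with rfl | h
    · exact absurd (dvd_zero q) hc
    · exact h
  obtain ⟨y, hy⟩ : ∃ y, y = y0 ^ c := ⟨_, rfl⟩
  have hyord : orderOf y = q ^ b := by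
    rw [hy, orderOf_pow' _ hcpos.ne', hbc, Nat.gcd_eq_right (dvd_mul_left _ _),
      Nat.mul_div_cancel _ hcpos]
  have hyb : (y : G ⧸ N) = y0b ^ c := by rw [hy, QuotientGroup.mk_pow, hy0]
  have hyb1 : (y : G ⧸ N) ≠ 1 := by
    rw [hyb]
    intro h
    have := orderOf_dvd_of_pow_eq_one h
    rw [hy0ord] at this
    exact hc this
  have hybreal : gb * (y : G ⧸ N) * gb⁻¹ = (y : G ⧸ N)⁻¹ := by
    rw [hyb, hy0b, ← pow_mul]
    exact hpowreal _
  obtain ⟨z, hz⟩ : ∃ z, z = g * y * g⁻¹ := ⟨_, rfl⟩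
  have hzb : (z : G ⧸ N) = (y : G ⧸ N)⁻¹ := by
    rw [hz, QuotientGroup.mk_mul, QuotientGroup.mk_mul, QuotientGroup.mk_inv, hg, hybreal]
  have hzy : z * y ∈ N := by
    rw [← QuotientGroup.eq_one_iff, QuotientGroup.mk_mul, hzb, inv_mul_cancel]
  obtain ⟨L, hL⟩ : ∃ L : Subgroup G, L = Subgroup.zpowers y ⊔ N := ⟨_, rfl⟩
  have hyL : y ∈ L := by rw [hL]; exact Subgroup.mem_sup_left (Subgroup.mem_zpowers y)
  have hNL : N ≤ L := by rw [hL]; exact le_sup_right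
  have hzL : z ∈ L := by
    have : z = (z * y) * y⁻¹ := by group
    rw [this]
    exact L.mul_mem (hNL hzy) (L.inv_mem hyL)
  have hLcomm : ∀ l ∈ L, (l : G ⧸ N) * (y : G ⧸ N) = (y : G ⧸ N) * (l : G ⧸ N) := by
    intro l hl
    have hmap : L.map (QuotientGroup.mk' N) ≤ Subgroup.zpowers (y : G ⧸ N) := by
      rw [hL, Subgroup.map_sup, MonoidHom.map_zpowers, sup_le_iff]
      refine ⟨le_rfl, ?_⟩
      rw [Subgroup.map_le_iff_le_comap]
      intro n hn
      rw [Subgroup.mem_comap]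
      have : (QuotientGroup.mk' N) n = 1 := (QuotientGroup.eq_one_iff n).mpr hn
      rw [this]
      exact Subgroup.one_mem _
    have hmem : (l : G ⧸ N) ∈ Subgroup.zpowers (y : G ⧸ N) := hmap ⟨l, hl, rfl⟩
    obtain ⟨k, hk⟩ := Subgroup.mem_zpowers_iff.mp hmem
    rw [← hk]
    exact (Commute.zpow_self _ k)
  have hYp : IsPGroup q (Subgroup.zpowers (⟨y, hyL⟩ : L)) := by
    apply IsPGroup.of_card (n := b)
    rw [Nat.card_zpowers, ← hyord]
    exact Subgroup.orderOf_mk y hyL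
  have hzord : orderOf z = q ^ b := by
    rw [hz, Cfsg.Agent.Lead.orderOf_conj_eq, hyord]
  have hZp : IsPGroup q (Subgroup.zpowers (⟨z, hzL⟩ : L)) := by
    apply IsPGroup.of_card (n := b)
    rw [Nat.card_zpowers, ← hzord]
    exact Subgroup.orderOf_mk z hzL
  obtain ⟨Q, hQ⟩ := hYp.exists_le_sylow
  obtain ⟨Q', hQ'⟩ := hZp.exists_le_sylow
  obtain ⟨l, hl⟩ := MulAction.exists_smul_eq L Q' Q
  have h1 : l * ⟨z, hzL⟩ * l⁻¹ ∈ (Q : Subgroup L) := by
    have := Cfsg.Agent.Lead.conj_mem_conj_smul (g := l) (hQ' (Subgroup.mem_zpowers _))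
    rw [← Sylow.coe_subgroup_smul, hl] at this
    exact this
  have h2 : l * ⟨z, hzL⟩ * l⁻¹ * ⟨y, hyL⟩ ∈ (Q : Subgroup L) :=
    (Q : Subgroup L).mul_mem h1 (hQ (Subgroup.mem_zpowers _))
  have h3 : (l : G) * z * (l : G)⁻¹ * y ∈ N := by
    rw [← QuotientGroup.eq_one_iff]
    simp only [QuotientGroup.mk_mul, QuotientGroup.mk_inv]
    rw [hzb]
    have hc' := hLcomm l l.2
    have e : ((l : G) : G ⧸ N) * ((y : G) : G ⧸ N)⁻¹ = ((y : G) : G ⧸ N)⁻¹ * ((l : G) : G ⧸ N) := by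
      rw [eq_inv_mul_iff_mul_eq, ← mul_assoc, ← hc', mul_assoc, mul_inv_cancel, mul_one]
    rw [e, mul_assoc, mul_assoc, mul_inv_cancel_left, inv_mul_cancel]
  have h4 : (l : G) * z * (l : G)⁻¹ * y = 1 := by
    obtain ⟨k, hk⟩ := (IsPGroup.iff_orderOf.mp Q.isPGroup') ⟨_, h2⟩
    obtain ⟨j, hj⟩ := (IsPGroup.iff_orderOf.mp hN) ⟨_, h3⟩
    rw [Subgroup.orderOf_mk] at hk hj
    have e1 : orderOf ((l : G) * z * (l : G)⁻¹ * y) = q ^ k := by
      rw [← hk, ← Subgroup.orderOf_coe]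
      rfl
    rw [e1] at hj
    have hk0 : k = 0 := by
      by_contra hk0
      have hq2 : q ∣ 2 ^ j := by rw [← hj]; exact dvd_pow_self q hk0
      have hq2' : q ∣ 2 := hq.dvd_of_dvd_pow hq2
      have : q = 2 := (Nat.prime_dvd_prime_iff_eq hq Nat.prime_two).mp hq2'
      rw [this] at hqodd
      exact absurd hqodd (by decide)
    rw [hk0, pow_zero] at e1
    exact orderOf_eq_one_iff.mp e1
  refine ⟨y, ?_, ?_, ?_⟩
  · rintro rfl
    exact hyb1 (by simp)
  · rw [hyord]; exact hqodd.pow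
  · rw [isConj_iff]
    refine ⟨(l : G) * g, ?_⟩
    have e : (l : G) * g * y * ((l : G) * g)⁻¹ = (l : G) * z * (l : G)⁻¹ := by rw [hz]; group
    rw [e]
    exact eq_inv_of_mul_eq_one_left h4

theorem no_real_odd_of_sylow_two_normal {G : Type*} [Group G] [Finite G] (P : Sylow 2 G)
    (hP : (P : Subgroup G).Normal) (x : G) (hx1 : x ≠ 1) (hodd : Odd (orderOf x)) :
    ¬ IsConj x x⁻¹ := by
  intro hconj
  obtain ⟨g, hg⟩ := isConj_iff.mp hconj
  obtain ⟨a, m, hm, hnm⟩ := Nat.exists_eq_two_pow_mul_odd (orderOf_pos g).ne'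
  have hpow : ∀ k : ℕ, Odd k → g ^ k * x * (g ^ k)⁻¹ = x⁻¹ := by
    have hcomm : Commute (g ^ 2) x := by
      have e1 : g * x = x⁻¹ * g := by rw [← hg]; group
      have e2 : g * x⁻¹ = x * g := by
        have e4 : g * x⁻¹ * g⁻¹ = x := by
          have e3 : g * x⁻¹ * g⁻¹ = (g * x * g⁻¹)⁻¹ := by group
          rw [e3, hg, inv_inv]
        have e5 : g * x⁻¹ = (g * x⁻¹ * g⁻¹) * g := by group
        rw [e5, e4]
      show g ^ 2 * x = x * g ^ 2
      rw [pow_two, mul_assoc, e1, ← mul_assoc, e2, mul_assoc]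
    rintro k ⟨j, rfl⟩
    have hc2 : Commute ((g ^ 2) ^ j) x := hcomm.pow_left j
    rw [pow_succ, pow_mul]
    calc (g ^ 2) ^ j * g * x * ((g ^ 2) ^ j * g)⁻¹
        = (g ^ 2) ^ j * (g * x * g⁻¹) * ((g ^ 2) ^ j)⁻¹ := by
          rw [mul_inv_rev]; simp only [mul_assoc]
      _ = (g ^ 2) ^ j * x⁻¹ * ((g ^ 2) ^ j)⁻¹ := by rw [hg]
      _ = x⁻¹ := by rw [(hc2.inv_right).eq, mul_inv_cancel_right]
  obtain ⟨g2, hg2⟩ : ∃ g2, g2 = g ^ m := ⟨_, rfl⟩
  have hg2ord : orderOf g2 = 2 ^ a := by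
    rw [hg2, orderOf_pow' _ hm.pos.ne', hnm, Nat.gcd_eq_right (dvd_mul_left _ _),
      Nat.mul_div_cancel _ hm.pos]
  have hg2P : g2 ∈ (P : Subgroup G) := by
    have hp : IsPGroup 2 (Subgroup.zpowers g2) :=
      IsPGroup.of_card (n := a) (by rw [Nat.card_zpowers, hg2ord])
    obtain ⟨Q, hQ⟩ := hp.exists_le_sylow
    obtain ⟨c, hc⟩ := MulAction.exists_smul_eq G P Q
    have hPn : P.Normal := hP
    rw [Sylow.smul_eq_of_normal] at hc
    rw [hc]
    exact hQ (Subgroup.mem_zpowers g2)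
  have hx2 : x⁻¹ * x⁻¹ ∈ (P : Subgroup G) := by
    have e : x⁻¹ * x⁻¹ = g2 * (x * g2⁻¹ * x⁻¹) := by
      have h3 := hpow m hm
      rw [← hg2] at h3
      rw [← h3]; group
    rw [e]
    exact (P : Subgroup G).mul_mem hg2P (hP.conj_mem _ ((P : Subgroup G).inv_mem hg2P) x)
  have hx2' : x ^ 2 ∈ (P : Subgroup G) := by
    have e : x ^ 2 = (x⁻¹ * x⁻¹)⁻¹ := by group
    rw [e]
    exact (P : Subgroup G).inv_mem hx2
  obtain ⟨k, hk⟩ := (IsPGroup.iff_orderOf.mp P.isPGroup') ⟨x ^ 2, hx2'⟩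
  rw [Subgroup.orderOf_mk] at hk
  have hdvd : orderOf (x ^ 2) ∣ orderOf x := orderOf_pow_dvd 2
  have hk0 : orderOf (x ^ 2) = 1 := by
    rw [hk] at hdvd ⊢
    rcases Nat.eq_zero_or_pos k with rfl | hkpos
    · simp
    · exfalso
      have h2 : 2 ∣ orderOf x := (dvd_pow_self 2 hkpos.ne').trans hdvd
      exact (Nat.not_even_iff_odd.mpr hodd) (even_iff_two_dvd.mpr h2)
  have hx2one : x ^ 2 = 1 := orderOf_eq_one_iff.mp hk0
  have h2 : orderOf x ∣ 2 := orderOf_dvd_of_pow_eq_one hx2one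
  have h1 : orderOf x = 1 := by
    rcases (Nat.dvd_prime Nat.prime_two).mp h2 with h | h
    · exact h
    · rw [h] at hodd; exact absurd hodd (by decide)
  exact hx1 (orderOf_eq_one_iff.mp h1)

theorem sylow_two_normal_of_no_real_odd_aux : ∀ n : ℕ, ∀ (G : Type u) [Group G] [Finite G],
    Nat.card G = n → (∀ x : G, x ≠ 1 → Odd (orderOf x) → ¬ IsConj x x⁻¹) →
    ∀ P : Sylow 2 G, (P : Subgroup G).Normal := by
  intro n
  induction n using Nat.strong_induction_on with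
  | _ n ih =>
    intro G _ _ hn hG P
    by_cases hN : Cfsg.pCore 2 G = ⊥
    · have hno : ∀ t : G, orderOf t ≠ 2 := by
        intro t ht
        have ht1 : t ∉ Cfsg.pCore 2 G := by
          rw [hN, Subgroup.mem_bot]; exact Cfsg.Agent.Lead.ne_one_of_orderOf_two ht
        obtain ⟨h, h1, h2, h3⟩ := involution_inverts_odd t ht ht1
        exact hG h h1 h2 (isConj_iff.mpr ⟨t, h3⟩)
      have hP : (P : Subgroup G) = ⊥ := by
        by_contra hne
        have hnt : Nontrivial (P : Subgroup G) := (Subgroup.nontrivial_iff_ne_bot _).mpr hne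
        obtain ⟨k, hk⟩ := IsPGroup.iff_card.mp P.isPGroup'
        have hk0 : k ≠ 0 := by
          rintro rfl
          have := Finite.one_lt_card (α := (P : Subgroup G))
          rw [hk] at this
          simp at this
        have h2 : 2 ∣ Nat.card (P : Subgroup G) := by rw [hk]; exact dvd_pow_self 2 hk0
        obtain ⟨t, ht⟩ := exists_prime_orderOf_dvd_card' 2 h2
        exact hno t.1 (by rw [Subgroup.orderOf_coe]; exact ht)
      rw [hP]
      infer_instance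
    · have hNn : (Cfsg.pCore 2 G).Normal := Cfsg.Agent.Helper5.pCore_normal 2 G
      have hNp : IsPGroup 2 (Cfsg.pCore 2 G) := Cfsg.Agent.Helper5.pCore_isPGroup
      have hlt : Nat.card (G ⧸ Cfsg.pCore 2 G) < n := by
        rw [← hn, ← Subgroup.index_eq_card, ← Subgroup.card_mul_index (Cfsg.pCore 2 G)]
        have hnt : Nontrivial (Cfsg.pCore 2 G) := (Subgroup.nontrivial_iff_ne_bot _).mpr hN
        have h1 := Finite.one_lt_card (α := (Cfsg.pCore 2 G))
        have h2 : 0 < (Cfsg.pCore 2 G).index := Nat.pos_of_ne_zero Subgroup.index_ne_zero_of_finite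
        nlinarith
      have hquot : ∀ x : G ⧸ Cfsg.pCore 2 G, x ≠ 1 → Odd (orderOf x) → ¬ IsConj x x⁻¹ := by
        intro xb h1 h2 h3
        obtain ⟨y, hy1, hy2, hy3⟩ := real_odd_lift (Cfsg.pCore 2 G) hNp xb h1 h2 h3
        exact hG y hy1 hy2 hy3
      have hPb := ih _ hlt (G ⧸ Cfsg.pCore 2 G) rfl hquot
        (P.mapSurjective (QuotientGroup.mk'_surjective _))
      have hcomap : (P : Subgroup G) = ((P : Subgroup G).map
          (QuotientGroup.mk' (Cfsg.pCore 2 G))).comap (QuotientGroup.mk' (Cfsg.pCore 2 G)) := by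
        rw [Subgroup.comap_map_eq, QuotientGroup.ker_mk']
        exact (sup_eq_left.mpr (Cfsg.Agent.Helper5.pCore_le_sylow P)).symm
      rw [hcomap]
      exact Subgroup.Normal.comap hPb _

theorem sylow_two_normal_of_no_real_odd {G : Type u} [Group G] [Finite G]
    (hG : ∀ x : G, x ≠ 1 → Odd (orderOf x) → ¬ IsConj x x⁻¹) (P : Sylow 2 G) :
    (P : Subgroup G).Normal :=
  sylow_two_normal_of_no_real_odd_aux _ G rfl hG P

end Cfsg.Agent.Helper6
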