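import Mathlib
import Cfsg.Agent.Helper6.Coprime

set_option autoImplicit false

open scoped Pointwise

namespace Cfsg.Agent.Helper6

universe u

variable {G : Type u} [Group G]

theorem not_dvd_relIndex_of_sylow_le [Finite G] {p : ℕ} [Fact p.Prime] (N A : Subgroup G)
    (S : Sylow p ↥N) (hS : ∀ s ∈ S, (s : G) ∈ A) : ¬ p ∣ (A ⊓ N).relIndex N := by
  have h1 : (S : Subgroup N).map N.subtype ≤ A ⊓ N := by
    rintro _ ⟨s, hs, rfl⟩
    exact Subgroup.mem_inf.mpr ⟨hS s hs, s.2⟩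
  have h2 : (A ⊓ N).relIndex N ∣ ((S : Subgroup N).map N.subtype).relIndex N :=
    Subgroup.relIndex_dvd_of_le_left N h1
  have h3 : ((S : Subgroup N).map N.subtype).relIndex N = (S : Subgroup N).index := by
    unfold Subgroup.relIndex Subgroup.subgroupOf
    rw [Subgroup.comap_map_eq_self_of_injective N.subtype_injective]
  rw [h3] at h2
  exact fun hp => S.not_dvd_index (dvd_trans hp h2)

theorem card_le_card_of_conj_le [Finite G] (A B : Subgroup G) (y : G)
    (h : ∀ a ∈ A, y * a * y⁻¹ ∈ B) : Nat.card A ≤ Nat.card B := by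
  apply Nat.card_le_card_of_injective (fun a : A => (⟨y * a * y⁻¹, h a a.2⟩ : B))
  intro a b hab
  have h1 : y * (a : G) * y⁻¹ = y * (b : G) * y⁻¹ := congrArg Subtype.val hab
  apply Subtype.ext
  calc (a : G) = y⁻¹ * (y * (a : G) * y⁻¹) * y := by group
    _ = y⁻¹ * (y * (b : G) * y⁻¹) * y := by rw [h1]
    _ = b := by group

/-- Generic fusion-control lemma: if every Sylow `Q` is conjugate to `P` by an element centralizing
`P ⊓ Q`, and `N_G(P) = C_G(P) P`, then `P` controls its own fusion. -/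
theorem fusion_of_conj_factor {p : ℕ} [Fact p.Prime] (P : Sylow p G)
    (hconj : ∀ Q : Sylow p G, ∃ c ∈ Subgroup.centralizer
      ((((P : Subgroup G) ⊓ (Q : Subgroup G) : Subgroup G)) : Set G), Q = c • P)
    (hfacP : ∀ n ∈ Subgroup.normalizer ((P : Subgroup G) : Set G),
      ∃ c' ∈ Subgroup.centralizer ((P : Subgroup G) : Set G), ∃ s ∈ (P : Subgroup G), n = c' * s)
    (x g : G) (hx : x ∈ P) (hgx : g * x * g⁻¹ ∈ P) : ∃ u ∈ P, g * x * g⁻¹ = u * x * u⁻¹ := by
  have hxQ : x ∈ ((g⁻¹ • P : Sylow p G) : Subgroup G) := by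
    rw [Sylow.coe_subgroup_smul, Cfsg.Agent.Lead.mem_conj_smul_iff, inv_inv]
    exact hgx
  obtain ⟨c, hc, hQ⟩ := hconj (g⁻¹ • P)
  have hcx : x * c = c * x :=
    (Subgroup.mem_centralizer_iff.mp hc) x (Subgroup.mem_inf.mpr ⟨hx, hxQ⟩)
  have hn : (g * c) • P = P := by rw [mul_smul, ← hQ, smul_inv_smul]
  have hnN : g * c ∈ Subgroup.normalizer ((P : Subgroup G) : Set G) :=
    Sylow.smul_eq_iff_mem_normalizer.mp hn
  obtain ⟨c', hc', s, hsP, hfac⟩ := hfacP _ hnN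
  refine ⟨s, hsP, ?_⟩
  have hsx : s * x * s⁻¹ ∈ (P : Subgroup G) := mul_mem (mul_mem hsP hx) (inv_mem hsP)
  have hc'' := (Subgroup.mem_centralizer_iff.mp hc') _ hsx
  have hcxc : c * x * c⁻¹ = x := by rw [← hcx, mul_inv_cancel_right]
  calc g * x * g⁻¹ = g * (c * x * c⁻¹) * g⁻¹ := by rw [hcxc]
    _ = (g * c) * x * (g * c)⁻¹ := by group
    _ = c' * (s * x * s⁻¹) * c'⁻¹ := by rw [hfac]; group
    _ = s * x * s⁻¹ := by rw [← hc'', mul_inv_cancel_right]

/-- Sylow conjugation through centralizers of intersections, using the normalizer factorization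
only for *tame* intersections `D = P ⊓ Q` (those with `N_P(D)`, `N_Q(D)` Sylow in `N_G(D)`). -/
theorem sylow_conj_centralizer_tame [Finite G] {p : ℕ} [Fact p.Prime] (P : Sylow p G)
    (h : ∀ (Q : Sylow p G) (D : Subgroup G), D = (P : Subgroup G) ⊓ (Q : Subgroup G) → D ≠ ⊥ →
      ¬ p ∣ ((P : Subgroup G) ⊓ Subgroup.normalizer (D : Set G)).relIndex
        (Subgroup.normalizer (D : Set G)) →
      ¬ p ∣ ((Q : Subgroup G) ⊓ Subgroup.normalizer (D : Set G)).relIndex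
        (Subgroup.normalizer (D : Set G)) →
      ∀ (S : Sylow p ↥(Subgroup.normalizer (D : Set G)))
        (n : ↥(Subgroup.normalizer (D : Set G))),
        ∃ c ∈ Subgroup.centralizer (D : Set G), ∃ s ∈ S, (n : G) = c * (s : G)) :
    ∀ (m : ℕ) (Q : Sylow p G),
      Nat.card G - Nat.card ↥((P : Subgroup G) ⊓ (Q : Subgroup G)) = m →
      ∃ c ∈ Subgroup.centralizer ((((P : Subgroup G) ⊓ (Q : Subgroup G) : Subgroup G)) : Set G),
        Q = c • P := by
  intro m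
  induction m using Nat.strong_induction_on with
  | _ m ih =>
    intro Q hm
    by_cases hPQ : P = Q
    · exact ⟨1, Subgroup.one_mem _, by rw [one_smul]; exact hPQ.symm⟩
    obtain ⟨D, hDdef⟩ : ∃ D : Subgroup G, D = (P : Subgroup G) ⊓ (Q : Subgroup G) := ⟨_, rfl⟩
    rw [← hDdef] at hm ⊢
    by_cases hDbot : D = ⊥
    · obtain ⟨c, hc⟩ := MulAction.exists_smul_eq G P Q
      refine ⟨c, ?_, hc.symm⟩
      rw [hDbot, Subgroup.mem_centralizer_iff]
      intro x hx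
      rw [Subgroup.coe_bot, Set.mem_singleton_iff] at hx
      rw [hx, one_mul, mul_one]
    have hDp : IsPGroup p D := by rw [hDdef]; exact P.2.to_le inf_le_left
    have hDP : D < (P : Subgroup G) := by
      rw [hDdef]
      refine lt_of_le_of_ne inf_le_left (fun h0 => hPQ ?_)
      have hle : (P : Subgroup G) ≤ Q := inf_eq_left.mp h0
      exact Sylow.ext (P.3 Q.2 hle).symm
    have hDQ : D < (Q : Subgroup G) := by
      rw [hDdef]
      refine lt_of_le_of_ne inf_le_right (fun h0 => hPQ ?_)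
      have hle : (Q : Subgroup G) ≤ P := inf_eq_right.mp h0
      exact Sylow.ext (Q.3 P.2 hle)
    have hP1 := Cfsg.Agent.Helper4.lt_inf_normalizer (P : Subgroup G) D P.2 hDP
    have hQ1 := Cfsg.Agent.Helper4.lt_inf_normalizer (Q : Subgroup G) D Q.2 hDQ
    have hDleP : D ≤ (P : Subgroup G) := hDP.le
    have hDleQ : D ≤ (Q : Subgroup G) := hDQ.le
    have hDN : D ≤ Subgroup.normalizer (D : Set G) := Subgroup.le_normalizer
    have hCN : Subgroup.centralizer (D : Set G) ≤ Subgroup.normalizer (D : Set G) :=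
      Subgroup.centralizer_le_normalizer _
    -- Step A
    obtain ⟨S₀, hS₀⟩ := exists_sylow_subgroup_ge (Subgroup.normalizer (D : Set G))
      ((P : Subgroup G) ⊓ Subgroup.normalizer (D : Set G)) (P.2.to_le inf_le_left)
    obtain ⟨R₁, hR₁⟩ := (S₀.2.map (Subgroup.normalizer (D : Set G)).subtype).exists_le_sylow
    have hD_PR : D < (P : Subgroup G) ⊓ (R₁ : Subgroup G) := by
      refine lt_of_lt_of_le hP1 ?_
      intro a ha
      have ha' := Subgroup.mem_inf.mp ha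
      exact Subgroup.mem_inf.mpr ⟨ha'.1, hR₁ ⟨⟨a, ha'.2⟩, hS₀ a ha'.2 ha, rfl⟩⟩
    have hcard1 := card_lt_of_lt' hD_PR
    have hle1 : Nat.card ↥((P : Subgroup G) ⊓ (R₁ : Subgroup G)) ≤ Nat.card G :=
      Subgroup.card_le_card_group _
    obtain ⟨c₁, hc₁, hR1⟩ :=
      ih (Nat.card G - Nat.card ↥((P : Subgroup G) ⊓ (R₁ : Subgroup G))) (by omega) R₁ rfl
    have hc₁D : c₁ ∈ Subgroup.centralizer (D : Set G) :=
      Subgroup.centralizer_le (by exact_mod_cast hD_PR.le) hc₁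
    have hc₁N : c₁ ∈ Subgroup.normalizer (D : Set G) := hCN hc₁D
    obtain ⟨S₁, hS₁def⟩ : ∃ S₁ : Sylow p ↥(Subgroup.normalizer (D : Set G)),
        S₁ = (⟨c₁, hc₁N⟩ : ↥(Subgroup.normalizer (D : Set G)))⁻¹ • S₀ := ⟨_, rfl⟩
    have hS₁ : ∀ s ∈ S₁, (s : G) ∈ (P : Subgroup G) := by
      intro s hs
      rw [hS₁def, mem_sylow_smul_iff, inv_inv] at hs
      have h1 : c₁ * (s : G) * c₁⁻¹ ∈ (R₁ : Subgroup G) := hR₁ ⟨_, hs, rfl⟩
      rw [hR1, Sylow.coe_subgroup_smul, Cfsg.Agent.Lead.mem_conj_smul_iff] at h1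
      have e : c₁⁻¹ * (c₁ * (s : G) * c₁⁻¹) * c₁ = s := by group
      rwa [e] at h1
    have htame1 := not_dvd_relIndex_of_sylow_le _ (P : Subgroup G) S₁ hS₁
    -- Step B
    obtain ⟨T₀, hT₀⟩ := exists_sylow_subgroup_ge (Subgroup.normalizer (D : Set G))
      ((Q : Subgroup G) ⊓ Subgroup.normalizer (D : Set G)) (Q.2.to_le inf_le_left)
    obtain ⟨R₂, hR₂⟩ := (T₀.2.map (Subgroup.normalizer (D : Set G)).subtype).exists_le_sylow
    have hQN_R₂ : ∀ b ∈ (Q : Subgroup G), b ∈ Subgroup.normalizer (D : Set G) →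
        b ∈ (R₂ : Subgroup G) := by
      intro b hb hbN
      exact hR₂ ⟨⟨b, hbN⟩, hT₀ b hbN (Subgroup.mem_inf.mpr ⟨hb, hbN⟩), rfl⟩
    obtain ⟨y, hy⟩ := MulAction.exists_smul_eq G P Q
    have hD_lt : Nat.card D <
        Nat.card ↥((P : Subgroup G) ⊓ ((y⁻¹ • R₂ : Sylow p G) : Subgroup G)) := by
      have h1 := card_lt_of_lt' hQ1
      have h2 : Nat.card ↥((Q : Subgroup G) ⊓ Subgroup.normalizer (D : Set G)) ≤
          Nat.card ↥((P : Subgroup G) ⊓ ((y⁻¹ • R₂ : Sylow p G) : Subgroup G)) := by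
        apply card_le_card_of_conj_le _ _ y⁻¹
        intro b hb
        have hb' := Subgroup.mem_inf.mp hb
        refine Subgroup.mem_inf.mpr ⟨?_, ?_⟩
        · have h3 : b ∈ ((y • P : Sylow p G) : Subgroup G) := by rw [hy]; exact hb'.1
          rw [Sylow.coe_subgroup_smul, Cfsg.Agent.Lead.mem_conj_smul_iff] at h3
          rw [inv_inv]; exact h3
        · rw [Sylow.coe_subgroup_smul, Cfsg.Agent.Lead.mem_conj_smul_iff]
          have e : y⁻¹⁻¹ * (y⁻¹ * b * y⁻¹⁻¹) * y⁻¹ = b := by group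
          rw [e]; exact hQN_R₂ b hb'.1 hb'.2
      omega
    have hle2 := Subgroup.card_le_card_group
      ((P : Subgroup G) ⊓ ((y⁻¹ • R₂ : Sylow p G) : Subgroup G))
    obtain ⟨c', hc', hR2⟩ :=
      ih (Nat.card G - Nat.card ↥((P : Subgroup G) ⊓ ((y⁻¹ • R₂ : Sylow p G) : Subgroup G)))
        (by omega) (y⁻¹ • R₂) rfl
    have hR2' : R₂ = (y * c' * y⁻¹) • Q := by
      rw [← hy, mul_smul, mul_smul, inv_smul_smul, ← hR2, smul_inv_smul]
    have hc₂D : y * c' * y⁻¹ ∈ Subgroup.centralizer (D : Set G) := by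
      rw [Subgroup.mem_centralizer_iff]
      intro d hd
      have hdP : y⁻¹ * d * y ∈ (P : Subgroup G) := by
        have h3 : d ∈ ((y • P : Sylow p G) : Subgroup G) := by rw [hy]; exact hDleQ hd
        rwa [Sylow.coe_subgroup_smul, Cfsg.Agent.Lead.mem_conj_smul_iff] at h3
      have hdR : y⁻¹ * d * y ∈ ((y⁻¹ • R₂ : Sylow p G) : Subgroup G) := by
        rw [Sylow.coe_subgroup_smul, Cfsg.Agent.Lead.mem_conj_smul_iff]
        have e : y⁻¹⁻¹ * (y⁻¹ * d * y) * y⁻¹ = d := by group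
        rw [e]; exact hQN_R₂ d (hDleQ hd) (hDN hd)
      have h1 := (Subgroup.mem_centralizer_iff.mp hc') _ (Subgroup.mem_inf.mpr ⟨hdP, hdR⟩)
      calc d * (y * c' * y⁻¹) = y * ((y⁻¹ * d * y) * c') * y⁻¹ := by group
        _ = y * (c' * (y⁻¹ * d * y)) * y⁻¹ := by rw [h1]
        _ = y * c' * y⁻¹ * d := by group
    have hc₂N := hCN hc₂D
    obtain ⟨T₁, hT₁def⟩ : ∃ T₁ : Sylow p ↥(Subgroup.normalizer (D : Set G)),
        T₁ = (⟨y * c' * y⁻¹, hc₂N⟩ : ↥(Subgroup.normalizer (D : Set G)))⁻¹ • T₀ := ⟨_, rfl⟩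
    have hT₁ : ∀ s ∈ T₁, (s : G) ∈ (Q : Subgroup G) := by
      intro s hs
      rw [hT₁def, mem_sylow_smul_iff, inv_inv] at hs
      have h1 : (y * c' * y⁻¹) * (s : G) * (y * c' * y⁻¹)⁻¹ ∈ (R₂ : Subgroup G) :=
        hR₂ ⟨_, hs, rfl⟩
      rw [hR2', Sylow.coe_subgroup_smul, Cfsg.Agent.Lead.mem_conj_smul_iff] at h1
      have e : (y * c' * y⁻¹)⁻¹ * ((y * c' * y⁻¹) * (s : G) * (y * c' * y⁻¹)⁻¹) *
          (y * c' * y⁻¹) = s := by group
      rwa [e] at h1
    have htame2 := not_dvd_relIndex_of_sylow_le _ (Q : Subgroup G) T₁ hT₁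
    -- Step C
    have hT₁ge : ∀ b ∈ (Q : Subgroup G), ∀ hbN : b ∈ Subgroup.normalizer (D : Set G),
        (⟨b, hbN⟩ : ↥(Subgroup.normalizer (D : Set G))) ∈ T₁ := by
      have hK : IsPGroup p (((Q : Subgroup G) ⊓ Subgroup.normalizer (D : Set G)).subgroupOf
          (Subgroup.normalizer (D : Set G))) := (Q.2.to_le inf_le_left).comap_subtype
      have hle : (T₁ : Subgroup _) ≤ ((Q : Subgroup G) ⊓
          Subgroup.normalizer (D : Set G)).subgroupOf (Subgroup.normalizer (D : Set G)) := by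
        intro s hs
        rw [Subgroup.mem_subgroupOf]
        exact Subgroup.mem_inf.mpr ⟨hT₁ s hs, s.2⟩
      have heq := T₁.3 hK hle
      intro b hb hbN
      have h0 : (⟨b, hbN⟩ : ↥(Subgroup.normalizer (D : Set G))) ∈
          ((Q : Subgroup G) ⊓ Subgroup.normalizer (D : Set G)).subgroupOf
            (Subgroup.normalizer (D : Set G)) := by
        rw [Subgroup.mem_subgroupOf]; exact Subgroup.mem_inf.mpr ⟨hb, hbN⟩
      rw [heq] at h0
      exact h0
    obtain ⟨n, hn⟩ := MulAction.exists_smul_eq ↥(Subgroup.normalizer (D : Set G)) S₁ T₁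
    obtain ⟨c, hc, s, hs, hncs⟩ := h Q D hDdef hDbot htame1 htame2 S₁ n
    have hQcP : ∀ b ∈ (Q : Subgroup G), b ∈ Subgroup.normalizer (D : Set G) →
        c⁻¹ * b * c ∈ (P : Subgroup G) := by
      intro b hb hbN
      have h1 := hT₁ge b hb hbN
      rw [← hn, mem_sylow_smul_iff] at h1
      have h3 : s * (n⁻¹ * ⟨b, hbN⟩ * n) * s⁻¹ ∈ S₁ := mul_mem (mul_mem hs h1) (inv_mem hs)
      have h4 : ((s * (n⁻¹ * ⟨b, hbN⟩ * n) * s⁻¹ : ↥(Subgroup.normalizer (D : Set G))) : G)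
          = c⁻¹ * b * c := by
        simp only [Subgroup.coe_mul, Subgroup.coe_inv, hncs]
        group
      rw [← h4]
      exact hS₁ _ h3
    have hD_lt2 : Nat.card D <
        Nat.card ↥((P : Subgroup G) ⊓ ((c⁻¹ • Q : Sylow p G) : Subgroup G)) := by
      have h1 := card_lt_of_lt' hQ1
      have h2 : Nat.card ↥((Q : Subgroup G) ⊓ Subgroup.normalizer (D : Set G)) ≤
          Nat.card ↥((P : Subgroup G) ⊓ ((c⁻¹ • Q : Sylow p G) : Subgroup G)) := by
        apply card_le_card_of_conj_le _ _ c⁻¹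
        intro b hb
        have hb' := Subgroup.mem_inf.mp hb
        refine Subgroup.mem_inf.mpr ⟨?_, ?_⟩
        · rw [inv_inv]; exact hQcP b hb'.1 hb'.2
        · rw [Sylow.coe_subgroup_smul, Cfsg.Agent.Lead.mem_conj_smul_iff]
          have e : c⁻¹⁻¹ * (c⁻¹ * b * c⁻¹⁻¹) * c⁻¹ = b := by group
          rw [e]; exact hb'.1
      omega
    have hle3 := Subgroup.card_le_card_group
      ((P : Subgroup G) ⊓ ((c⁻¹ • Q : Sylow p G) : Subgroup G))
    obtain ⟨c'', hc'', hQ3⟩ :=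
      ih (Nat.card G - Nat.card ↥((P : Subgroup G) ⊓ ((c⁻¹ • Q : Sylow p G) : Subgroup G)))
        (by omega) (c⁻¹ • Q) rfl
    refine ⟨c * c'', ?_, ?_⟩
    · apply Subgroup.mul_mem _ hc
      refine Subgroup.centralizer_le ?_ hc''
      intro d hd
      refine Subgroup.mem_inf.mpr ⟨hDleP hd, ?_⟩
      rw [Sylow.coe_subgroup_smul, Cfsg.Agent.Lead.mem_conj_smul_iff]
      have h1 := (Subgroup.mem_centralizer_iff.mp hc) d hd
      have e : c⁻¹⁻¹ * d * c⁻¹ = d := by rw [inv_inv, ← h1, mul_inv_cancel_right]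
      rw [e]; exact hDleQ hd
    · rw [mul_smul, ← hQ3, smul_inv_smul]

end Cfsg.Agent.Helper6
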