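import Mathlib
import Cfsg.Agent.Helper6.ThompsonTransfer

set_option autoImplicit false

namespace Cfsg.Agent.Helper6

open MulAction Subgroup

/-- Transfer of the sign of `P/Q` on an element `u` of 2-power order, all of whose conjugates in `P`
lie outside `Q` while conjugates of its proper 2-power powers lying in `P` lie in `Q`. -/
theorem transfer_sign_two_pow {G : Type*} [Group G] [Finite G] (P Q : Subgroup G)
    (hQi : Q.relIndex P = 2) (hodd : Odd P.index) (u : G) (n : ℕ) (hu : u ^ 2 ^ n = 1)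
    (hconj : ∀ g : G, g⁻¹ * u * g ∈ P → g⁻¹ * u * g ∉ Q)
    (hpow : ∀ j : ℕ, 1 ≤ j → ∀ g : G, g⁻¹ * u ^ 2 ^ j * g ∈ P → g⁻¹ * u ^ 2 ^ j * g ∈ Q) :
    MonoidHom.transfer (signOfIndexTwo P Q hQi) u = -1 := by
  classical
  have : Fintype (Quotient (orbitRel (zpowers u) (G ⧸ P))) := Fintype.ofFinite _
  rw [MonoidHom.transfer_eq_prod_quotient_orbitRel_zpowers_quot]
  have haux : ∀ (k : G) (m : ℕ) (hm : k⁻¹ * u ^ m * k ∈ P), m ∣ 2 ^ n →
      signOfIndexTwo P Q hQi ⟨k⁻¹ * u ^ m * k, hm⟩ = (-1 : ℤˣ) ^ m := by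
    intro k m hm hdvd
    obtain ⟨j, _, rfl⟩ := (Nat.dvd_prime_pow Nat.prime_two).mp hdvd
    rcases Nat.eq_zero_or_pos j with h0 | hpos
    · subst h0
      rw [signOfIndexTwo_of_not_mem]
      · simp
      · show k⁻¹ * u ^ 2 ^ 0 * k ∉ Q
        have h1 : u ^ 2 ^ 0 = u := by simp
        rw [h1] at hm ⊢
        exact hconj _ hm
    · have h1 : ((-1 : ℤˣ)) ^ 2 ^ j = 1 :=
        Even.neg_one_pow (Nat.even_pow.mpr ⟨even_two, by omega⟩)
      rw [h1]
      apply signOfIndexTwo_of_mem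
      exact hpow j hpos k hm
  have hterm : ∀ q : Quotient (orbitRel (zpowers u) (G ⧸ P)),
      signOfIndexTwo P Q hQi ⟨q.out.out⁻¹ * u ^ Function.minimalPeriod (u • ·) q.out * q.out.out,
            QuotientGroup.out_conj_pow_minimalPeriod_mem P u q.out⟩
        = (-1 : ℤˣ) ^ Function.minimalPeriod (u • ·) q.out := by
    intro q
    apply haux
    apply Function.IsPeriodicPt.minimalPeriod_dvd
    show (fun x : G ⧸ P => u • x)^[2 ^ n] q.out = q.out
    rw [smul_iterate_apply, hu, one_smul]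
  rw [Finset.prod_congr rfl (fun q _ => hterm q), Finset.prod_pow_eq_pow_sum,
    ← Subgroup.index_eq_sum_minimalPeriod P u]
  exact hodd.neg_one_pow

/-- A homomorphism to `ℤˣ` taking the value `-1` has kernel of index 2. -/
theorem index_ker_of_neg_one {G : Type*} [Group G] (τ : G →* ℤˣ) (u : G) (hτ : τ u = -1) :
    τ.ker.index = 2 := by
  rw [Subgroup.index_ker]
  have htop : τ.range = ⊤ := by
    rw [eq_top_iff]
    intro x _
    rcases Int.units_eq_one_or x with h | h
    · rw [h]; exact one_mem _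
    · rw [h, ← hτ]; exact ⟨u, rfl⟩
  rw [htop, Subgroup.card_top, Nat.card_eq_fintype_card, Fintype.card_units_int]

end Cfsg.Agent.Helper6
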