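import Mathlib
import Cfsg.Agent.Helper6.Gaschutz

set_option autoImplicit false

namespace Cfsg.Agent.Helper6

open MulAction Subgroup

open scoped IsMulCommutative in
/-- **Transfer with fusion trivial modulo `R`.** `P` a Sylow `p`-subgroup of `G`, `R` normal
in `P` with `P/R` abelian, and `G`-fusion in `P` trivial modulo `R`. Then `G` has a normal
subgroup `L` with `G = L P` and `L ∩ P ≤ R`. -/
theorem transfer_ker_of_fusion_mod {G : Type*} [Group G] [Finite G] {p : ℕ} [Fact p.Prime]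
    (P : Subgroup G) (hP : IsPGroup p P) (hPi : ¬ p ∣ P.index) (R : Subgroup P) [R.Normal]
    (hcomm : commutator P ≤ R)
    (hfus : ∀ (x : P) (g : G) (h : g⁻¹ * x * g ∈ P),
      QuotientGroup.mk' R ⟨g⁻¹ * x * g, h⟩ = QuotientGroup.mk' R x) :
    ∃ L : Subgroup G, L.Normal ∧ L ⊔ P = ⊤ ∧ ∀ x : P, (x : G) ∈ L → x ∈ R := by
  classical
  have hp : p.Prime := Fact.out
  have hc : IsMulCommutative (P ⧸ R) :=
    (Subgroup.Normal.quotient_commutative_iff_commutator_le).mpr hcomm
  set ϕ : P →* P ⧸ R := QuotientGroup.mk' R with hϕ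
  have key : ∀ x : P, MonoidHom.transfer ϕ (x : G) = ϕ x ^ P.index := by
    intro x
    have : Fintype (Quotient (orbitRel (zpowers (x : G)) (G ⧸ P))) := Fintype.ofFinite _
    rw [MonoidHom.transfer_eq_prod_quotient_orbitRel_zpowers_quot]
    have haux : ∀ (k : G) (n : ℕ) (hn : k⁻¹ * (x : G) ^ n * k ∈ P),
        ϕ ⟨k⁻¹ * (x : G) ^ n * k, hn⟩ = ϕ x ^ n := by
      intro k n hn
      have h1 := hfus (x ^ n) k (by simpa using hn)
      rw [← map_pow]
      rw [← h1]
      congr 1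
    rw [Finset.prod_congr rfl (fun q _ => haux _ _ _), Finset.prod_pow_eq_pow_sum,
      ← Subgroup.index_eq_sum_minimalPeriod P (x : G)]
  have hcop : (Nat.card (P ⧸ R)).Coprime P.index := by
    obtain ⟨k, hk⟩ := IsPGroup.iff_card.mp (hP.to_quotient R)
    rw [hk]
    exact Nat.Coprime.pow_left k ((Nat.Prime.coprime_iff_not_dvd hp).mpr hPi)
  obtain ⟨m', hm'⟩ := exists_root_exponent (P ⧸ R) P.index hcop
  refine ⟨(MonoidHom.transfer ϕ).ker, inferInstance, ?_, ?_⟩
  · rw [eq_top_iff]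
    intro g _
    obtain ⟨x, hx⟩ := QuotientGroup.mk'_surjective R (MonoidHom.transfer ϕ g)
    have h1 : MonoidHom.transfer ϕ ((x ^ m' : P) : G) = MonoidHom.transfer ϕ g := by
      rw [key, map_pow, ← pow_mul, mul_comm, hm']
      exact hx
    have h2 : g * ((x ^ m' : P) : G)⁻¹ ∈ (MonoidHom.transfer ϕ).ker := by
      rw [MonoidHom.mem_ker, map_mul, map_inv, h1, mul_inv_cancel]
    have h3 : g = g * ((x ^ m' : P) : G)⁻¹ * ((x ^ m' : P) : G) := by group
    rw [h3]
    exact Subgroup.mul_mem _ (Subgroup.mem_sup_left h2) (Subgroup.mem_sup_right (x ^ m').2)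
  · intro x hx
    rw [MonoidHom.mem_ker, key] at hx
    have h1 : ϕ x = 1 := by
      rw [← hm' (ϕ x), pow_mul, hx, one_pow]
    exact (QuotientGroup.eq_one_iff x).mp h1

end Cfsg.Agent.Helper6
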